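import Cfsg.Agent.Lib.SThreeSSix.Direct.Ops

/-!
The two possible shapes of `V` as a module for `S₃ × A₆`: the 3-cycle is fixed-point-free
(`Frame.Free`), or its commutator space is four elements (`Frame.Small`).
-/

set_option autoImplicit false
set_option linter.style.haveILetI false

namespace CfsgLib.SThreeSSix.Direct

variable {G : Type*} [Group G] {Q : G → Subgroup G} {z : G}

namespace Frame

variable [Finite G] (F : Frame Q z)
include F

/-- `u ↦ g u · u`. -/
noncomputable def dd (g : MulAut F.V) : F.V →* F.V where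
  toFun u := g u * u
  map_one' := by simp
  map_mul' u w := by rw [map_mul]; ac_rfl

theorem dd_apply (g : MulAut F.V) (u : F.V) : F.dd g u = g u * u := rfl

theorem mem_ker_dd (g : MulAut F.V) (u : F.V) : u ∈ (F.dd g).ker ↔ g u = u := by
  rw [MonoidHom.mem_ker, dd_apply, F.mul_eq_one]

theorem card_range_mul_ker (f : F.V →* F.V) : Nat.card f.range * Nat.card f.ker = 256 := by
  rw [← F.card_V, ← Subgroup.card_mul_index f.ker, Subgroup.index_ker, mul_comm]

theorem range_le_ker {g : MulAut F.V} (hg : g * g = 1) : (F.dd g).range ≤ (F.dd g).ker := by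
  rintro _ ⟨u, rfl⟩
  rw [F.mem_ker_dd, dd_apply, map_mul, ← MulAut.mul_apply, hg, MulAut.one_apply, mul_comm]

theorem act_mul (σ σ' : P3) : F.act (σ * σ') = F.act σ * F.act σ' := by
  unfold Frame.act
  rw [← map_mul]; simp [Prod.mk_mul_mk]

theorem act_one : F.act 1 = 1 := map_one F.ψ

theorem act_ψ_comm (σ : P3) (h : ↥A6) (u : F.V) :
    F.act σ (F.ψ (1, h) u) = F.ψ (1, h) (F.act σ u) := by
  rw [← MulAut.mul_apply, ← MulAut.mul_apply]
  unfold Frame.act
  rw [← map_mul, ← map_mul]; simp [Prod.mk_mul_mk]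

theorem act_odd_sq {τ : P3} (hτ : Equiv.Perm.sign τ = -1) : F.act τ * F.act τ = 1 := by
  rw [← act_mul, odd_sq τ hτ, F.act_one]

theorem act_c3_cube (u : F.V) : F.act c3 (F.act c3 (F.act c3 u)) = u := by
  rw [← MulAut.mul_apply, ← MulAut.mul_apply, ← act_mul, ← act_mul,
    show c3 * c3 * c3 = 1 by decide +kernel]
  rw [F.act_one]; rfl

theorem orth_ψ (p : P3 × ↥A6) (u w : F.V) : F.Orth (F.ψ p u) (F.ψ p w) ↔ F.Orth u w := by
  obtain ⟨m, -, hm⟩ := F.exists_lift_ψ p.1 p.2
  rw [← hm]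
  exact F.orth_ρ m u w

theorem sing_ψ (p : P3 × ↥A6) (u : F.V) : F.IsSing (F.ψ p u) ↔ F.IsSing u := by
  obtain ⟨m, -, hm⟩ := F.exists_lift_ψ p.1 p.2
  rw [← hm]
  exact F.sing_ρ m u

theorem orth_dd_fixed {p : P3 × ↥A6} {w : F.V} (hw : F.ψ p w = w) (u : F.V) :
    F.Orth (F.dd (F.ψ p) u) w := by
  rw [dd_apply, F.orth_mul_iff]
  conv_lhs => rw [← hw]
  exact F.orth_ψ p u w

theorem ρ_ne_one_of_π {m : ↥(Subgroup.centralizer ({z} : Set G))} (h : F.π m ≠ 1) : F.ρ m ≠ 1 :=
  fun e => h ((F.ker m).2 (F.mem_of_ρ_eq_one e))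

theorem ψ_ne_one {p : P3 × ↥A6} (hp : p ≠ 1) : F.ψ p ≠ 1 := by
  obtain ⟨m, hm, e⟩ := F.exists_lift_ψ p.1 p.2
  intro h
  refine F.ρ_ne_one_of_π (m := m) ?_ (e.trans h)
  rw [hm]
  intro h'
  have e1 : p.1 = 1 := congrArg Prod.fst h'
  have e2 : (p.2 : Equiv.Perm (Fin 6)) = 1 := congrArg Prod.snd h'
  exact hp (Prod.ext e1 (Subtype.ext e2))

/-- Fixed points of the 5-cycle on an invariant subgroup. -/
theorem five_card (S : Subgroup F.V) (hS : ∀ u ∈ S, F.ψ (1, fiveA) u ∈ S) :
    Nat.card {u : S // F.ψ (1, fiveA) (u : F.V) = u} ≡ Nat.card S [MOD 5] := by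
  classical
  haveI := Fintype.ofFinite S
  haveI : Fact (Nat.Prime 5) := ⟨by norm_num⟩
  let f : S → S := fun u => ⟨_, hS u u.2⟩
  have hinj : Function.Injective f := fun a b e =>
    Subtype.ext ((F.ψ (1, fiveA)).injective (congrArg Subtype.val e :))
  let σ : Equiv.Perm S := Equiv.ofBijective f hinj.bijective_of_finite
  have hpow : ∀ (n : ℕ) (u : S), (((σ ^ n) u : S) : F.V) = (F.ψ (1, fiveA) ^ n) (u : F.V) := by
    intro n
    induction n with
    | zero => intro u; rfl
    | succ n ih =>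
      intro u
      rw [pow_succ', pow_succ', Equiv.Perm.mul_apply, MulAut.mul_apply, ← ih]
      rfl
  have h5 : σ ^ 5 = 1 := by
    ext u
    rw [hpow, ← map_pow, Prod.pow_mk, one_pow, fiveA_pow,
      show ((1, 1) : P3 × ↥A6) = 1 from rfl, map_one]
    rfl
  have h := Equiv.Perm.card_compl_support_modEq (σ := σ) (p := 5) (n := 1) (by rwa [pow_one])
  rw [← Nat.card_eq_fintype_card] at h
  refine Nat.ModEq.trans ?_ h
  rw [Nat.card_eq_fintype_card, Fintype.card_subtype]
  refine congrArg (fun t : Finset S => t.card % 5) ?_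
  ext u
  simp only [Finset.mem_filter, Finset.mem_univ, true_and, Finset.mem_compl,
    Equiv.Perm.mem_support, not_not]
  exact ⟨fun h => Subtype.ext h, fun h => congrArg Subtype.val h⟩

/-- The subgroup fixed by the 5-cycle inside `S`. -/
theorem five_fixed_pow (S : Subgroup F.V) (hS : ∀ u ∈ S, F.ψ (1, fiveA) u ∈ S) :
    ∃ k j, j ≤ k ∧ k ≤ 8 ∧ Nat.card S = 2 ^ k ∧ 2 ^ j % 5 = 2 ^ k % 5 ∧
      (j = k → ∀ u ∈ S, F.ψ (1, fiveA) u = u) ∧
      (j = 0 → ∀ u ∈ S, F.ψ (1, fiveA) u = u → u = 1) := by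
  let T : Subgroup F.V :=
    { carrier := {u | u ∈ S ∧ F.ψ (1, fiveA) u = u}
      one_mem' := ⟨S.one_mem, map_one _⟩
      mul_mem' := fun {a b} ha hb => ⟨S.mul_mem ha.1 hb.1, by rw [map_mul, ha.2, hb.2]⟩
      inv_mem' := fun {a} ha => ⟨S.inv_mem ha.1, by rw [map_inv, ha.2]⟩ }
  have h256 : Nat.card F.V = 2 ^ 8 := F.card_V
  obtain ⟨k, hk8, hk⟩ := (Nat.dvd_prime_pow Nat.prime_two).1 (h256 ▸ Subgroup.card_subgroup_dvd_card S)
  obtain ⟨j, -, hj⟩ := (Nat.dvd_prime_pow Nat.prime_two).1 (h256 ▸ Subgroup.card_subgroup_dvd_card T)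
  have hTS : T ≤ S := fun u hu => hu.1
  have e : Nat.card {u : S // F.ψ (1, fiveA) (u : F.V) = u} = Nat.card T :=
    Nat.card_congr ⟨fun u => ⟨u.1, u.1.2, u.2⟩, fun u => ⟨⟨u, u.2.1⟩, u.2.2⟩,
      fun u => rfl, fun u => rfl⟩
  have hm := F.five_card S hS
  rw [e, hj, hk] at hm
  have hle := Subgroup.card_le_of_le hTS
  rw [hj, hk] at hle
  refine ⟨k, j, (Nat.pow_le_pow_iff_right (by norm_num)).1 hle, hk8, hk, hm, ?_, ?_⟩
  · intro hjk u hu
    have : T = S := Subgroup.eq_of_le_of_card_ge hTS (by rw [hj, hk, hjk])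
    exact (this ▸ hu : u ∈ T).2
  · intro hj0 u hu hf
    have hb : T = ⊥ := Subgroup.card_eq_one.1 (by rw [hj, hj0, pow_zero])
    have : u ∈ T := ⟨hu, hf⟩
    rwa [hb, Subgroup.mem_bot] at this

/-- `A₆` fixes what the 5-cycle fixes, on an invariant subgroup. -/
theorem alt_fixed (S : Subgroup F.V) (hS : ∀ (h : ↥A6), ∀ u ∈ S, F.ψ (1, h) u ∈ S)
    (hf : ∀ u ∈ S, F.ψ (1, fiveA) u = u) (h : ↥A6) {u : F.V} (hu : u ∈ S) :
    F.ψ (1, h) u = u := by
  let φ : ↥A6 →* MulAut S :=
    { toFun := fun h =>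
        { toFun := fun u => ⟨_, hS h u u.2⟩
          invFun := fun u => ⟨_, hS h⁻¹ u u.2⟩
          left_inv := fun u => Subtype.ext (by
            show F.ψ (1, h⁻¹) (F.ψ (1, h) u) = u
            rw [← MulAut.mul_apply, ← map_mul, Prod.mk_mul_mk, one_mul, inv_mul_cancel,
              show ((1, 1) : P3 × ↥A6) = 1 from rfl, map_one]; rfl)
          right_inv := fun u => Subtype.ext (by
            show F.ψ (1, h) (F.ψ (1, h⁻¹) u) = u
            rw [← MulAut.mul_apply, ← map_mul, Prod.mk_mul_mk, one_mul, mul_inv_cancel,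
              show ((1, 1) : P3 × ↥A6) = 1 from rfl, map_one]; rfl)
          map_mul' := fun u w => Subtype.ext (map_mul _ _ _) }
      map_one' := by
        ext u; show F.ψ (1, 1) (u : F.V) = u
        rw [show ((1, 1) : P3 × ↥A6) = 1 from rfl, map_one]; rfl
      map_mul' := fun a b => by
        ext u; show F.ψ (1, a * b) (u : F.V) = F.ψ (1, a) (F.ψ (1, b) u)
        rw [← MulAut.mul_apply, ← map_mul, Prod.mk_mul_mk, one_mul] }
  have h5 : φ fiveA = 1 := by
    ext u; exact hf u u.2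
  exact congrArg (fun w : S => (w : F.V)) (DFunLike.congr_fun (alt_hom_eq_one φ h5 h) ⟨u, hu⟩)

/-- Transitivity on an invariant subgroup of order 16 where the 5-cycle is free. -/
theorem transitive_sixteen (S : Subgroup F.V) (hS : ∀ (h : ↥A6), ∀ u ∈ S, F.ψ (1, h) u ∈ S)
    (hcard : Nat.card S = 16) (hfree : ∀ u ∈ S, F.ψ (1, fiveA) u = u → u = 1)
    {u w : F.V} (hu : u ∈ S) (hw : w ∈ S) (hu1 : u ≠ 1) (hw1 : w ≠ 1) :
    ∃ h : ↥A6, F.ψ (1, h) u = w := by
  classical
  let α := {x : F.V // x ∈ S ∧ x ≠ 1}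
  letI : MulAction ↥A6 α :=
    { smul := fun h x => ⟨F.ψ (1, h) x.1, hS h _ x.2.1, fun e =>
        x.2.2 ((F.ψ (1, h)).injective (e.trans (map_one _).symm))⟩
      one_smul := fun x => Subtype.ext (by
        show F.ψ (1, 1) x.1 = x.1
        rw [show ((1, 1) : P3 × ↥A6) = 1 from rfl, map_one]; rfl)
      mul_smul := fun a b x => Subtype.ext (by
        show F.ψ (1, a * b) x.1 = F.ψ (1, a) (F.ψ (1, b) x.1)
        rw [← MulAut.mul_apply, ← map_mul, Prod.mk_mul_mk, one_mul]) }
  have hα : Nat.card α = 15 := by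
    have e : Nat.card α = ((S : Set F.V) \ {1}).ncard := by
      rw [← Nat.card_coe_set_eq]
      exact Nat.card_congr (Equiv.subtypeEquivRight fun x => Iff.rfl)
    rw [e, Set.ncard_sdiff (by simp), Set.ncard_singleton, ← Nat.card_coe_set_eq]
    show Nat.card S - 1 = 15
    rw [hcard]
  obtain ⟨h, e⟩ := alt_transitive (α := α) hα (fun x e => x.2.2 (hfree _ x.2.1 (congrArg Subtype.val e)))
    ⟨u, hu, hu1⟩ ⟨w, hw, hw1⟩
  exact ⟨h, congrArg Subtype.val e⟩

/-- No nondegenerate invariant subgroup of order 16 with free 5-cycle. -/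
theorem no_quadric (S : Subgroup F.V) (hS : ∀ (h : ↥A6), ∀ u ∈ S, F.ψ (1, h) u ∈ S)
    (hcard : Nat.card S = 16) (hfree : ∀ u ∈ S, F.ψ (1, fiveA) u = u → u = 1)
    (hnd : ∀ u ∈ S, (∀ w ∈ S, F.Orth u w) → u = 1) : False := by
  classical
  have hsame : ∀ u ∈ S, ∀ w ∈ S, u ≠ 1 → w ≠ 1 → (F.IsSing u ↔ F.IsSing w) := by
    intro u hu w hw hu1 hw1
    obtain ⟨h, rfl⟩ := F.transitive_sixteen S hS hcard hfree hu hw hu1 hw1
    exact (F.sing_ψ _ u).symm
  obtain ⟨u, hu, hu1⟩ : ∃ u ∈ S, u ≠ 1 := by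
    by_contra h
    push Not at h
    rw [(Subgroup.eq_bot_iff_forall S).2 h, Subgroup.card_bot] at hcard
    norm_num at hcard
  obtain ⟨w, hw, huw⟩ : ∃ w ∈ S, ¬ F.Orth u w := by
    by_contra h
    push Not at h
    exact hu1 (hnd u hu h)
  have hw1 : w ≠ 1 := fun e => huw (e ▸ F.orth_comm.1 (F.orth_one u))
  have huw1 : u * w ≠ 1 := fun e => huw (by
    obtain rfl := F.mul_eq_one.1 e
    obtain ⟨x, hx, rfl⟩ := F.exists_rep u
    exact (F.orth_v hx hx).2 rfl)
  -- a second vector orthogonal to `u`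
  obtain ⟨v, hv, hv1, hvu, huv⟩ : ∃ v ∈ S, v ≠ 1 ∧ v ≠ u ∧ F.Orth u v := by
    obtain ⟨x, hx, hx'⟩ : ∃ x ∈ S, x ∉ ({1, u, w, u * w} : Set F.V) := by
      by_contra h
      push Not at h
      have := Set.ncard_le_ncard (s := (S : Set F.V)) h (Set.toFinite _)
      rw [← Nat.card_coe_set_eq] at this
      have h4 : ({1, u, w, u * w} : Set F.V).ncard ≤ 4 := by
        refine le_trans (Set.ncard_insert_le _ _) ?_
        refine Nat.succ_le_succ (le_trans (Set.ncard_insert_le _ _) ?_)
        refine Nat.succ_le_succ (le_trans (Set.ncard_insert_le _ _) ?_)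
        rw [Set.ncard_singleton]
      have h16 : Nat.card ↥(S : Set F.V) = 16 := hcard
      omega
    simp only [Set.mem_insert_iff, Set.mem_singleton_iff, not_or] at hx'
    by_cases ho : F.Orth u x
    · exact ⟨x, hx, hx'.1, hx'.2.1, ho⟩
    · refine ⟨x * w, S.mul_mem hx hw, fun e => hx'.2.2.1 (F.mul_eq_one.1 e), fun e => ?_, ?_⟩
      · apply hx'.2.2.2
        rw [← e, mul_assoc, F.mul_self, mul_one]
      · rw [F.orth_comm, F.orth_mul_iff]
        exact iff_of_false (fun h => ho (F.orth_comm.1 h)) (fun h => huw (F.orth_comm.1 h))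
  have huv1 : u * v ≠ 1 := fun e => hvu (F.mul_eq_one.1 e).symm
  have a1 := hsame u hu w hw hu1 hw1
  have a2 := hsame u hu (u * w) (S.mul_mem hu hw) hu1 huw1
  have b1 := hsame u hu v hv hu1 hv1
  have b2 := hsame u hu (u * v) (S.mul_mem hu hv) hu1 huv1
  rw [F.sing_mul_iff] at a2 b2
  tauto

/-- The second case: `[V, c3]` has four elements. -/
structure Small : Prop where
  card_U : Nat.card (F.dd (F.act c3)).range = 4
  nonsing : ∀ u ∈ (F.dd (F.act c3)).range, u ≠ 1 → ¬ F.IsSing u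
  orth : ∀ u ∈ (F.dd (F.act c3)).range, ∀ x ∈ F.E c3, F.Orth u x
  disj : ∀ u ∈ (F.dd (F.act c3)).range, u ∈ F.E c3 → u = 1
  split : ∀ v, ∃ x ∈ F.E c3, ∃ u ∈ (F.dd (F.act c3)).range, v = x * u
  perp : ∀ v, (∀ u ∈ (F.dd (F.act c3)).range, F.Orth v u) → v ∈ F.E c3
  fix_U : ∀ m, (F.π m).1 = 1 → ∀ u ∈ (F.dd (F.act c3)).range, F.ρ m u = u

theorem free_or_small : F.Free ∨ F.Small := by
  classical
  set X := F.E c3 with hXdef
  set U := (F.dd (F.act c3)).range with hUdef
  have hXker : (F.dd (F.act c3)).ker = X := by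
    ext u; rw [F.mem_ker_dd]; rfl
  have hdisj : ∀ u ∈ U, u ∈ X → u = 1 := by
    rintro _ ⟨x, rfl⟩ hx
    rw [hXdef, F.mem_E, dd_apply, map_mul] at hx
    rw [dd_apply]
    have h1 : F.act c3 (F.act c3 x) = x := by
      have := congrArg (fun t => t * F.act c3 x) hx
      rwa [mul_assoc, F.mul_self, mul_one, mul_comm (F.act c3 x) x, mul_assoc, F.mul_self, mul_one]
        at this
    have h2 := F.act_c3_cube x
    rw [h1] at h2
    rw [h2, F.mul_self]
  have hXU : Nat.card X * Nat.card U = 256 := by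
    rw [← hXker, mul_comm]; exact F.card_range_mul_ker _
  have hsplit : ∀ v, ∃ x ∈ X, ∃ u ∈ U, v = x * u := by
    let f : X × U → F.V := fun p => p.1 * p.2
    have hinj : Function.Injective f := by
      rintro ⟨x, u⟩ ⟨x', u'⟩ e
      simp only [f] at e
      have h1 : (x : F.V) * x' = (u : F.V) * u' := by
        calc (x : F.V) * x' = (x : F.V) * u * ((u : F.V) * x') := by
              rw [mul_assoc, ← mul_assoc (u : F.V) u, F.mul_self, one_mul]
          _ = (x' : F.V) * u' * ((u : F.V) * x') := by rw [e]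
          _ = ((x' : F.V) * x') * ((u : F.V) * u') := by ac_rfl
          _ = _ := by rw [F.mul_self, one_mul]
      have h2 := hdisj _ (U.mul_mem u.2 u'.2) (h1 ▸ X.mul_mem x.2 x'.2)
      rw [h2, F.mul_eq_one] at h1
      exact Prod.ext (Subtype.ext h1) (Subtype.ext (F.mul_eq_one.1 h2))
    have hb := hinj.bijective_of_nat_card_le (by rw [Nat.card_prod, hXU, F.card_V])
    intro v
    obtain ⟨p, rfl⟩ := hb.2 v
    exact ⟨p.1, p.1.2, p.2, p.2.2, rfl⟩
  have horth : ∀ u ∈ U, ∀ x ∈ X, F.Orth u x := by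
    rintro _ ⟨w, rfl⟩ x hx
    exact F.orth_dd_fixed (p := (c3, 1)) hx w
  have hperp : ∀ v, (∀ u ∈ U, F.Orth v u) → v ∈ X := by
    intro v hv
    obtain ⟨x, hx, u, hu, rfl⟩ := hsplit v
    suffices u = 1 by rw [this, mul_one]; exact hx
    refine F.orth_nondeg fun w => ?_
    obtain ⟨x', hx', u', hu', rfl⟩ := hsplit w
    rw [F.orth_comm, F.orth_mul_iff]
    refine iff_of_true (F.orth_comm.1 (horth u hu x' hx')) ?_
    have := hv u' hu'
    rw [F.orth_mul_iff] at this
    exact F.orth_comm.1 (this.1 (F.orth_comm.1 (horth u' hu' x hx)))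
  -- invariance
  have hA6X : ∀ (h : ↥A6), ∀ u ∈ X, F.ψ (1, h) u ∈ X := by
    intro h u hu
    rw [hXdef, F.mem_E] at hu ⊢
    rw [F.act_ψ_comm, hu]
  have hA6U : ∀ (h : ↥A6), ∀ u ∈ U, F.ψ (1, h) u ∈ U := by
    rintro h _ ⟨w, rfl⟩
    exact ⟨F.ψ (1, h) w, by rw [dd_apply, dd_apply, map_mul, F.act_ψ_comm]⟩
  have hτU : ∀ τ, Equiv.Perm.sign τ = -1 → ∀ u ∈ U, F.act τ u ∈ U := by
    rintro τ hτ _ ⟨w, rfl⟩
    refine ⟨F.act c3 (F.act τ w) * F.act τ w, ?_⟩
    have e : F.act τ (F.act c3 w) = F.act c3 (F.act c3 (F.act τ w)) := by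
      rw [← MulAut.mul_apply, ← MulAut.mul_apply, ← MulAut.mul_apply, ← act_mul, ← act_mul,
        ← act_mul, ← odd_inverts τ hτ, inv_mul_cancel_right]
    simp only [dd_apply, map_mul, e]
    rw [mul_assoc, ← mul_assoc (F.act c3 (F.act τ w)), F.mul_self, one_mul]
  -- fixed spaces in `U`
  have hc3mem : ∀ τ τ', Equiv.Perm.sign τ = -1 → Equiv.Perm.sign τ' = -1 → τ ≠ τ' →
      ∀ u ∈ F.E τ, u ∈ F.E τ' → u ∈ X := by
    intro τ τ' hτ hτ' hne u hu hu'
    rw [hXdef, F.mem_E]
    rcases odd_eq τ τ' hτ hτ' hne with e | e <;> rw [← e, act_mul, MulAut.mul_apply]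
    · rw [(hu' : F.act τ' u = u), (hu : F.act τ u = u)]
    · rw [(hu : F.act τ u = u), (hu' : F.act τ' u = u)]
  let t1 : P3 := c3 * t0 * c3⁻¹
  have ht1 : Equiv.Perm.sign t1 = -1 := by decide +kernel
  have ht01 : t0 ≠ t1 := by decide +kernel
  have hcA : ∀ u, F.act t1 (F.act c3 u) = F.act c3 (F.act t0 u) := by
    intro u
    rw [← MulAut.mul_apply, ← MulAut.mul_apply, ← act_mul, ← act_mul]
    simp only [t1, inv_mul_cancel_right]
  let A : Subgroup F.V := F.E t0 ⊓ U
  let A' : Subgroup F.V := F.E t1 ⊓ U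
  have hcU : ∀ u ∈ U, F.act c3 u ∈ U := by
    rintro _ ⟨w, rfl⟩; exact ⟨F.act c3 w, by rw [dd_apply, dd_apply, map_mul]⟩
  have hAA' : Nat.card A ≤ Nat.card A' :=
    Nat.card_le_card_of_injective (fun u : A => (⟨F.act c3 u,
      ⟨(by rw [hcA, (u.2.1 : F.act t0 u = u)] : F.act t1 (F.act c3 u) = F.act c3 u), hcU _ u.2.2⟩⟩ : A'))
      fun a b e => Subtype.ext ((F.act c3).injective (congrArg Subtype.val e :))
  have hAdisj : Nat.card ↥(A ⊓ A') = 1 := by
    rw [Subgroup.card_eq_one, Subgroup.eq_bot_iff_forall]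
    exact fun u hu => hdisj u hu.1.2 (hc3mem t0 t1 t0_sign ht1 ht01 u hu.1.1 hu.2.1)
  have hAUle : Nat.card A * Nat.card A' ≤ Nat.card U := by
    have := card_mul_card_le (inf_le_right : A ≤ U) (inf_le_right : A' ≤ U)
    rwa [hAdisj, one_mul] at this
  have hUA : Nat.card U ≤ Nat.card A * Nat.card A := by
    let d : U →* F.V := (F.dd (F.act t0)).comp U.subtype
    have h := Subgroup.card_mul_index d.ker
    rw [Subgroup.index_ker] at h
    rw [← h]
    refine Nat.mul_le_mul ?_ ?_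
    · refine Nat.card_le_card_of_injective (fun u : d.ker => (⟨((u : U) : F.V), ?_, (u : U).2⟩ : A)) ?_
      · exact (F.mem_ker_dd _ _).1 u.2
      · intro a b e; exact Subtype.ext (Subtype.ext (congrArg Subtype.val e :))
    · refine Subgroup.card_le_of_le ?_
      rintro _ ⟨u, rfl⟩
      refine ⟨(F.mem_ker_dd _ _).1 (F.range_le_ker (F.act_odd_sq t0_sign) ⟨_, rfl⟩), ?_⟩
      exact U.mul_mem (hτU _ t0_sign _ u.2) u.2
  have hA'A : Nat.card A = Nat.card A' := by
    refine le_antisymm hAA' ?_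
    have := hAUle.trans hUA
    exact Nat.le_of_mul_le_mul_left this Nat.card_pos
  have hUsq : Nat.card U = Nat.card A * Nat.card A :=
    le_antisymm hUA (hA'A ▸ hAUle)
  -- `U = A A'`
  have hUgen : ∀ u ∈ U, ∃ a ∈ A, ∃ a' ∈ A', u = a * a' := by
    let f : A × A' → U := fun p => ⟨(p.1 : F.V) * p.2, U.mul_mem p.1.2.2 p.2.2.2⟩
    have hinj : Function.Injective f := by
      rintro ⟨x, u⟩ ⟨x', u'⟩ e
      have e := congrArg Subtype.val e
      simp only [f] at e
      have h1 : (x : F.V) * x' = (u : F.V) * u' := by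
        calc (x : F.V) * x' = (x : F.V) * u * ((u : F.V) * x') := by
              rw [mul_assoc, ← mul_assoc (u : F.V) u, F.mul_self, one_mul]
          _ = (x' : F.V) * u' * ((u : F.V) * x') := by rw [e]
          _ = ((x' : F.V) * x') * ((u : F.V) * u') := by ac_rfl
          _ = _ := by rw [F.mul_self, one_mul]
      have hm : (x : F.V) * x' ∈ A ⊓ A' := ⟨A.mul_mem x.2 x'.2, h1 ▸ A'.mul_mem u.2 u'.2⟩
      rw [Subgroup.card_eq_one.1 hAdisj, Subgroup.mem_bot] at hm
      exact Prod.ext (Subtype.ext (F.mul_eq_one.1 hm)) (Subtype.ext (F.mul_eq_one.1 (h1 ▸ hm)))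
    have hb := hinj.bijective_of_nat_card_le (by rw [Nat.card_prod, hUsq, hA'A])
    intro u hu
    obtain ⟨p, hp⟩ := hb.2 ⟨u, hu⟩
    exact ⟨p.1, p.1.2, p.2, p.2.2, (congrArg Subtype.val hp).symm⟩
  have hA6A : ∀ (h : ↥A6), ∀ u ∈ A, F.ψ (1, h) u ∈ A := by
    intro h u hu
    refine ⟨?_, hA6U h u hu.2⟩
    show F.act t0 _ = _
    rw [F.act_ψ_comm, (hu.1 : F.act t0 u = u)]
  obtain ⟨k, j, hjk, hk8, hk, hmod, hjfull, hjfree⟩ := F.five_fixed_pow A (hA6A fiveA)
  have hk4 : k ≤ 4 := by
    have : Nat.card U ≤ 256 := hXU ▸ Nat.le_mul_of_pos_left _ Nat.card_pos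
    rw [hUsq, hk, ← pow_add] at this
    have := (Nat.pow_le_pow_iff_right (show 1 < 2 by norm_num)).1
      (this.trans (by norm_num : (256:ℕ) ≤ 2 ^ 8))
    omega
  by_cases hk4' : k = 4
  · -- free case
    left
    subst hk4'
    have hX1 : Nat.card X = 1 := by
      rw [hUsq, hk] at hXU; omega
    have hcfree : ∀ u, F.act c3 u = u → u = 1 := fun u hu =>
      Subgroup.mem_bot.1 (Subgroup.card_eq_one.1 hX1 ▸ (hu : u ∈ X))
    have hd : ∀ τ τ', Equiv.Perm.sign τ = -1 → Equiv.Perm.sign τ' = -1 → τ ≠ τ' →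
        ∀ u ∈ F.E τ, u ∈ F.E τ' → u = 1 := fun τ τ' h1 h2 h3 u hu hu' =>
      hcfree u (hc3mem τ τ' h1 h2 h3 u hu hu')
    have h16 : ∀ τ, Equiv.Perm.sign τ = -1 → Nat.card (F.E τ) = 16 ∧
        (F.dd (F.act τ)).range = F.E τ := by
      intro τ hτ
      have hker : (F.dd (F.act τ)).ker = F.E τ := by ext u; rw [F.mem_ker_dd]; rfl
      have hle := F.range_le_ker (F.act_odd_sq hτ)
      rw [hker] at hle
      have hc := F.card_range_mul_ker (F.dd (F.act τ))
      rw [hker] at hc
      have hle' := Subgroup.card_le_of_le hle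
      let τ' : P3 := if τ = t0 then t1 else t0
      have hτ' : Equiv.Perm.sign τ' = -1 := by
        simp only [τ']; split <;> first | exact ht1 | exact t0_sign
      have hne : τ ≠ τ' := by
        simp only [τ']
        split
        · next h => rw [h]; exact ht01
        · next h => exact h
      have hmeet : Nat.card ↥(F.E τ ⊓ F.E τ') = 1 := by
        rw [Subgroup.card_eq_one, Subgroup.eq_bot_iff_forall]
        exact fun u hu => hd τ τ' hτ hτ' hne u hu.1 hu.2
      have hm := card_mul_card_le (le_top : F.E τ ≤ ⊤) (le_top : F.E τ' ≤ ⊤)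
      rw [hmeet, one_mul, Subgroup.card_top, F.card_V] at hm
      have hker' : (F.dd (F.act τ')).ker = F.E τ' := by ext u; rw [F.mem_ker_dd]; rfl
      have hc' := F.card_range_mul_ker (F.dd (F.act τ'))
      have hle2 := Subgroup.card_le_of_le (F.range_le_ker (F.act_odd_sq hτ'))
      rw [hker'] at hc' hle2
      have h1 : 16 ≤ Nat.card (F.E τ) := by nlinarith
      have h2 : 16 ≤ Nat.card (F.E τ') := by nlinarith
      have h3 : Nat.card (F.E τ) = 16 := by nlinarith
      exact ⟨h3, Subgroup.eq_of_le_of_card_ge hle (by rw [h3] at hc ⊢; omega)⟩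
    have hEinv : ∀ τ, ∀ h : ↥A6, ∀ u ∈ F.E τ, F.ψ (1, h) u ∈ F.E τ := by
      intro τ h u hu
      rw [F.mem_E] at hu ⊢
      rw [F.act_ψ_comm, hu]
    have hsp : ∀ τ τ', Equiv.Perm.sign τ = -1 → Equiv.Perm.sign τ' = -1 → τ ≠ τ' →
        ∀ u, ∃ e ∈ F.E τ, ∃ e' ∈ F.E τ', u = e * e' := by
      intro τ τ' hτ hτ' hne
      let f : F.E τ × F.E τ' → F.V := fun p => p.1 * p.2
      have hinj : Function.Injective f := by
        rintro ⟨x, u⟩ ⟨x', u'⟩ e
        simp only [f] at e
        have h1 : (x : F.V) * x' = (u : F.V) * u' := by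
          calc (x : F.V) * x' = (x : F.V) * u * ((u : F.V) * x') := by
                rw [mul_assoc, ← mul_assoc (u : F.V) u, F.mul_self, one_mul]
            _ = (x' : F.V) * u' * ((u : F.V) * x') := by rw [e]
            _ = ((x' : F.V) * x') * ((u : F.V) * u') := by ac_rfl
            _ = _ := by rw [F.mul_self, one_mul]
        have hm := hd τ τ' hτ hτ' hne _ ((F.E τ).mul_mem x.2 x'.2) (h1 ▸ (F.E τ').mul_mem u.2 u'.2)
        exact Prod.ext (Subtype.ext (F.mul_eq_one.1 hm)) (Subtype.ext (F.mul_eq_one.1 (h1 ▸ hm)))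
      have hb := hinj.bijective_of_nat_card_le (by
        rw [Nat.card_prod, (h16 τ hτ).1, (h16 τ' hτ').1, F.card_V])
      intro u
      obtain ⟨p, rfl⟩ := hb.2 u
      exact ⟨p.1, p.1.2, p.2, p.2.2, rfl⟩
    have hEfree : ∀ τ, Equiv.Perm.sign τ = -1 → ∀ u ∈ F.E τ, F.ψ (1, fiveA) u = u → u = 1 := by
      intro τ hτ
      obtain ⟨k', j', hjk', hk8', hk', hmod', hfull', hfree'⟩ :=
        F.five_fixed_pow (F.E τ) (hEinv τ fiveA)
      rw [(h16 τ hτ).1] at hk'
      have hk4 : k' = 4 := Nat.pow_right_injective le_rfl (hk'.symm.trans (by norm_num))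
      subst hk4
      have hj : j' = 0 ∨ j' = 4 := by
        interval_cases j' <;> first | omega | (norm_num at hmod')
      rcases hj with hj | hj
      · exact hfree' hj
      · -- trivial on one, hence on all
        exfalso
        have hall := hfull' hj
        have hσ : ∀ σ : P3, ∀ u ∈ F.E (σ * τ * σ⁻¹), F.ψ (1, fiveA) u = u := by
          intro σ u hu
          have h1 : F.act σ⁻¹ u ∈ F.E τ := by
            rw [F.mem_E] at hu ⊢
            conv_rhs => rw [← hu]
            rw [← MulAut.mul_apply, ← MulAut.mul_apply, ← act_mul, ← act_mul]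
            congr 2; group
          have h2 := hall _ h1
          rw [← F.act_ψ_comm] at h2
          exact (F.act σ⁻¹).injective h2
        let τ2 : P3 := c3 * τ * c3⁻¹
        have hτ2 : Equiv.Perm.sign τ2 = -1 := by simp [τ2, hτ]
        have hne : τ ≠ τ2 :=
          (by decide +kernel : ∀ ρ : P3, Equiv.Perm.sign ρ = -1 → ρ ≠ c3 * ρ * c3⁻¹) τ hτ
        apply F.ψ_ne_one (p := (1, fiveA)) (fun e => fiveA_ne (congrArg Prod.snd e))
        ext u
        obtain ⟨e, he, e', he', rfl⟩ := hsp τ τ2 hτ hτ2 hne u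
        rw [map_mul, hall e he, hσ c3 e' he']; rfl
    refine ⟨hcfree, fun τ hτ => (h16 τ hτ).1, fun τ hτ u => ?_, fun τ hτ u hu w hw => ?_, hd, hsp,
      ?_, fun τ hτ u hu w hw hu1 hw1 =>
        F.transitive_sixteen (F.E τ) (hEinv τ) (h16 τ hτ).1 (hEfree τ hτ) hu hw hu1 hw1⟩
    · rw [← (h16 τ hτ).2]; exact ⟨u, rfl⟩
    · rw [← (h16 τ hτ).2] at hu
      obtain ⟨v, rfl⟩ := hu
      exact F.orth_dd_fixed (p := (τ, 1)) hw v
    · intro u hu
      obtain ⟨e, he, e', he', rfl⟩ := hsp t0 t1 t0_sign ht1 ht01 u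
      rw [map_mul] at hu
      have h1 : F.ψ (1, fiveA) e * e = F.ψ (1, fiveA) e' * e' := by
        calc F.ψ (1, fiveA) e * e = (F.ψ (1, fiveA) e * F.ψ (1, fiveA) e') * (e * e') *
              ((F.ψ (1, fiveA) e' * e') * 1) := by
              rw [mul_one]
              calc F.ψ (1, fiveA) e * e = F.ψ (1, fiveA) e * e *
                    ((F.ψ (1, fiveA) e' * e') * (F.ψ (1, fiveA) e' * e')) := by
                    rw [F.mul_self, mul_one]
                _ = _ := by ac_rfl
          _ = _ := by rw [hu, F.mul_self, one_mul, mul_one]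
      have h2 := hd t0 t1 t0_sign ht1 ht01 _
        ((F.E t0).mul_mem (hEinv _ _ e he) he) (h1 ▸ (F.E t1).mul_mem (hEinv _ _ e' he') he')
      rw [hEfree t0 t0_sign e he (F.mul_eq_one.1 h2),
        hEfree t1 ht1 e' he' (F.mul_eq_one.1 (h1 ▸ h2)), one_mul]
  · right
    have hk3 : k ≤ 3 := by omega
    have hj : j = k := by
      interval_cases k <;> interval_cases j <;> first | rfl | (norm_num at hmod)
    have hAfix := hjfull hj
    have hUfix : ∀ u ∈ U, F.ψ (1, fiveA) u = u := by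
      intro u hu
      obtain ⟨a, ha, a', ha', rfl⟩ := hUgen u hu
      rw [map_mul, hAfix a ha]
      congr 1
      have h1 : F.act c3 (F.act c3 a') ∈ A := by
        refine ⟨?_, hcU _ (hcU _ ha'.2)⟩
        show F.act t0 _ = _
        apply (F.act c3).injective
        rw [← hcA, F.act_c3_cube, (ha'.1 : F.act t1 a' = a')]
      have h2 := hAfix _ h1
      rw [← F.act_ψ_comm, ← F.act_ψ_comm] at h2
      exact (F.act c3).injective ((F.act c3).injective h2)
    have hk1 : k = 1 := by
      have hk0 : k ≠ 0 := by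
        intro h0
        have hUb : U = ⊥ := Subgroup.card_eq_one.1 (by rw [hUsq, hk, h0]; norm_num)
        apply F.ψ_ne_one (p := ((c3, 1) : P3 × ↥A6)) (fun e => c3_ne (congrArg Prod.fst e))
        ext u
        have : F.dd (F.act c3) u ∈ U := ⟨u, rfl⟩
        rw [hUb, Subgroup.mem_bot, dd_apply, F.mul_eq_one] at this
        exact this
      have hnt : ¬ ∀ u ∈ X, F.ψ (1, fiveA) u = u := by
        intro hall
        apply F.ψ_ne_one (p := (1, fiveA)) (fun e => fiveA_ne (congrArg Prod.snd e))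
        ext v
        obtain ⟨x, hx, u, hu, rfl⟩ := hsplit v
        rw [map_mul, hall x hx, hUfix u hu]; rfl
      obtain ⟨kX, jX, hjkX, -, hkX, hmodX, hfullX, hfreeX⟩ := F.five_fixed_pow X (hA6X fiveA)
      rw [hUsq, hk, hkX, ← pow_add, ← pow_add] at hXU
      have hsum : kX + (k + k) = 8 := Nat.pow_right_injective le_rfl (hXU.trans (by norm_num))
      by_contra hne1
      rcases (by omega : k = 2 ∨ k = 3) with rfl | rfl
      · have : kX = 4 := by omega
        subst this
        have hj0 : jX = 0 := by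
          interval_cases jX <;> first | rfl | exact absurd (hfullX rfl) hnt | (norm_num at hmodX)
        refine F.no_quadric X hA6X (by rw [hkX]; norm_num) (hfreeX hj0) fun u hu hu' => ?_
        refine F.orth_nondeg fun w => ?_
        obtain ⟨x, hx, u', hu'', rfl⟩ := hsplit w
        rw [F.orth_comm, F.orth_mul_iff]
        exact iff_of_true (F.orth_comm.1 (hu' x hx)) (horth u' hu'' u hu)
      · have : kX = 2 := by omega
        subst this
        have : jX = 2 := by
          interval_cases jX <;> first | rfl | (norm_num at hmodX)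
        exact hnt (hfullX this)
    subst hk1
    have hU4 : Nat.card U = 4 := by rw [hUsq, hk]; norm_num
    -- the three lines
    have hA2 : Nat.card A = 2 := by rw [hk]; norm_num
    obtain ⟨a, ha, ha1⟩ : ∃ a ∈ A, a ≠ 1 := by
      by_contra h
      push Not at h
      rw [(Subgroup.eq_bot_iff_forall A).2 h, Subgroup.card_bot] at hA2
      norm_num at hA2
    have hAtwo : ∀ u ∈ A, u = 1 ∨ u = a := by
      intro u hu
      obtain ⟨w, hw⟩ := (Nat.card_eq_two_iff' (1 : A)).1 hA2
      by_cases hu1 : u = 1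
      · exact Or.inl hu1
      · right
        have e1 := hw.2 ⟨u, hu⟩ (fun e => hu1 (congrArg Subtype.val e))
        have e2 := hw.2 ⟨a, ha⟩ (fun e => ha1 (congrArg Subtype.val e))
        exact congrArg Subtype.val (e1.trans e2.symm)
    have hgen2 : ∀ (g : MulAut F.V), (∀ u, g (F.act c3 u) = F.act c3 (g u)) → g a = a →
        ∀ u ∈ U, g u = u := by
      intro g hg hga u hu
      obtain ⟨b, hb, b', hb', rfl⟩ := hUgen u hu
      rw [map_mul]
      congr 1
      · rcases hAtwo b hb with rfl | rfl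
        · exact map_one g
        · exact hga
      · have h1 : F.act c3 (F.act c3 b') ∈ A := by
          refine ⟨?_, hcU _ (hcU _ hb'.2)⟩
          show F.act t0 _ = _
          apply (F.act c3).injective
          rw [← hcA, F.act_c3_cube, (hb'.1 : F.act t1 b' = b')]
        have h3 : g (F.act c3 (F.act c3 b')) = F.act c3 (F.act c3 b') := by
          rcases hAtwo _ h1 with e | e <;> rw [e]
          · exact map_one g
          · exact hga
        rw [hg, hg] at h3
        exact (F.act c3).injective ((F.act c3).injective h3)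
    refine ⟨hU4, ?_, horth, hdisj, hsplit, hperp, ?_⟩
    · intro u hu hu1 hs
      have hcu : F.act c3 u ≠ u := fun e => hu1 (hdisj u hu e)
      have hcu1 : F.act c3 u ≠ 1 := fun e => hu1 (by rw [← map_one (F.act c3)] at e; exact (F.act c3).injective e)
      have hprod : u * F.act c3 u = F.act c3 (F.act c3 u) := by
        -- all of `U` is `1, u, c u, c² u`
        by_contra hne
        have hd : ({1, u, F.act c3 u, F.act c3 (F.act c3 u), u * F.act c3 u} : Finset F.V).card = 5 := by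
          have h3 : F.act c3 (F.act c3 u) ≠ u := fun e => hcu (by
            have := F.act_c3_cube u; rwa [e] at this)
          have h4 : F.act c3 (F.act c3 u) ≠ F.act c3 u := fun e => hcu ((F.act c3).injective e)
          have h5 : F.act c3 (F.act c3 u) ≠ 1 := fun e => hcu1 (by
            rw [← map_one (F.act c3)] at e; exact (F.act c3).injective e)
          have h6 : u * F.act c3 u ≠ 1 := fun e => hcu (F.mul_eq_one.1 e).symm
          have h7 : u * F.act c3 u ≠ u := fun e => hcu1 (mul_eq_left.mp e)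
          have h8 : u * F.act c3 u ≠ F.act c3 u := fun e => hu1 (mul_eq_right.mp e)
          simp [hu1.symm, hcu1.symm, h5.symm, h6.symm, hcu.symm, h3.symm, h7.symm, h4.symm, h8.symm,
            Ne.symm hne]
        have hsub : (({1, u, F.act c3 u, F.act c3 (F.act c3 u), u * F.act c3 u} : Finset F.V) : Set F.V) ⊆
            (U : Set F.V) := by
          intro x hx
          simp at hx
          rcases hx with rfl | rfl | rfl | rfl | rfl
          · exact U.one_mem
          · exact hu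
          · exact hcU _ hu
          · exact hcU _ (hcU _ hu)
          · exact U.mul_mem hu (hcU _ hu)
        have := Set.ncard_le_ncard hsub (Set.toFinite _)
        rw [Set.ncard_coe_finset, hd, ← Nat.card_coe_set_eq] at this
        have : (5:ℕ) ≤ Nat.card U := this
        omega
      have horth' : F.Orth u (F.act c3 u) := by
        have h1 := F.sing_mul_iff u (F.act c3 u)
        have hs' : F.IsSing (F.act c3 u) := (F.sing_ψ (c3, 1) u).2 hs
        have hs'' : F.IsSing (u * F.act c3 u) := by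
          rw [hprod]; exact (F.sing_ψ (c3, 1) _).2 hs'
        exact (h1.1 hs'').1 (iff_of_true hs hs')
      apply hu1
      refine F.orth_nondeg fun w => ?_
      obtain ⟨x, hx, u', hu', rfl⟩ := hsplit w
      rw [F.orth_comm, F.orth_mul_iff]
      refine iff_of_true (F.orth_comm.1 (horth u hu x hx)) ?_
      -- `u'` is a product of `u` and `c u`
      rw [F.orth_comm]
      have h1 : u' = 1 ∨ u' = u ∨ u' = F.act c3 u ∨ u' = u * F.act c3 u := by
        by_contra hne
        push Not at hne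
        have hd : ({1, u, F.act c3 u, u * F.act c3 u, u'} : Finset F.V).card = 5 := by
          have h6 : u * F.act c3 u ≠ 1 := fun e => hcu (F.mul_eq_one.1 e).symm
          have h7 : u * F.act c3 u ≠ u := fun e => hcu1 (mul_eq_left.mp e)
          have h8 : u * F.act c3 u ≠ F.act c3 u := fun e => hu1 (mul_eq_right.mp e)
          simp [hu1.symm, hcu1.symm, h6.symm, hcu.symm, h7.symm, h8.symm,
            hne.1.symm, hne.2.1.symm, hne.2.2.1.symm, hne.2.2.2.symm]
        have hsub : (({1, u, F.act c3 u, u * F.act c3 u, u'} : Finset F.V) : Set F.V) ⊆ (U : Set F.V) := by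
          intro x hx
          simp at hx
          rcases hx with rfl | rfl | rfl | rfl | rfl
          · exact U.one_mem
          · exact hu
          · exact hcU _ hu
          · exact U.mul_mem hu (hcU _ hu)
          · exact hu'
        have := Set.ncard_le_ncard hsub (Set.toFinite _)
        rw [Set.ncard_coe_finset, hd, ← Nat.card_coe_set_eq] at this
        have : (5:ℕ) ≤ Nat.card U := this
        omega
      have huu : F.Orth u u := by
        obtain ⟨y, hy, rfl⟩ := F.exists_rep u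
        exact (F.orth_v hy hy).2 rfl
      rcases h1 with rfl | rfl | rfl | rfl
      · exact F.orth_comm.1 (F.orth_one u)
      · exact huu
      · exact horth'
      · rw [F.orth_comm, F.orth_mul_iff]
        exact iff_of_true huu (F.orth_comm.1 horth')
    · intro m hm
      have hcomm : ∀ σ : P3, ∀ u, F.ρ m (F.act σ u) = F.act σ (F.ρ m u) := by
        intro σ u
        obtain ⟨n, hn, e⟩ := F.exists_lift_ψ σ 1
        rw [Frame.act, ← e, ← MulAut.mul_apply, ← MulAut.mul_apply, ← map_mul, ← map_mul,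
          F.ρ_congr (m := m * n) (n := n * m)]
        rw [map_mul, map_mul, hn]
        exact Prod.ext (by simp [hm]) (by simp)
      refine hgen2 (F.ρ m) (hcomm c3) ?_
      have h1 : F.ρ m a ∈ A := by
        refine ⟨?_, ?_⟩
        · show F.act t0 _ = _
          rw [← hcomm, (ha.1 : F.act t0 a = a)]
        · obtain ⟨w, hw⟩ := ha.2
          exact ⟨F.ρ m w, by rw [← hw, dd_apply, dd_apply, map_mul, hcomm]⟩
      refine (hAtwo _ h1).resolve_left fun e => ha1 ?_
      rw [← map_one (F.ρ m)] at e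
      exact (F.ρ m).injective e

end Frame

end CfsgLib.SThreeSSix.Direct
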