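import Cfsg.Agent.Lib.SThreeSSix.Direct.Ops

/-!
In the fixed-point-free case no conjugate of `z` outside `Q z` maps onto `(τ, 1)`: the wiring of
Lemma T to the fixed spaces of the transpositions.
-/

set_option autoImplicit false
set_option linter.style.haveILetI false

namespace CfsgLib.SThreeSSix.Direct

variable {G : Type*} [Group G] [Finite G] {Q : G → Subgroup G} {z : G}

theorem conjOdd : ∀ τ : P3, Equiv.Perm.sign τ = -1 →
    Equiv.Perm.sign (c3 * τ * c3⁻¹) = -1 ∧ c3 * τ * c3⁻¹ ≠ τ := by decide +kernel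

namespace Frame

variable (F : Frame Q z)
include F

/-- The pairing `(u, w) ↦ Orth u (act τ w * w)` on another fixed space is nondegenerate. -/
theorem exists_not_orth_shift (hF : F.Free) {τ τ' : P3} (hτ : Equiv.Perm.sign τ = -1)
    (hτ' : Equiv.Perm.sign τ' = -1) (hne : τ' ≠ τ) {w : F.V} (hw : w ∈ F.E τ') (hw1 : w ≠ 1) :
    ∃ v ∈ F.E τ', ¬ F.Orth v (F.act τ w * w) := by
  by_contra h
  push_neg at h
  have hall : ∀ u, F.Orth (F.act τ w * w) u := by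
    intro u
    obtain ⟨e, he, e', he', rfl⟩ := hF.split τ τ' hτ hτ' hne.symm u
    rw [F.orth_comm, F.orth_mul_iff]
    exact iff_of_true (hF.isotropic τ hτ e he _ (hF.moved τ hτ w)) (h e' he')
  have hfix : w ∈ F.E τ := F.mul_eq_one.1 (F.orth_nondeg hall)
  exact hw1 (hF.disjoint τ τ' hτ hτ' hne.symm w hfix hw)

/-- Outside any three given vectors there is a fourth one in a fixed space. -/
theorem exists_mem_E_notin (hF : F.Free) {τ : P3} (hτ : Equiv.Perm.sign τ = -1)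
    (a b c d : F.V) : ∃ u ∈ F.E τ, u ≠ a ∧ u ≠ b ∧ u ≠ c ∧ u ≠ d := by
  classical
  by_contra h
  push_neg at h
  have hle : Nat.card (F.E τ) ≤ ({a, b, c, d} : Set F.V).ncard := by
    rw [← Nat.card_coe_set_eq]
    refine Nat.card_le_card_of_injective (fun u : F.E τ => (⟨(u : F.V), ?_⟩ : ({a, b, c, d} : Set F.V))) ?_
    · have := h u u.2
      simp only [Set.mem_insert_iff, Set.mem_singleton_iff]
      tauto
    · intro u u' e
      exact Subtype.ext (congrArg Subtype.val e :)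
  have h1 := Set.ncard_insert_le a ({b, c, d} : Set F.V)
  have h2 := Set.ncard_insert_le b ({c, d} : Set F.V)
  have h3 := Set.ncard_insert_le c ({d} : Set F.V)
  rw [Set.ncard_singleton] at h3
  have := hF.card_E τ hτ
  omega

/-- The vector of `[c, q]`. -/
theorem v_cm {c : G} (hcM : c ∈ Subgroup.centralizer ({z} : Set G)) {τ : P3}
    (hπ : F.π ⟨c, hcM⟩ = (τ, 1)) {q : G} (hq : q ∈ Q z) :
    LemmaT.InP (Q z) z c q → F.v q ∈ F.E τ := by
  rintro ⟨-, h⟩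
  rw [F.mem_E, show F.act τ = F.ρ ⟨c, hcM⟩ from (F.ρ_eq_ψ (h := 1) hπ).symm, F.ρ_v _ hq,
    F.v_eq (F.norm_mem ⟨c, hcM⟩ hq) hq]
  simp only [Sym.cm] at h
  rcases h with h | h
  · exact Or.inl (mul_inv_eq_one.1 h)
  · exact Or.inr (mul_inv_eq_iff_eq_mul.1 h)

end Frame

open CfsgLib.SThreeSSix.LemmaT CfsgLib.SThreeSSix.Sym in
/-- No conjugate of `z` outside `Q z` maps onto `(τ, 1)`. -/
theorem no_tau (F : Frame Q z) (hF : F.Free) (g : G) (hcQ : g * z * g⁻¹ ∉ Q z)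
    (hcM : g * z * g⁻¹ ∈ Subgroup.centralizer ({z} : Set G)) (τ : P3)
    (hτ : Equiv.Perm.sign τ = -1) (hπ : F.π ⟨g * z * g⁻¹, hcM⟩ = (τ, 1)) : False := by
  obtain ⟨hτ', hne⟩ := conjOdd τ hτ
  generalize c3 * τ * c3⁻¹ = τ' at hτ' hne
  set c := g * z * g⁻¹ with hc
  have hcz : c * z = z * c := Subgroup.mem_centralizer_singleton_iff.1 hcM
  have hact : F.ρ ⟨c, hcM⟩ = F.act τ := F.ρ_eq_ψ (h := 1) hπ
  -- the vector of a commutator with `c`
  have hcmQ : ∀ q ∈ Q z, cm c q ∈ Q z := fun q hq =>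
    (Q z).mul_mem (F.norm_mem ⟨c, hcM⟩ hq) ((Q z).inv_mem hq)
  have hvcm : ∀ q ∈ Q z, F.v (cm c q) = F.act τ (F.v q) * F.v q := by
    intro q hq
    show F.v (c * q * c⁻¹ * q⁻¹) = _
    rw [F.v_mul (F.norm_mem ⟨c, hcM⟩ hq) ((Q z).inv_mem hq), F.v_inv hq, ← hact, F.ρ_v _ hq]
  -- four vectors in the other fixed space
  obtain ⟨w, hw, hw1, -, -, -⟩ := F.exists_mem_E_notin hF hτ' 1 1 1 1
  obtain ⟨v₀, hv₀, hn₀⟩ := F.exists_not_orth_shift hF hτ hτ' hne hw hw1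
  obtain ⟨v₃, hv₃, hn₃, h3w⟩ : ∃ v ∈ F.E τ', ¬ F.Orth v (F.act τ w * w) ∧ v ≠ w := by
    by_cases e : v₀ = w
    · obtain ⟨u, hu, hu1, huw, -, -⟩ := F.exists_mem_E_notin hF hτ' 1 w w w
      by_cases ho : F.Orth u (F.act τ w * w)
      · refine ⟨w * u, (F.E τ').mul_mem hw hu, ?_, fun h => hu1 (mul_eq_left.1 h)⟩
        rw [F.orth_mul_iff]
        exact fun h => (e ▸ hn₀) (h.2 ho)
      · exact ⟨u, hu, ho, huw⟩
    · exact ⟨v₀, hv₀, hn₀, e⟩
  obtain ⟨v₁, hv₁, ho₁, h11, h1w⟩ :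
      ∃ v ∈ F.E τ', F.Orth v (F.act τ w * w) ∧ v ≠ 1 ∧ v ≠ w := by
    obtain ⟨u, hu, hu1, huw, -, -⟩ := F.exists_mem_E_notin hF hτ' 1 w w w
    by_cases ho : F.Orth u (F.act τ w * w)
    · exact ⟨u, hu, ho, hu1, huw⟩
    obtain ⟨u', hu', h'1, h'w, h'u, h'uw⟩ := F.exists_mem_E_notin hF hτ' 1 w u (u * w)
    by_cases ho' : F.Orth u' (F.act τ w * w)
    · exact ⟨u', hu', ho', h'1, h'w⟩
    refine ⟨u * u', (F.E τ').mul_mem hu hu', ?_, fun h => h'u (F.mul_eq_one.1 h).symm, fun h => ?_⟩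
    · rw [F.orth_mul_iff]; exact iff_of_false ho ho'
    · exact h'uw (by rw [← h, ← mul_assoc, F.mul_self, one_mul])
  have h31 : v₃ ≠ 1 := fun h => hn₃ (h ▸ F.orth_one _)
  obtain ⟨q₁, h₁, e₁⟩ := F.exists_rep v₁
  obtain ⟨q₃, h₃, e₃⟩ := F.exists_rep v₃
  obtain ⟨q₄, h₄, e₄⟩ := F.exists_rep w
  have hor : ∀ {p : G}, p ∈ Q z →
      (F.Orth (F.v p) (F.act τ w * w) ↔ p * cm c q₄ = cm c q₄ * p) := by
    intro p hp
    rw [← e₄, ← hvcm q₄ h₄, F.orth_v hp (hcmQ q₄ h₄)]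
  refine LemmaT.no_conjugate z c (Q z) F.card F.good.mem F.good.sq_u F.good.ne_one
    (fun x hx => F.z_comm hx) F.good.sq (fun x hx y hy => F.comm_cases hx hy)
    (fun m hm x hx => F.norm_mem ⟨m, hm⟩ hx) F.π F.ker hcM τ hτ hπ g rfl ?_
    (fun h hh => F.lift 1 h hh) ?_ five five_mem five_pow ?_ ?_
  · intro hm
    have hm' := F.core.symm (g := g⁻¹) (by rwa [inv_inv])
    have := F.core.conj_mem g _ hm'
    rw [show g * (g⁻¹ * z * g⁻¹⁻¹) * g⁻¹ = z by group] at this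
    exact hcQ (hc ▸ this)
  · have hle : Nat.card {p : G // InP (Q z) z c p} ≤ Nat.card (F.pre (F.E τ)) :=
      Nat.card_le_card_of_injective (fun p => ⟨p.1, p.2.1, F.v_cm hcM hπ p.2.1 p.2⟩)
        (fun a b e => Subtype.ext (congrArg Subtype.val e :))
    rw [F.card_pre, hF.card_E τ hτ] at hle
    exact hle
  · intro m hm q hq e
    refine (F.v_eq_one hq).1 (hF.five_free _ ?_)
    rw [← F.ρ_eq_ψ (h := fiveA) hm, F.ρ_v m hq, e]
  · refine ⟨q₁, q₄, q₃, q₄, h₁, h₄, h₃, h₄, ?_, ?_, ?_⟩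
    · rw [(hor h₁).1 (by rw [e₁]; exact ho₁)]; group
    · rcases F.comm_cases h₃ (hcmQ q₄ h₄) with e | e
      · exact absurd ((hor h₃).2 (by
          have := congrArg (fun y => y * cm c q₄ * q₃) e
          simpa [mul_assoc] using this)) (by rw [e₃]; exact hn₃)
      · exact e
    · intro q hq
      have key : q ∈ Q z ∧ F.v q ∈ F.E τ' ∧ F.v q ≠ 1 := by
        simp only [Set.mem_insert_iff, Set.mem_singleton_iff] at hq
        rcases hq with rfl | rfl | rfl | rfl | rfl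
        · exact ⟨h₄, by rw [e₄]; exact ⟨hw, hw1⟩⟩
        · exact ⟨(Q z).mul_mem h₁ h₄, by
            rw [F.v_mul h₁ h₄, e₁, e₄]
            exact ⟨(F.E τ').mul_mem hv₁ hw, fun h => h1w (F.mul_eq_one.1 h)⟩⟩
        · exact ⟨h₃, by rw [e₃]; exact ⟨hv₃, h31⟩⟩
        · exact ⟨h₄, by rw [e₄]; exact ⟨hw, hw1⟩⟩
        · exact ⟨(Q z).mul_mem h₃ h₄, by
            rw [F.v_mul h₃ h₄, e₃, e₄]
            exact ⟨(F.E τ').mul_mem hv₃ hw, fun h => h3w (F.mul_eq_one.1 h)⟩⟩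
      obtain ⟨hqQ, hqE, hq1⟩ := key
      obtain ⟨h, hh⟩ := hF.transitive τ' hτ' v₁ hv₁ _ hqE h11 hq1
      obtain ⟨m, hm, hρ⟩ := F.exists_lift_ψ 1 h
      have hmq := F.norm_mem m h₁
      refine ⟨m, h, h.2, hm, (Q z).mul_mem ((Q z).inv_mem hqQ) hmq, Or.inl ?_⟩
      have hv : F.v (q⁻¹ * ((m : G) * q₁ * (m : G)⁻¹)) = 1 := by
        rw [F.v_mul ((Q z).inv_mem hqQ) hmq, F.v_inv hqQ, ← F.ρ_v m h₁, hρ, e₁, hh, F.mul_self]
      rcases (F.v_eq_one ((Q z).mul_mem ((Q z).inv_mem hqQ) hmq)).1 hv with e | e <;> rw [e]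
      · simp [cm]
      · simp only [cm]; rw [hcz]; group

end CfsgLib.SThreeSSix.Direct
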