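import Cfsg.Agent.Lib.SThreeSSix.Direct.Pure
import Cfsg.Agent.Lib.SThreeSSix.Direct.NoTau

/-!
A second conjugate of `z` in `Q z` forces a conjugate of `z` outside `Q z` mapping onto a
transposition of the `S₃`-factor, which is impossible.
-/

set_option autoImplicit false
set_option linter.style.haveILetI false
set_option linter.unusedSectionVars false

namespace CfsgLib.SThreeSSix.Direct

open CfsgLib.ExtraspecialLarge

variable {G : Type*} [Group G] [Finite G] {Q : G → Subgroup G} {z : G}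

theorem odd_third : ∀ τ σ ρ ρ' : P3, Equiv.Perm.sign τ = -1 → Equiv.Perm.sign σ = -1 →
    Equiv.Perm.sign ρ = -1 → Equiv.Perm.sign ρ' = -1 → σ ≠ τ → ρ ≠ τ → ρ ≠ σ → ρ' ≠ τ → ρ' ≠ σ →
    ρ' = ρ := by decide +kernel

theorem conj_odd_exists : ∀ τ τ' : P3, Equiv.Perm.sign τ = -1 → Equiv.Perm.sign τ' = -1 →
    ∃ σ : P3, σ * τ * σ⁻¹ = τ' := by decide +kernel

namespace Frame

variable {F : Frame Q z} {a : G}

/-- Everything but `1` above a fixed space of a transposition is conjugate to `z`. -/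
theorem Pair.conj_of_mem (P : F.Pair a) {τ : P3} (hτ : Equiv.Perm.sign τ = -1)
    (ha : F.v a ∈ F.E τ) {e : G} (he : e ∈ F.pre (F.E τ)) (he1 : e ≠ 1) :
    ∃ g : G, g * z * g⁻¹ = e := by
  by_cases hz : e = z
  · exact ⟨1, by simp [hz]⟩
  have hv : F.v e ≠ 1 := fun h => ((F.v_eq_one he.1).1 h).elim he1 hz
  obtain ⟨h, hh⟩ := P.free.transitive τ hτ (F.v a) ha (F.v e) he.2 P.v_ne_one hv
  obtain ⟨m, -, hρ⟩ := F.exists_lift_ψ 1 h
  rw [← hρ, F.ρ_v m P.mem, F.v_eq (F.norm_mem m P.mem) he.1] at hh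
  obtain ⟨g, hg⟩ := P.conj
  rcases hh with hh | hh
  · exact ⟨(m : G) * g, by rw [← hh, ← hg]; group⟩
  · obtain ⟨q, hq, hqe⟩ : ∃ q ∈ Q z, q * e * q⁻¹ = z * e := by
      by_contra hcon
      push Not at hcon
      rcases F.good.center e he.1 fun q hq => mul_inv_eq_iff_eq_mul.1
        ((F.good.cases_conj q hq e he.1).resolve_right (hcon q hq)) with c | c
      · exact he1 c
      · exact hz c
    refine ⟨q⁻¹ * (m : G) * g, ?_⟩
    calc q⁻¹ * (m : G) * g * z * (q⁻¹ * (m : G) * g)⁻¹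
        = q⁻¹ * ((m : G) * (g * z * g⁻¹) * (m : G)⁻¹) * q := by group
      _ = q⁻¹ * (q * e * q⁻¹) * q := by rw [hg, hh, hqe]
      _ = e := by group

/-- The pair seen from the other end. -/
theorem Pair.swap (P : F.Pair a) (F' : Frame Q a) : F'.Pair z := by
  refine ⟨P.z_mem, P.ne.symm, ?_⟩
  obtain ⟨g, hg⟩ := P.conj
  exact ⟨g⁻¹, by rw [← hg]; group⟩

/-- The sixteen elements do not depend on the end from which they are seen. -/
theorem Pair.J_symm (P : F.Pair a) {τ : P3} (hτ : Equiv.Perm.sign τ = -1) (ha : F.v a ∈ F.E τ)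
    (F' : Frame Q a) {τ' : P3} (hτ' : Equiv.Perm.sign τ' = -1) (hz : F'.v z ∈ F'.E τ') :
    Q a ⊓ Q z ⊓ F'.pre (F'.E τ') = Q z ⊓ Q a ⊓ F.pre (F.E τ) := by
  classical
  have hF := P.free
  have P' := P.swap F'
  set J' := Q a ⊓ Q z ⊓ F'.pre (F'.E τ') with hJ'
  have h16 : Nat.card J' = 16 := P'.card_J P'.free hτ' hz
  have haJ : a ∈ J' :=
    ⟨⟨F'.good.mem, P.mem⟩, F'.good.mem, by rw [F'.v_z]; exact one_mem _⟩
  have hodd : ∀ e ∈ J', F.v e ≠ 1 → ∃ σ, Equiv.Perm.sign σ = -1 ∧ F.v e ∈ F.E σ := by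
    intro e he hv
    have he1 : e ≠ 1 := fun h => hv (by rw [h]; exact F.v_one)
    obtain ⟨k, hk⟩ := P'.conj_of_mem hτ' hz he.2 he1
    obtain ⟨g, hg⟩ := P.conj
    have Pe : F.Pair e := ⟨he.1.2, fun h => hv (by rw [h]; exact F.v_z), k * g, by
      rw [← hk, ← hg]; group⟩
    exact Pe.pure
  have hvm : ∀ e ∈ J', ∀ f ∈ J', F.v (e * f) = F.v e * F.v f := fun e he f hf =>
    F.v_mul he.1.2 hf.1.2
  -- off `E τ`, multiplying by `a` goes to the third fixed space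
  have hthird : ∀ e ∈ J', F.v e ∉ F.E τ → ∀ σ, Equiv.Perm.sign σ = -1 → F.v e ∈ F.E σ →
      ∃ ρ, Equiv.Perm.sign ρ = -1 ∧ F.v e * F.v a ∈ F.E ρ ∧ ρ ≠ τ ∧ ρ ≠ σ := by
    intro e he hne σ hσ heσ
    have hva : F.v e * F.v a ≠ 1 := fun h => hne (by rw [F.mul_eq_one.1 h]; exact ha)
    rw [← hvm e he a haJ] at hva ⊢
    obtain ⟨ρ, hρ, hm⟩ := hodd _ (mul_mem he haJ) hva
    refine ⟨ρ, hρ, hm, ?_, ?_⟩
    · rintro rfl
      rw [hvm e he a haJ] at hm
      exact hne (by simpa using Subgroup.mul_mem _ hm (Subgroup.inv_mem _ ha))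
    · rintro rfl
      rw [hvm e he a haJ] at hm
      have : F.v a ∈ F.E ρ := by simpa using Subgroup.mul_mem _ (Subgroup.inv_mem _ heσ) hm
      exact P.v_ne_one (hF.disjoint τ ρ hτ hσ (fun h => hne (h ▸ heσ)) _ ha this)
  have hall : ∀ e ∈ J', F.v e ∈ F.E τ := by
    by_contra hcon
    push Not at hcon
    obtain ⟨w, hw, hwE⟩ := hcon
    have hw1 : F.v w ≠ 1 := fun h => hwE (by rw [h]; exact one_mem _)
    obtain ⟨σ, hσ, hwσ⟩ := hodd w hw hw1
    obtain ⟨ρ, hρ, hwρ, hρτ, hρσ⟩ := hthird w hw hwE σ hσ hwσ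
    have hστ : σ ≠ τ := fun h => hwE (h ▸ hwσ)
    have hsame : ∀ e ∈ J', F.v e ∈ F.E σ → e ∈ J' → F.v e ≠ 1 → F.v e = F.v w := by
      intro e he heσ _ he1
      obtain ⟨ρ', hρ', heρ, h1, h2⟩ :=
        hthird e he (fun h => he1 (hF.disjoint σ τ hσ hτ hστ _ heσ h)) σ hσ heσ
      rw [odd_third τ σ ρ ρ' hτ hσ hρ hρ' hστ hρτ hρσ h1 h2] at heρ
      have hm := Subgroup.mul_mem _ heρ hwρ
      rw [show F.v e * F.v a * (F.v w * F.v a) = (F.v e * F.v w) * (F.v a * F.v a) by ac_rfl,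
        F.mul_self, mul_one] at hm
      exact F.mul_eq_one.1
        (hF.disjoint σ ρ hσ hρ hρσ.symm _ ((F.E σ).mul_mem heσ hwσ) hm)
    have hcover : ∀ e ∈ J', F.v e = 1 ∨ F.v e = F.v a ∨ F.v e = F.v w ∨ F.v e = F.v w * F.v a := by
      intro e he
      by_cases he1 : F.v e = 1
      · exact Or.inl he1
      by_cases heτ : F.v e ∈ F.E τ
      · -- `e w` lies off `E τ`
        right; left
        by_contra hea
        have hewτ : F.v (e * w) ∉ F.E τ := by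
          rw [hvm e he w hw]
          exact fun h => hwE (by simpa using Subgroup.mul_mem _ (Subgroup.inv_mem _ heτ) h)
        have hew1 : F.v (e * w) ≠ 1 := fun h => hewτ (by rw [h]; exact one_mem _)
        obtain ⟨σ', hσ', hm⟩ := hodd _ (mul_mem he hw) hew1
        rw [hvm e he w hw] at hm
        by_cases hσσ : σ' = σ
        · subst hσσ
          have : F.v e ∈ F.E σ' := by simpa using Subgroup.mul_mem _ hm (Subgroup.inv_mem _ hwσ)
          exact he1 (hF.disjoint τ σ' hτ hσ hστ.symm _ heτ this)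
        · have hσ'τ : σ' ≠ τ := fun h => hewτ (by rw [hvm e he w hw]; exact h ▸ hm)
          rw [odd_third τ σ ρ σ' hτ hσ hρ hσ' hστ hρτ hρσ hσ'τ hσσ] at hm
          have hm2 := Subgroup.mul_mem _ hm hwρ
          rw [show F.v e * F.v w * (F.v w * F.v a) = F.v e * F.v a * (F.v w * F.v w) by ac_rfl,
            F.mul_self, mul_one] at hm2
          exact hea (F.mul_eq_one.1
            (hF.disjoint τ ρ hτ hρ hρτ.symm _ ((F.E τ).mul_mem heτ ha) hm2))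
      obtain ⟨σ', hσ', heσ⟩ := hodd e he he1
      by_cases hσσ : σ' = σ
      · exact Or.inr (Or.inr (Or.inl (hsame e he (hσσ ▸ heσ) he he1)))
      · obtain ⟨ρ', hρ', hea, h1, h2⟩ := hthird e he heτ σ' hσ' heσ
        have hσ'τ : σ' ≠ τ := fun h => heτ (h ▸ heσ)
        have e1 : σ' = ρ := odd_third τ σ ρ σ' hτ hσ hρ hσ' hστ hρτ hρσ hσ'τ hσσ
        have e2 : ρ' = σ := odd_third τ ρ σ ρ' hτ hρ hσ hρ' hρτ hστ hρσ.symm h1 (e1 ▸ h2)
        rw [e2, ← hvm e he a haJ] at hea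
        have hne1 : F.v (e * a) ≠ 1 := by
          rw [hvm e he a haJ]
          exact fun h => heτ (by rw [F.mul_eq_one.1 h]; exact ha)
        have := hsame _ (mul_mem he haJ) hea (mul_mem he haJ) hne1
        rw [hvm e he a haJ] at this
        exact Or.inr (Or.inr (Or.inr (by rw [← this, mul_assoc, F.mul_self, mul_one])))
    let L : Finset F.V := {1, F.v a, F.v w, F.v w * F.v a}
    have hle : Nat.card J' ≤ Nat.card (Bool × L) := by
      refine Nat.card_le_card_of_injective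
        (fun e : J' => ((decide ((e : G) = Classical.choose (F.exists_rep (F.v e)))),
          (⟨F.v e, by simpa [L] using hcover e e.2⟩ : L))) ?_
      intro x y h
      simp only [Prod.ext_iff, Subtype.ext_iff] at h
      obtain ⟨hb, hv⟩ := h
      rw [decide_eq_decide] at hb
      apply Subtype.ext
      obtain ⟨hq, eq⟩ := Classical.choose_spec (F.exists_rep (F.v (x : G)))
      have er : Classical.choose (F.exists_rep (F.v (y : G))) =
          Classical.choose (F.exists_rep (F.v (x : G))) := by simp only [hv]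
      rw [er] at hb
      generalize Classical.choose (F.exists_rep (F.v (x : G))) = r at hb hq eq
      rcases (F.v_eq x.2.1.2 hq).1 eq.symm with hx | hx
      · rw [hx]; exact (hb.1 hx).symm
      · rcases (F.v_eq y.2.1.2 hq).1 (hv ▸ eq.symm) with hy | hy
        · exfalso
          have hxr := hb.2 hy
          rw [hxr] at hx
          exact F.good.ne_one (mul_eq_right.1 hx.symm)
        · rw [hx, hy]
    rw [h16, Nat.card_prod, Nat.card_eq_fintype_card (α := Bool), Fintype.card_bool,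
      Nat.card_eq_fintype_card, Fintype.card_coe] at hle
    have : L.card ≤ 4 := Finset.card_le_four
    omega
  refine Subgroup.eq_of_le_of_card_ge
    (fun e he => ⟨⟨he.1.2, he.1.1⟩, he.1.2, hall e he⟩) ?_
  rw [h16, P.card_J hF hτ ha]

/-- An element acting as `1` on the first factor and fixing a fixed space is trivial. -/
theorem fix_E_trivial (hF : F.Free) {τ : P3} (hτ : Equiv.Perm.sign τ = -1)
    (m : ↥(Subgroup.centralizer ({z} : Set G))) (hm : (F.π m).1 = 1)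
    (hfix : ∀ u ∈ F.E τ, F.ρ m u = u) : (m : G) ∈ Q z := by
  refine F.mem_of_ρ_eq_one ?_
  have hcomm : ∀ σ : P3, ∀ u, F.ρ m (F.act σ u) = F.act σ (F.ρ m u) := by
    intro σ u
    obtain ⟨n, hn, e⟩ := F.exists_lift_ψ σ 1
    rw [Frame.act, ← e, ← MulAut.mul_apply, ← MulAut.mul_apply, ← map_mul, ← map_mul,
      F.ρ_congr (m := m * n) (n := n * m)]
    rw [map_mul, map_mul, hn]
    exact Prod.ext (by simp [hm]) (by simp)
  ext u
  obtain ⟨e, he, e', he', rfl⟩ := hF.split τ _ hτ (conj_c3_odd hτ).1 (conj_c3_odd hτ).2 u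
  obtain ⟨x, rfl⟩ := (F.act c3).surjective e'
  have hx : x ∈ F.E τ := by
    have := E_conj (F := F) c3⁻¹ he'
    rw [← MulAut.mul_apply, ← act_mul, inv_mul_cancel, F.act_one, MulAut.one_apply,
      show c3⁻¹ * (c3 * τ * c3⁻¹) * c3⁻¹⁻¹ = τ by group] at this
    exact this
  rw [map_mul, hfix e he, hcomm, hfix x hx]
  rfl

/-- No conjugate of `z` other than `z` lies in `Q z`. -/
theorem Pair.impossible (P : F.Pair a) : False := by
  classical
  have hF := P.free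
  obtain ⟨τ, hτ, ha⟩ := P.pure
  obtain ⟨g, hg⟩ := P.conj
  have F' : Frame Q a := hg ▸ F.conj g
  have P' := P.swap F'
  obtain ⟨τ', hτ', hz⟩ := P'.pure
  have hJJ := P.J_symm hτ ha F' hτ' hz
  have hJ := P.card_J hF hτ ha
  have hJ' := P'.card_J P'.free hτ' hz
  set J := Q z ⊓ Q a ⊓ F.pre (F.E τ) with hJdef
  have hpre : Nat.card (F.pre (F.E τ)) = 32 := by rw [F.card_pre, hF.card_E τ hτ]
  have hpre' : Nat.card (F'.pre (F'.E τ')) = 32 := by rw [F'.card_pre, P'.free.card_E τ' hτ']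
  obtain ⟨b, hb, hbJ⟩ : ∃ b ∈ F.pre (F.E τ), b ∉ J := by
    by_contra h
    push Not at h
    have := Subgroup.card_le_of_le (show F.pre (F.E τ) ≤ J from h)
    omega
  have hba : b ∉ Q a := fun h => hbJ ⟨⟨hb.1, h⟩, hb⟩
  obtain ⟨y, hy, hyJ⟩ : ∃ y ∈ F'.pre (F'.E τ'), y ∉ Q a ⊓ Q z ⊓ F'.pre (F'.E τ') := by
    by_contra h
    push Not at h
    have := Subgroup.card_le_of_le (show F'.pre (F'.E τ') ≤ _ from h)
    omega
  have hyz : y ∉ Q z := fun h => hyJ ⟨⟨hy.1, h⟩, hy⟩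
  have hzJ : z ∈ J := ⟨⟨F.good.mem, P.z_mem⟩, F.good.mem, by rw [F.v_z]; exact one_mem _⟩
  have haJ : a ∈ J := ⟨⟨P.mem, F'.good.mem⟩, P.mem, ha⟩
  have hb1 : b ≠ 1 := fun h => hbJ (by rw [h]; exact one_mem _)
  have hy1 : y ≠ 1 := fun h => hyJ (by rw [h]; exact one_mem _)
  obtain ⟨gb, hgb⟩ := P.conj_of_mem hτ ha hb hb1
  obtain ⟨hy', hgy'⟩ := P'.conj_of_mem hτ' hz hy hy1
  have Pb : F.Pair b := ⟨hb.1, fun h => hbJ (h ▸ hzJ), gb, hgb⟩
  have Py : F'.Pair y := ⟨hy.1, fun h => hyJ (by rw [h, hJJ]; exact haJ), hy', hgy'⟩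
  have hJb := Pb.card_J hF hτ hb.2
  have hJy := Py.card_J P'.free hτ' hy.2
  -- the common part
  have h8b : 8 ≤ Nat.card ↥(J ⊓ Q b) := by
    have h := card_mul_card_le (show J ≤ F.pre (F.E τ) from inf_le_right)
      (inf_le_right : Q z ⊓ Q b ⊓ F.pre (F.E τ) ≤ F.pre (F.E τ))
    rw [hJ, hJb, hpre] at h
    have := Subgroup.card_le_of_le (show J ⊓ (Q z ⊓ Q b ⊓ F.pre (F.E τ)) ≤ J ⊓ Q b from
      fun x hx => ⟨hx.1, hx.2.1.2⟩)
    omega
  have h8y : 8 ≤ Nat.card ↥(J ⊓ Q y) := by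
    have h := card_mul_card_le (inf_le_right : Q a ⊓ Q z ⊓ F'.pre (F'.E τ') ≤ F'.pre (F'.E τ'))
      (inf_le_right : Q a ⊓ Q y ⊓ F'.pre (F'.E τ') ≤ F'.pre (F'.E τ'))
    rw [hJ', hJy, hpre', hJJ] at h
    have := Subgroup.card_le_of_le (show J ⊓ (Q a ⊓ Q y ⊓ F'.pre (F'.E τ')) ≤ J ⊓ Q y from
      fun x hx => ⟨hx.1, hx.2.1.2⟩)
    omega
  have h4 : 4 ≤ Nat.card ↥(J ⊓ Q b ⊓ (J ⊓ Q y)) := by
    have h := card_mul_card_le (inf_le_left : J ⊓ Q b ≤ J) (inf_le_left : J ⊓ Q y ≤ J)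
    rw [hJ] at h
    nlinarith
  have hzy : z ∉ Q y := by
    intro h
    have hyc : (hy' * g) * z * (hy' * g)⁻¹ = y := by rw [← hgy', ← hg]; group
    have h' := F.core.symm (g := (hy' * g)⁻¹) ?_
    · have := F.core.conj_mem (hy' * g) _ h'
      rw [hyc, show hy' * g * ((hy' * g)⁻¹ * z * (hy' * g)⁻¹⁻¹) * (hy' * g)⁻¹ = z by group] at this
      exact hyz this
    · have := F.core.conj_mem (hy' * g)⁻¹ _ h
      rwa [← hyc, show (hy' * g)⁻¹ * (hy' * g * z * (hy' * g)⁻¹) * (hy' * g)⁻¹⁻¹ = z by group]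
        at this
  have hab : a ∉ Q b := by
    intro h
    have hgb' : (gb * g⁻¹) * a * (gb * g⁻¹)⁻¹ = b := by rw [← hgb, ← hg]; group
    have h' := F'.core.symm (g := (gb * g⁻¹)⁻¹) ?_
    · have := F.core.conj_mem (gb * g⁻¹) _ h'
      rw [hgb', show gb * g⁻¹ * ((gb * g⁻¹)⁻¹ * a * (gb * g⁻¹)⁻¹⁻¹) * (gb * g⁻¹)⁻¹ = a by group]
        at this
      exact hba this
    · have := F.core.conj_mem (gb * g⁻¹)⁻¹ _ h
      rwa [← hgb', show (gb * g⁻¹)⁻¹ * (gb * g⁻¹ * a * (gb * g⁻¹)⁻¹) * (gb * g⁻¹)⁻¹⁻¹ = a by group]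
        at this
  obtain ⟨d, hdb, hdy, hd1, hdza⟩ : ∃ d, d ∈ J ⊓ Q b ∧ d ∈ J ⊓ Q y ∧ d ≠ 1 ∧ d ≠ z * a := by
    by_contra h
    push Not at h
    have hsub : ((J ⊓ Q b ⊓ (J ⊓ Q y) : Subgroup G) : Set G) ⊆ {1, z * a} := by
      intro x hx
      by_cases hx1 : x = 1
      · exact Or.inl hx1
      · exact Or.inr (h x hx.1 hx.2 hx1)
    have := Set.ncard_le_ncard hsub (Set.toFinite _)
    rw [← Nat.card_coe_set_eq] at this
    have h2 : ({1, z * a} : Set G).ncard ≤ 2 := (Set.ncard_insert_le _ _).trans (by simp)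
    have : 4 ≤ Nat.card ↥((J ⊓ Q b ⊓ (J ⊓ Q y) : Subgroup G) : Set G) := h4
    omega
  have hdz : d ≠ z := fun h => hzy (h ▸ hdy.2)
  have hda : d ≠ a := fun h => hab (h ▸ hdb.2)
  obtain ⟨gd, hgd⟩ := P.conj_of_mem hτ ha hdb.1.2 hd1
  have Pd : F.Pair d := ⟨hdb.1.1.1, hdz, gd, hgd⟩
  have hdJ' : d ∈ Q a ⊓ Q z ⊓ F'.pre (F'.E τ') := hJJ.symm ▸ hdb.1
  have hgd' : (gd * g⁻¹) * a * (gd * g⁻¹)⁻¹ = d := by rw [← hgd, ← hg]; group
  have Pd' : F'.Pair d := ⟨hdb.1.1.2, hda, gd * g⁻¹, hgd'⟩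
  have Fd : Frame Q d := hgd ▸ F.conj gd
  obtain ⟨σ, hσ, hzd⟩ := (Pd.swap Fd).pure
  obtain ⟨σ', hσ', had⟩ := (Pd'.swap Fd).pure
  have hsym := Pd.J_symm hτ hdb.1.2.2 Fd hσ hzd
  have hsym' := Pd'.J_symm hτ' hdJ'.2.2 Fd hσ' had
  have hbd : b ∈ Q d := by
    have hgbd : (gb * gd⁻¹) * d * (gb * gd⁻¹)⁻¹ = b := by rw [← hgb, ← hgd]; group
    have h' := Fd.core.symm (g := (gb * gd⁻¹)⁻¹) ?_
    · have := Fd.core.conj_mem (gb * gd⁻¹) _ h'
      rwa [hgbd, show gb * gd⁻¹ * ((gb * gd⁻¹)⁻¹ * d * (gb * gd⁻¹)⁻¹⁻¹) * (gb * gd⁻¹)⁻¹ = d by group]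
        at this
    · have := Fd.core.conj_mem (gb * gd⁻¹)⁻¹ _ hdb.2
      rwa [← hgbd, show (gb * gd⁻¹)⁻¹ * (gb * gd⁻¹ * d * (gb * gd⁻¹)⁻¹) * (gb * gd⁻¹)⁻¹⁻¹ = d by group]
        at this
  have hyd : y ∈ Q d := by
    have hgy : (hy' * g * gd⁻¹) * d * (hy' * g * gd⁻¹)⁻¹ = y := by
      rw [← hgy', ← hgd, ← hg]; group
    have h' := Fd.core.symm (g := (hy' * g * gd⁻¹)⁻¹) ?_
    · have := Fd.core.conj_mem (hy' * g * gd⁻¹) _ h'
      rwa [hgy, show hy' * g * gd⁻¹ * ((hy' * g * gd⁻¹)⁻¹ * d * (hy' * g * gd⁻¹)⁻¹⁻¹) *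
        (hy' * g * gd⁻¹)⁻¹ = d by group] at this
    · have := Fd.core.conj_mem (hy' * g * gd⁻¹)⁻¹ _ hdy.2
      rwa [← hgy, show (hy' * g * gd⁻¹)⁻¹ * (hy' * g * gd⁻¹ * d * (hy' * g * gd⁻¹)⁻¹) *
        (hy' * g * gd⁻¹)⁻¹⁻¹ = d by group] at this
  have had_mem : a ∈ Q d ⊓ Q z ⊓ Fd.pre (Fd.E σ) := by
    rw [hsym]; exact ⟨⟨P.mem, (Pd'.swap Fd).mem⟩, P.mem, ha⟩
  have hσσ : σ = σ' := by
    by_contra hne
    exact (Pd'.swap Fd).v_ne_one ((Pd.swap Fd).free.disjoint σ σ' hσ hσ' hne _ had_mem.2.2 had)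
  have hbE : b ∈ Fd.pre (Fd.E σ) := by
    have : b ∈ Q d ⊓ Q z ⊓ Fd.pre (Fd.E σ) := by rw [hsym]; exact ⟨⟨hb.1, hbd⟩, hb⟩
    exact this.2
  have hyE : y ∈ Fd.pre (Fd.E σ) := by
    have : y ∈ Q d ⊓ Q a ⊓ Fd.pre (Fd.E σ') := by rw [hsym']; exact ⟨⟨hy.1, hyd⟩, hy⟩
    rw [hσσ]; exact this.2
  have hyb : y * b = b * y := (Fd.orth_v hyE.1 hbE.1).1
    ((Pd.swap Fd).free.isotropic σ hσ _ hyE.2 _ hbE.2)
  have hyJc : ∀ j ∈ J, y * j = j * y := by
    intro j hj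
    have hj' : j ∈ Q a ⊓ Q z ⊓ F'.pre (F'.E τ') := hJJ.symm ▸ hj
    exact (F'.orth_v hy.1 hj'.2.1).1 (P'.free.isotropic τ' hτ' _ hy.2 _ hj'.2.2)
  -- `y` centralises the whole inverse image
  have hycent : ∀ x ∈ F.pre (F.E τ), y * x = x * y := by
    let C : Subgroup G := F.pre (F.E τ) ⊓ Subgroup.centralizer ({y} : Set G)
    have hJC : J ≤ C := fun j hj => ⟨hj.2, Subgroup.mem_centralizer_singleton_iff.2 (hyJc j hj).symm⟩
    have hbC : b ∈ C := ⟨hb, Subgroup.mem_centralizer_singleton_iff.2 hyb.symm⟩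
    have h1 := Subgroup.card_le_of_le hJC
    have h2 : Nat.card C ∣ 32 := hpre ▸ Subgroup.card_dvd_of_le inf_le_left
    have h3 : Nat.card C ≠ 16 := fun h =>
      hbJ ((Subgroup.eq_of_le_of_card_ge hJC (by omega)).symm ▸ hbC)
    have h4 := Nat.le_of_dvd (by norm_num) h2
    have hC : Nat.card C = 32 := by
      rw [hJ] at h1
      interval_cases hn : Nat.card C <;> first | rfl | omega | (norm_num at h2)
    have heq : C = F.pre (F.E τ) := Subgroup.eq_of_le_of_card_ge inf_le_left (by omega)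
    intro x hx
    rw [← heq] at hx
    exact (Subgroup.mem_centralizer_singleton_iff.1 hx.2).symm
  have hyM : y ∈ Subgroup.centralizer ({z} : Set G) :=
    Subgroup.mem_centralizer_singleton_iff.2 (hyJc z hzJ)
  have hfix : ∀ u ∈ F.E τ, F.ρ ⟨y, hyM⟩ u = u := by
    intro u hu
    obtain ⟨q, hq, rfl⟩ := F.exists_rep u
    rw [F.ρ_v _ hq]
    show F.v (y * q * y⁻¹) = F.v q
    rw [hycent q ⟨hq, hu⟩, mul_inv_cancel_right]
  obtain ⟨u, hu, hu1⟩ : ∃ u ∈ F.E τ, u ≠ 1 := ⟨_, ha, P.v_ne_one⟩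
  set my : ↥(Subgroup.centralizer ({z} : Set G)) := ⟨y, hyM⟩
  have hconj : ∀ w, F.ρ my (F.act τ w) = F.act ((F.π my).1 * τ * (F.π my).1⁻¹) (F.ρ my w) := by
    intro w
    obtain ⟨n, hn, e⟩ := F.exists_lift_ψ τ 1
    obtain ⟨n', hn', e'⟩ := F.exists_lift_ψ ((F.π my).1 * τ * (F.π my).1⁻¹) 1
    unfold Frame.act
    rw [← e, ← e', ← MulAut.mul_apply, ← MulAut.mul_apply, ← map_mul, ← map_mul,
      F.ρ_congr (m := my * n) (n := n' * my)]
    rw [map_mul, map_mul, hn, hn']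
    exact Prod.ext (by simp) (by simp)
  have hστ : (F.π my).1 * τ * (F.π my).1⁻¹ = τ := by
    by_contra hne
    have h1 := hconj u
    rw [(hu : F.act τ u = u), hfix u hu] at h1
    exact hu1 (hF.disjoint τ _ hτ (by simp [hτ]) (Ne.symm hne) u hu h1.symm)
  have hπy : F.π my = (τ, 1) := by
    rcases comm_odd _ τ hτ hστ with h | h
    · exact absurd (fix_E_trivial hF hτ my h hfix) hyz
    · obtain ⟨n, hn, e⟩ := F.exists_lift_ψ τ 1
      have h1 : F.π (my * n) = 1 := by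
        refine (F.ker _).2 (fix_E_trivial hF hτ (my * n) ?_ fun w hw => ?_)
        · rw [map_mul, hn, Prod.fst_mul, h, odd_sq τ hτ]
        · rw [map_mul, MulAut.mul_apply, e]
          show F.ρ my (F.act τ w) = w
          rw [(hw : F.act τ w = w), hfix w hw]
      rw [map_mul, hn, mul_eq_one_iff_eq_inv] at h1
      rw [h1]
      exact Prod.ext (inv_eq_of_mul_eq_one_left (odd_sq τ hτ)) (by simp)
  have hyc : (hy' * g) * z * (hy' * g)⁻¹ = y := by rw [← hgy', ← hg]; group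
  subst hyc
  exact no_tau F hF (hy' * g) hyz hyM τ hτ hπy

end Frame

end CfsgLib.SThreeSSix.Direct
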