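import Mathlib

/-!
Finite facts on `S₃`, `S₆` and `A₆` for the coordinate-free proof of S3283.
-/

set_option autoImplicit false
set_option linter.style.haveILetI false

namespace CfsgLib.SThreeSSix.Direct

abbrev P3 := Equiv.Perm (Fin 3)
abbrev A6 := alternatingGroup (Fin 6)
abbrev L36 := Equiv.Perm (Fin 3) × Equiv.Perm (Fin 6)

/-- A 3-cycle of `S₃`. -/
def c3 : P3 := Equiv.swap 0 1 * Equiv.swap 1 2

/-- A transposition of `S₃`. -/
def t0 : P3 := Equiv.swap 0 1

/-- A 5-cycle. -/
def five : Equiv.Perm (Fin 6) :=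
  Equiv.swap 0 1 * Equiv.swap 1 2 * Equiv.swap 2 3 * Equiv.swap 3 4

theorem five_mem : five ∈ A6 := by
  rw [Equiv.Perm.mem_alternatingGroup]; decide +kernel

/-- The 5-cycle in `A₆`. -/
def fiveA : A6 := ⟨five, five_mem⟩

theorem five_pow : five ^ 5 = 1 := by decide +kernel
theorem five_ne : five ≠ 1 := by decide +kernel
theorem fiveA_pow : fiveA ^ 5 = 1 := Subtype.ext five_pow
theorem fiveA_ne : fiveA ≠ 1 := fun h => five_ne (congrArg Subtype.val h)
theorem c3_pow : c3 ^ 3 = 1 := by decide +kernel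
theorem c3_sign : Equiv.Perm.sign c3 = 1 := by decide +kernel
theorem c3_ne : c3 ≠ 1 := by decide +kernel
theorem t0_sign : Equiv.Perm.sign t0 = -1 := by decide +kernel

theorem odd_sq : ∀ τ : P3, Equiv.Perm.sign τ = -1 → τ * τ = 1 := by decide +kernel

theorem odd_inverts : ∀ τ : P3, Equiv.Perm.sign τ = -1 → τ * c3 * τ⁻¹ = c3 * c3 := by
  decide +kernel

theorem even_eq : ∀ σ : P3, Equiv.Perm.sign σ = 1 → σ = 1 ∨ σ = c3 ∨ σ = c3 * c3 := by
  decide +kernel

theorem odd_eq : ∀ τ τ' : P3, Equiv.Perm.sign τ = -1 → Equiv.Perm.sign τ' = -1 → τ ≠ τ' →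
    τ * τ' = c3 ∨ τ' * τ = c3 := by decide +kernel

theorem conj_c3_t0 : ∀ τ : P3, Equiv.Perm.sign τ = -1 →
    τ = t0 ∨ τ = c3 * t0 * c3⁻¹ ∨ τ = (c3 * c3) * t0 * (c3 * c3)⁻¹ := by decide +kernel

theorem invol_eq : ∀ σ : P3, σ * σ = 1 → σ = 1 ∨ Equiv.Perm.sign σ = -1 := by decide +kernel

theorem invol_comm_eq : ∀ σ σ' : P3, σ * σ = 1 → σ' * σ' = 1 → σ * σ' = σ' * σ →
    σ ≠ 1 → σ' ≠ 1 → σ = σ' := by decide +kernel

theorem comm_odd : ∀ σ τ : P3, Equiv.Perm.sign τ = -1 → σ * τ * σ⁻¹ = τ → σ = 1 ∨ σ = τ := by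
  decide +kernel

/-- Four points on a subgroup of exponent two of `S₆` of order 16: impossible. -/
theorem card_elem_six (S : Subgroup (Equiv.Perm (Fin 6))) (hsq : ∀ s ∈ S, s * s = 1)
    (hcomm : ∀ s ∈ S, ∀ t ∈ S, s * t = t * s) : Nat.card S ≤ 8 := by
  classical
  have hP : IsPGroup 2 S := fun s => ⟨1, Subtype.ext (by simpa [pow_two] using hsq s s.2)⟩
  obtain ⟨k, hk⟩ := IsPGroup.iff_card.1 hP
  have h720 : Nat.card (Equiv.Perm (Fin 6)) = 720 := by
    rw [Nat.card_perm, Nat.card_eq_fintype_card, Fintype.card_fin]; rfl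
  have hk4 : k ≤ 4 := by
    have hd : 2 ^ k ∣ 720 := hk ▸ h720 ▸ Subgroup.card_subgroup_dvd_card S
    by_contra h
    exact absurd ((pow_dvd_pow 2 (show 5 ≤ k by omega)).trans hd) (by norm_num)
  by_contra h8
  have hk' : k = 4 := by
    by_contra hne
    exact h8 (hk ▸ (Nat.pow_le_pow_right (show 1 ≤ 2 by norm_num) (show k ≤ 3 by omega)).trans (by norm_num))
  subst hk'
  -- a noncommuting pair inside a 2-subgroup
  let a : Equiv.Perm (Fin 6) := Equiv.swap 0 1
  let b : Equiv.Perm (Fin 6) := Equiv.swap 0 2 * Equiv.swap 1 3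
  let D : Subgroup (Equiv.Perm (Fin 6)) := Subgroup.closure {a, b}
  have hD : IsPGroup 2 D := by
    have hle : D ≤ ({ carrier := {g | g = 1 ∨ g = a ∨ g = b ∨ g = a * b ∨ g = b * a ∨ g = a * b * a ∨
                        g = b * a * b ∨ g = a * b * a * b}
                      one_mem' := Or.inl rfl
                      mul_mem' := by
                        intro x y hx hy
                        rcases hx with rfl | rfl | rfl | rfl | rfl | rfl | rfl | rfl <;>
                          rcases hy with rfl | rfl | rfl | rfl | rfl | rfl | rfl | rfl <;>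
                          (simp only [Set.mem_setOf_eq]; decide +kernel)
                      inv_mem' := by
                        intro x hx
                        rcases hx with rfl | rfl | rfl | rfl | rfl | rfl | rfl | rfl <;>
                          (simp only [Set.mem_setOf_eq]; decide +kernel) } :
                      Subgroup (Equiv.Perm (Fin 6))) := by
      rw [Subgroup.closure_le]
      rintro x (rfl | rfl)
      · exact Or.inr (Or.inl rfl)
      · exact Or.inr (Or.inr (Or.inl rfl))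
    intro g
    refine ⟨2, Subtype.ext ?_⟩
    have := hle g.2
    simp only [Subgroup.coe_pow, Subgroup.coe_one]
    rcases this with e | e | e | e | e | e | e | e <;> rw [e] <;> decide +kernel
  obtain ⟨T, hT⟩ := hD.exists_le_sylow
  let S' : Sylow 2 (Equiv.Perm (Fin 6)) := Sylow.ofCard S (by
    rw [hk, h720, show (720 : ℕ) = 2 ^ 4 * 45 by norm_num,
      Nat.factorization_mul (by norm_num) (by norm_num), Finsupp.add_apply,
      Nat.Prime.factorization_pow Nat.prime_two, Finsupp.single_eq_same,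
      Nat.factorization_eq_zero_of_not_dvd (by norm_num : ¬ 2 ∣ 45)])
  obtain ⟨g, hg⟩ := MulAction.exists_smul_eq (Equiv.Perm (Fin 6)) S' T
  have hmem : ∀ x ∈ D, g⁻¹ * x * g ∈ S := by
    intro x hx
    have hx' : x ∈ (T : Subgroup (Equiv.Perm (Fin 6))) := hT hx
    rw [← hg, Sylow.smul_def, Sylow.pointwise_smul_def, Subgroup.mem_pointwise_smul_iff_inv_smul_mem,
      ← map_inv, MulAut.smul_def, MulAut.conj_apply, inv_inv] at hx'
    exact hx'
  have hab := hcomm _ (hmem a (Subgroup.subset_closure (Or.inl rfl))) _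
    (hmem b (Subgroup.subset_closure (Or.inr rfl)))
  have : a * b = b * a := by
    have := congrArg (fun y => g * y * g⁻¹) hab
    simpa [mul_assoc] using this
  revert this
  decide +kernel

/-- `A₆` is simple, so a nontrivial image forces injectivity. -/
theorem alt_hom_eq_one {H : Type*} [Group H] (φ : A6 →* H) (h : φ fiveA = 1) (a : A6) :
    φ a = 1 := by
  haveI : IsSimpleGroup A6 := alternatingGroup.isSimpleGroup (by simp)
  rcases IsSimpleGroup.eq_bot_or_eq_top_of_normal φ.ker inferInstance with e | e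
  · exact absurd (Subgroup.mem_bot.1 (e ▸ (MonoidHom.mem_ker.2 h))) fiveA_ne
  · exact MonoidHom.mem_ker.1 (e ▸ Subgroup.mem_top a)

/-- `A₆` acting on fifteen points with the 5-cycle fixing none is transitive. -/
theorem alt_transitive {α : Type*} [Finite α] [MulAction A6 α] (hcard : Nat.card α = 15)
    (hfree : ∀ x : α, fiveA • x ≠ x) (x y : α) : ∃ a : A6, a • x = y := by
  classical
  haveI : IsSimpleGroup A6 := alternatingGroup.isSimpleGroup (by simp)
  haveI := Fintype.ofFinite α
  haveI : Fact (Nat.Prime 5) := ⟨by norm_num⟩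
  have key : ∀ z : α, 5 ∣ Nat.card (MulAction.orbit A6 z) ∧ Nat.card (MulAction.orbit A6 z) ≠ 5 := by
    intro z
    let φ : A6 →* Equiv.Perm (MulAction.orbit A6 z) := MulAction.toPermHom A6 _
    have hne : ∀ w : MulAction.orbit A6 z, φ fiveA w ≠ w := fun w e =>
      hfree w (congrArg Subtype.val e)
    refine ⟨?_, fun h5 => ?_⟩
    · have h := Equiv.Perm.card_compl_support_modEq (σ := φ fiveA) (p := 5) (n := 1)
        (by rw [pow_one, ← map_pow, fiveA_pow, map_one])
      rw [Nat.card_eq_fintype_card]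
      have e0 : ((φ fiveA).supportᶜ).card = 0 := by
        rw [Finset.card_eq_zero, Finset.eq_empty_iff_forall_notMem]
        intro w hw
        rw [Finset.mem_compl, Equiv.Perm.mem_support, not_not] at hw
        exact hne w hw
      rw [e0] at h
      exact Nat.modEq_zero_iff_dvd.1 h.symm
    · have hinj : Function.Injective φ := by
        rw [← MonoidHom.ker_eq_bot_iff]
        rcases IsSimpleGroup.eq_bot_or_eq_top_of_normal φ.ker inferInstance with e | e
        · exact e
        · refine absurd ?_ (hne ⟨z, MulAction.mem_orbit_self z⟩)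
          have : fiveA ∈ φ.ker := e ▸ Subgroup.mem_top _
          rw [MonoidHom.mem_ker.1 this]; rfl
      have := Subgroup.card_dvd_of_injective φ hinj
      rw [Nat.card_perm, h5, nat_card_alternatingGroup, Nat.card_eq_fintype_card, Fintype.card_fin]
        at this
      norm_num [Nat.factorial] at this
  have hle : ∀ z : α, Nat.card (MulAction.orbit A6 z) ≤ 15 := fun z =>
    hcard ▸ Nat.card_le_card_of_injective _ Subtype.val_injective
  by_cases hy : y ∈ MulAction.orbit A6 x
  · exact hy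
  exfalso
  have hdis : Disjoint (MulAction.orbit A6 x) (MulAction.orbit A6 y) := by
    rw [Set.disjoint_left]
    intro w hwx hwy
    exact hy ((MulAction.orbit_eq_iff.2 hwy).symm.trans (MulAction.orbit_eq_iff.2 hwx) ▸
      MulAction.mem_orbit_self y)
  have hsum := Set.ncard_union_eq hdis (Set.toFinite _) (Set.toFinite _)
  have hu := Set.ncard_le_ncard (Set.subset_univ (MulAction.orbit A6 x ∪ MulAction.orbit A6 y))
  rw [hsum, Set.ncard_univ, hcard, ← Nat.card_coe_set_eq, ← Nat.card_coe_set_eq] at hu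
  obtain ⟨⟨i, hi⟩, hi'⟩ := key x
  obtain ⟨⟨j, hj⟩, hj'⟩ := key y
  have hx0 : 0 < Nat.card (MulAction.orbit A6 x) :=
    @Nat.card_pos _ ⟨⟨x, MulAction.mem_orbit_self x⟩⟩ _
  have hy0 : 0 < Nat.card (MulAction.orbit A6 y) :=
    @Nat.card_pos _ ⟨⟨y, MulAction.mem_orbit_self y⟩⟩ _
  rw [hi] at hi' hu hx0
  rw [hj] at hj' hu hy0
  omega

/-- Two subgroups inside a third. -/
theorem card_mul_card_le {G : Type*} [Group G] [Finite G] {H K L : Subgroup G} (hH : H ≤ L)
    (hK : K ≤ L) : Nat.card H * Nat.card K ≤ Nat.card ↥(H ⊓ K) * Nat.card L := by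
  classical
  haveI := Fintype.ofFinite G
  let f : H × K → L := fun p => ⟨(p.1 : G) * p.2, L.mul_mem (hH p.1.2) (hK p.2.2)⟩
  rw [← Nat.card_prod, Nat.card_eq_fintype_card (α := H × K), Nat.card_eq_fintype_card (α := L),
    Nat.card_eq_fintype_card (α := ↥(H ⊓ K))]
  have h := Finset.card_le_mul_card_image (f := f) (Finset.univ : Finset (H × K))
    (Fintype.card ↥(H ⊓ K)) ?_
  · rw [Finset.card_univ] at h
    exact h.trans (Nat.mul_le_mul_left _ (Finset.card_le_univ _))
  intro l hl
  obtain ⟨p₀, -, hp₀⟩ := Finset.mem_image.1 hl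
  rw [← Fintype.card_coe]
  refine Fintype.card_le_of_injective (fun q => (⟨(p₀.1 : G)⁻¹ * (q.1.1 : G), ?_, ?_⟩ : ↥(H ⊓ K))) ?_
  · exact H.mul_mem (H.inv_mem p₀.1.2) q.1.1.2
  · have e : (q.1.1 : G) * q.1.2 = (p₀.1 : G) * p₀.2 :=
      congrArg Subtype.val (((Finset.mem_filter.1 q.2).2).trans hp₀.symm)
    have : (p₀.1 : G)⁻¹ * (q.1.1 : G) = (p₀.2 : G) * (q.1.2 : G)⁻¹ := by
      rw [eq_mul_inv_iff_mul_eq, mul_assoc, e]; group
    show (p₀.1 : G)⁻¹ * (q.1.1 : G) ∈ K
    rw [this]
    exact K.mul_mem p₀.2.2 (K.inv_mem q.1.2.2)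
  · intro q q' hqq
    have e1 : q.1.1 = q'.1.1 := Subtype.ext (mul_left_cancel (congrArg Subtype.val hqq :))
    have e2 := congrArg Subtype.val (((Finset.mem_filter.1 q.2).2).trans ((Finset.mem_filter.1 q'.2).2).symm)
    simp only [f, e1] at e2
    exact Subtype.ext (Prod.ext e1 (Subtype.ext (mul_left_cancel e2)))

end CfsgLib.SThreeSSix.Direct
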