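import Cfsg.Agent.Lib.SThreeSSix.Line
import Cfsg.Agent.Lib.SThreeSSix.LemmaT
import Cfsg.Agent.Lib.SThreeSSix.Direct.Perm
import Cfsg.Agent.Lib.ClassK.FStarCentralizer

/-!
A conjugate `z` with its extraspecial `Q z` of order 512, the map of `C(z)` to `S₃ × S₆`, the
eight-dimensional space `V = Q z / ⟨z⟩`, the action and the orthogonality relation.
-/

set_option autoImplicit false
set_option linter.style.haveILetI false

namespace CfsgLib.SThreeSSix.Direct

open CfsgLib.ExtraspecialLarge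

variable {G : Type*} [Group G] {Q : G → Subgroup G} {z : G}

/-- The data at one conjugate. -/
structure Frame (Q : G → Subgroup G) (z : G) where
  core : CoreSetting Q z
  card : Nat.card (Q z) = 2 ^ 9
  π : ↥(Subgroup.centralizer ({z} : Set G)) →* L36
  ker : ∀ m, π m = 1 ↔ (m : G) ∈ Q z
  lift : ∀ σ h, h ∈ A6 → ∃ m, π m = (σ, h)

namespace Frame

variable [Finite G] (F : Frame Q z)
include F

theorem good : Good (Q z) z := F.core.good

/-- The underlying eight-dimensional space. -/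
def V (_F : Frame Q z) : Type _ := ↥(Q z) ⧸ Subgroup.center ↥(Q z)

omit [Finite G] F in
theorem mem_center_iff' (x : ↥(Q z)) :
    x ∈ Subgroup.center ↥(Q z) ↔ ∀ y ∈ Q z, y * (x : G) = (x : G) * y := by
  rw [Subgroup.mem_center_iff]
  exact ⟨fun h y hy => congrArg Subtype.val (h ⟨y, hy⟩), fun h y => Subtype.ext (h y y.2)⟩

theorem mem_center_iff (x : ↥(Q z)) : x ∈ Subgroup.center ↥(Q z) ↔ (x : G) = 1 ∨ (x : G) = z := by
  rw [mem_center_iff']
  constructor
  · exact fun h => F.good.center x x.2 h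
  · rintro (e | e) y hy <;> rw [e]
    · simp
    · exact F.good.comm y hy

theorem z_comm {x : G} (hx : x ∈ Q z) : z * x = x * z := (F.good.comm x hx).symm

theorem z_inv : z⁻¹ = z := inv_eq_of_mul_eq_one_left F.good.sq_u

theorem comm_cases {x y : G} (hx : x ∈ Q z) (hy : y ∈ Q z) :
    x * y * x⁻¹ * y⁻¹ = 1 ∨ x * y * x⁻¹ * y⁻¹ = z := by
  rcases F.good.cases_conj x hx y hy with h | h <;> rw [h]
  · left; exact mul_inv_cancel y
  · right; exact mul_inv_cancel_right z y

noncomputable instance groupV : Group F.V :=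
  inferInstanceAs (Group (↥(Q z) ⧸ Subgroup.center ↥(Q z)))

instance finiteV : Finite F.V :=
  inferInstanceAs (Finite (↥(Q z) ⧸ Subgroup.center ↥(Q z)))

/-- Projection. -/
def proj : ↥(Q z) →* F.V := QuotientGroup.mk' _

theorem proj_surjective : Function.Surjective F.proj := QuotientGroup.mk'_surjective _

theorem proj_eq_proj {x y : ↥(Q z)} : F.proj x = F.proj y ↔ (x : G) = y ∨ (x : G) = z * y := by
  show (QuotientGroup.mk x : ↥(Q z) ⧸ Subgroup.center ↥(Q z)) = QuotientGroup.mk y ↔ _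
  rw [QuotientGroup.eq, F.mem_center_iff]
  simp only [Subgroup.coe_mul, Subgroup.coe_inv]
  rw [inv_mul_eq_one, inv_mul_eq_iff_eq_mul, ← F.z_comm x.2]
  constructor
  · rintro (h | h)
    · exact Or.inl h
    · right; rw [h, ← mul_assoc, F.good.sq_u, one_mul]
  · rintro (h | h)
    · exact Or.inl h
    · right; rw [h, ← mul_assoc, F.good.sq_u, one_mul]

theorem proj_eq_one {x : ↥(Q z)} : F.proj x = 1 ↔ (x : G) = 1 ∨ (x : G) = z := by
  rw [← map_one F.proj, F.proj_eq_proj]; simp

theorem mul_self (v : F.V) : v * v = 1 := by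
  obtain ⟨x, rfl⟩ := F.proj_surjective v
  rw [← map_mul, F.proj_eq_one]
  exact F.good.sq x x.2

noncomputable instance commGroupV : CommGroup F.V :=
  { (Frame.groupV F) with
    mul_comm := fun a b => by
      have h : ∀ v : F.V, v⁻¹ = v := fun v => inv_eq_of_mul_eq_one_left (F.mul_self v)
      calc a * b = (a * b)⁻¹ := (h _).symm
        _ = b⁻¹ * a⁻¹ := mul_inv_rev a b
        _ = b * a := by rw [h, h] }

theorem inv_eq (v : F.V) : v⁻¹ = v := inv_eq_of_mul_eq_one_left (F.mul_self v)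

theorem mul_eq_one {u v : F.V} : u * v = 1 ↔ u = v := by
  constructor
  · intro h
    calc u = u * (v * v) := by rw [F.mul_self, mul_one]
      _ = v := by rw [← mul_assoc, h, one_mul]
  · rintro rfl; exact F.mul_self u

theorem card_V : Nat.card F.V = 256 := by
  have hc : Nat.card ↥(Subgroup.center ↥(Q z)) = 2 := by
    rw [Nat.card_eq_two_iff]
    have hm : ∀ x : ↥(Q z), (x : G) = 1 ∨ (x : G) = z → x ∈ Subgroup.center ↥(Q z) :=
      fun x h => (F.mem_center_iff x).2 h
    refine ⟨1, ⟨⟨z, F.good.mem⟩, hm _ (Or.inr rfl)⟩, ?_, ?_⟩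
    · intro h
      exact F.good.ne_one (congrArg (fun w : ↥(Subgroup.center ↥(Q z)) => ((w : ↥(Q z)) : G)) h).symm
    · apply Set.eq_univ_of_forall
      intro w
      rcases (F.mem_center_iff _).1 w.2 with h | h
      · exact Or.inl (Subtype.ext (Subtype.ext h))
      · exact Or.inr (Subtype.ext (Subtype.ext h))
  have := Subgroup.card_eq_card_quotient_mul_card_subgroup (Subgroup.center ↥(Q z))
  rw [F.card, hc] at this
  show Nat.card (↥(Q z) ⧸ Subgroup.center ↥(Q z)) = 256
  omega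

open scoped Classical in
/-- The vector of an element. -/
noncomputable def v (x : G) : F.V := if h : x ∈ Q z then F.proj ⟨x, h⟩ else 1

theorem v_of_mem {x : G} (h : x ∈ Q z) : F.v x = F.proj ⟨x, h⟩ := by simp [v, h]

theorem v_mul {x y : G} (hx : x ∈ Q z) (hy : y ∈ Q z) : F.v (x * y) = F.v x * F.v y := by
  rw [F.v_of_mem hx, F.v_of_mem hy, F.v_of_mem ((Q z).mul_mem hx hy), ← map_mul]; rfl

theorem v_inv {x : G} (hx : x ∈ Q z) : F.v x⁻¹ = F.v x := by
  rw [F.v_of_mem hx, F.v_of_mem ((Q z).inv_mem hx),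
    show (⟨x⁻¹, _⟩ : ↥(Q z)) = (⟨x, hx⟩ : ↥(Q z))⁻¹ from rfl, map_inv, F.inv_eq]

theorem v_one : F.v 1 = 1 := by rw [F.v_of_mem (Q z).one_mem]; exact map_one F.proj

theorem v_z : F.v z = 1 := by
  rw [F.v_of_mem F.good.mem, F.proj_eq_one]; exact Or.inr rfl

theorem v_eq {x y : G} (hx : x ∈ Q z) (hy : y ∈ Q z) : F.v x = F.v y ↔ x = y ∨ x = z * y := by
  rw [F.v_of_mem hx, F.v_of_mem hy, F.proj_eq_proj]

theorem v_eq_one {x : G} (hx : x ∈ Q z) : F.v x = 1 ↔ x = 1 ∨ x = z := by
  rw [F.v_of_mem hx, F.proj_eq_one]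

theorem exists_rep (u : F.V) : ∃ x ∈ Q z, F.v x = u := by
  obtain ⟨x, rfl⟩ := F.proj_surjective u
  exact ⟨x, x.2, F.v_of_mem x.2⟩

theorem norm_mem (m : ↥(Subgroup.centralizer ({z} : Set G))) {x : G} (hx : x ∈ Q z) :
    (m : G) * x * (m : G)⁻¹ ∈ Q z :=
  F.good.norm m (Subgroup.mem_centralizer_singleton_iff.1 m.2) x hx

/-- The action of `C(z)` on the space, as a function. -/
noncomputable def actFun (m : ↥(Subgroup.centralizer ({z} : Set G))) (u : F.V) : F.V :=
  F.v ((m : G) * Classical.choose (F.exists_rep u) * (m : G)⁻¹)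

theorem actFun_v (m : ↥(Subgroup.centralizer ({z} : Set G))) {x : G} (hx : x ∈ Q z) :
    F.actFun m (F.v x) = F.v ((m : G) * x * (m : G)⁻¹) := by
  obtain ⟨hy, e⟩ := Classical.choose_spec (F.exists_rep (F.v x))
  show F.v _ = _
  rw [F.v_eq (F.norm_mem m hy) (F.norm_mem m hx)]
  rcases (F.v_eq hy hx).1 e with h | h <;> rw [h]
  · exact Or.inl rfl
  · right
    have hmz := Subgroup.mem_centralizer_singleton_iff.1 m.2
    rw [← mul_assoc, hmz, mul_assoc, mul_assoc, mul_assoc]

/-- The action of `C(z)` on the space. -/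
noncomputable def ρ : ↥(Subgroup.centralizer ({z} : Set G)) →* MulAut F.V where
  toFun m :=
    { toFun := F.actFun m
      invFun := F.actFun m⁻¹
      left_inv := fun u => by
        obtain ⟨x, hx, rfl⟩ := F.exists_rep u
        rw [F.actFun_v m hx, F.actFun_v m⁻¹ (F.norm_mem m hx)]
        simp [mul_assoc]
      right_inv := fun u => by
        obtain ⟨x, hx, rfl⟩ := F.exists_rep u
        rw [F.actFun_v m⁻¹ hx, F.actFun_v m (F.norm_mem m⁻¹ hx)]
        simp [mul_assoc]
      map_mul' := fun u w => by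
        obtain ⟨x, hx, rfl⟩ := F.exists_rep u
        obtain ⟨y, hy, rfl⟩ := F.exists_rep w
        rw [← F.v_mul hx hy, F.actFun_v m ((Q z).mul_mem hx hy), F.actFun_v m hx, F.actFun_v m hy,
          ← F.v_mul (F.norm_mem m hx) (F.norm_mem m hy)]
        simp [mul_assoc] }
  map_one' := by
    ext u
    obtain ⟨x, hx, rfl⟩ := F.exists_rep u
    show F.actFun 1 (F.v x) = F.v x
    rw [F.actFun_v 1 hx]; simp
  map_mul' m n := by
    ext u
    obtain ⟨x, hx, rfl⟩ := F.exists_rep u
    show F.actFun (m * n) (F.v x) = F.actFun m (F.actFun n (F.v x))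
    rw [F.actFun_v _ hx, F.actFun_v n hx, F.actFun_v m (F.norm_mem n hx)]
    simp [mul_assoc]

theorem ρ_v (m : ↥(Subgroup.centralizer ({z} : Set G))) {x : G} (hx : x ∈ Q z) :
    F.ρ m (F.v x) = F.v ((m : G) * x * (m : G)⁻¹) := F.actFun_v m hx

theorem ρ_of_mem {m : ↥(Subgroup.centralizer ({z} : Set G))} (hm : (m : G) ∈ Q z) : F.ρ m = 1 := by
  ext u
  obtain ⟨x, hx, rfl⟩ := F.exists_rep u
  rw [F.ρ_v m hx]
  show F.v _ = F.v x
  rw [F.v_eq (F.norm_mem m hx) hx]
  exact F.good.cases_conj _ hm x hx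

theorem ρ_congr {m n : ↥(Subgroup.centralizer ({z} : Set G))} (h : F.π m = F.π n) : F.ρ m = F.ρ n := by
  have : ((n⁻¹ * m : ↥(Subgroup.centralizer ({z} : Set G))) : G) ∈ Q z :=
    (F.ker _).1 (by rw [map_mul, map_inv, h, inv_mul_cancel])
  have := F.ρ_of_mem this
  rwa [map_mul, map_inv, inv_mul_eq_one, eq_comm] at this

theorem mem_of_ρ_eq_one {m : ↥(Subgroup.centralizer ({z} : Set G))} (h : F.ρ m = 1) :
    (m : G) ∈ Q z := by
  -- squares of elements acting trivially are in `Q`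
  have hsq : ∀ n, F.ρ n = 1 → F.π n * F.π n = 1 := by
    intro n hn
    rw [← map_mul]
    refine (F.ker _).2 (F.good.cen _ fun q hq => ?_)
    have hstep : ∀ x ∈ Q z, (n : G) * x * (n : G)⁻¹ = x ∨ (n : G) * x * (n : G)⁻¹ = z * x := by
      intro x hx
      have := DFunLike.congr_fun hn (F.v x)
      rw [F.ρ_v n hx] at this
      exact (F.v_eq (F.norm_mem n hx) hx).1 this
    rw [Subgroup.coe_mul, ← mul_inv_eq_iff_eq_mul, mul_inv_rev]
    rw [show (n : G) * n * q * ((n : G)⁻¹ * (n : G)⁻¹) = (n : G) * (n * q * (n : G)⁻¹) * (n : G)⁻¹ by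
      group]
    have hnz := Subgroup.mem_centralizer_singleton_iff.1 n.2
    rcases hstep q hq with e | e
    · rw [e, e]
    · rw [e, show (n : G) * (z * q) * (n : G)⁻¹ = ((n : G) * z) * (n : G)⁻¹ * (n * q * (n : G)⁻¹) by
        group, e, hnz, mul_inv_cancel_right, ← mul_assoc, F.good.sq_u, one_mul]
  let K : Subgroup L36 := (MonoidHom.ker F.ρ).map F.π
  have hK2 : ∀ k ∈ K, k * k = 1 := by
    rintro _ ⟨n, hn, rfl⟩; exact hsq n hn
  have hKn : ∀ σ h, h ∈ A6 → ∀ k ∈ K, (σ, h) * k * (σ, h)⁻¹ ∈ K := by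
    rintro σ h hh _ ⟨n, hn, rfl⟩
    obtain ⟨g, hg⟩ := F.lift σ h hh
    exact ⟨g * n * g⁻¹, by simp [MonoidHom.mem_ker.1 hn], by rw [map_mul, map_mul, map_inv, hg]⟩
  refine (F.ker m).1 ?_
  have hmK : F.π m ∈ K := ⟨m, h, rfl⟩
  have h2 : IsPGroup 2 (K.map (MonoidHom.snd _ _)) := by
    refine IsPGroup.map ?_ _
    exact fun k => ⟨1, Subtype.ext (by simpa [pow_two] using hK2 k k.2)⟩
  have hS := LemmaT.two_subgroup_eq_bot (K.map (MonoidHom.snd _ _)) h2 (by
    rintro h hh _ ⟨k, hk, rfl⟩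
    exact ⟨_, hKn 1 h hh k hk, by simp⟩)
  have e2 : (F.π m).2 = 1 := Subgroup.mem_bot.1 (hS ▸ Subgroup.mem_map_of_mem _ hmK)
  have e1 : (F.π m).1 = 1 := by
    have a := congrArg Prod.fst (hK2 _ hmK)
    have b := congrArg Prod.fst (hK2 _ (hKn c3 1 A6.one_mem _ hmK))
    have c := congrArg Prod.fst (hK2 _ (K.mul_mem hmK (hKn c3 1 A6.one_mem _ hmK)))
    simp only [Prod.fst_mul, Prod.fst_one, Prod.fst_inv] at a b c
    revert a b c
    generalize (F.π m).1 = σ
    revert σ
    decide +kernel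
  exact Prod.ext e1 e2

theorem ρ_inj {m n : ↥(Subgroup.centralizer ({z} : Set G))} (h : F.ρ m = F.ρ n) :
    F.π m = F.π n := by
  have h' : F.ρ (n⁻¹ * m) = 1 := by rw [map_mul, map_inv, h, inv_mul_cancel]
  have := (F.ker _).2 (F.mem_of_ρ_eq_one h')
  rwa [map_mul, map_inv, inv_mul_eq_one, eq_comm] at this

/-- Orthogonality: the representatives commute. -/
def Orth (u w : F.V) : Prop :=
  ∀ x ∈ Q z, ∀ y ∈ Q z, F.v x = u → F.v y = w → x * y = y * x

theorem orth_v {x y : G} (hx : x ∈ Q z) (hy : y ∈ Q z) :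
    F.Orth (F.v x) (F.v y) ↔ x * y = y * x := by
  refine ⟨fun h => h x hx y hy rfl rfl, fun h x' hx' y' hy' ex ey => ?_⟩
  have hz : ∀ w ∈ Q z, Commute z w := fun w hw => F.z_comm hw
  have hxy : Commute x y := h
  rcases (F.v_eq hx' hx).1 ex with rfl | rfl <;> rcases (F.v_eq hy' hy).1 ey with rfl | rfl
  · exact h
  · exact ((hz x' hx').symm.mul_right hxy).eq
  · exact ((hz y' hy').mul_left hxy).eq
  · exact (((Commute.refl z).mul_right (hz y hy)).mul_left
      ((hz x hx).symm.mul_right hxy)).eq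

theorem orth_comm {u w : F.V} : F.Orth u w ↔ F.Orth w u := by
  obtain ⟨x, hx, rfl⟩ := F.exists_rep u
  obtain ⟨y, hy, rfl⟩ := F.exists_rep w
  rw [F.orth_v hx hy, F.orth_v hy hx, eq_comm]

theorem orth_one (u : F.V) : F.Orth 1 u := by
  obtain ⟨y, hy, rfl⟩ := F.exists_rep u
  rw [← F.v_one, F.orth_v (Q z).one_mem hy, one_mul, mul_one]

theorem orth_mul_iff (u u' w : F.V) : F.Orth (u * u') w ↔ (F.Orth u w ↔ F.Orth u' w) := by
  obtain ⟨x, hx, rfl⟩ := F.exists_rep u
  obtain ⟨x', hx', rfl⟩ := F.exists_rep u'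
  obtain ⟨y, hy, rfl⟩ := F.exists_rep w
  rw [← F.v_mul hx hx', F.orth_v ((Q z).mul_mem hx hx') hy, F.orth_v hx hy, F.orth_v hx' hy]
  by_cases h : x * y = y * x <;> by_cases h' : x' * y = y * x'
  · simp only [h, h', iff_self, iff_true]
    exact (Commute.mul_left h h').eq
  · simp only [h, h', iff_false, not_true_eq_false]
    intro e
    apply h'
    have : x' = x⁻¹ * (x * x') := by group
    rw [this]
    exact ((Commute.inv_left h).mul_left e).eq
  · simp only [h, h', iff_true]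
    refine iff_of_false (fun e => h ?_) (fun q => q.elim)
    have : x = x * x' * x'⁻¹ := by group
    rw [this]
    exact (Commute.mul_left e (Commute.inv_left h')).eq
  · simp only [h, h', iff_self, iff_true]
    exact F.good.flip_mul hx hx' (F.good.flip_of_not_comm hx hy h)
      (F.good.flip_of_not_comm hx' hy h')

theorem orth_ρ (m : ↥(Subgroup.centralizer ({z} : Set G))) (u w : F.V) :
    F.Orth (F.ρ m u) (F.ρ m w) ↔ F.Orth u w := by
  obtain ⟨x, hx, rfl⟩ := F.exists_rep u
  obtain ⟨y, hy, rfl⟩ := F.exists_rep w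
  rw [F.ρ_v m hx, F.ρ_v m hy, F.orth_v (F.norm_mem m hx) (F.norm_mem m hy), F.orth_v hx hy]
  constructor
  · intro h
    have := congrArg (fun t => (m : G)⁻¹ * t * m) h
    simpa [mul_assoc] using this
  · intro h
    rw [show (m : G) * x * (m : G)⁻¹ * ((m : G) * y * (m : G)⁻¹) = (m : G) * (x * y) * (m : G)⁻¹ by
      group, h]
    group

theorem orth_nondeg {u : F.V} (h : ∀ w, F.Orth u w) : u = 1 := by
  obtain ⟨x, hx, rfl⟩ := F.exists_rep u
  exact (F.v_eq_one hx).2 (F.good.center x hx fun q hq => ((F.orth_v hx hq).1 (h _)).symm)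

/-- The perpendicular of a vector, as a subgroup. -/
noncomputable def perp (u : F.V) : Subgroup F.V where
  carrier := {w | F.Orth w u}
  one_mem' := F.orth_one u
  mul_mem' := fun {a b} ha hb => (F.orth_mul_iff a b u).2 (iff_of_true ha hb)
  inv_mem' := fun {a} ha => by simpa only [F.inv_eq, Set.mem_setOf_eq] using ha

/-- Squares. -/
def IsSing (u : F.V) : Prop := ∀ x ∈ Q z, F.v x = u → x * x = 1

theorem sing_v {x : G} (hx : x ∈ Q z) : F.IsSing (F.v x) ↔ x * x = 1 := by
  refine ⟨fun h => h x hx rfl, fun h x' hx' e => ?_⟩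
  rcases (F.v_eq hx' hx).1 e with rfl | rfl
  · exact h
  · rw [mul_assoc, ← mul_assoc x z, ← F.z_comm hx, ← mul_assoc, ← mul_assoc, F.good.sq_u,
      one_mul, h]

theorem sing_ρ (m : ↥(Subgroup.centralizer ({z} : Set G))) (u : F.V) :
    F.IsSing (F.ρ m u) ↔ F.IsSing u := by
  obtain ⟨x, hx, rfl⟩ := F.exists_rep u
  rw [F.ρ_v m hx, F.sing_v (F.norm_mem m hx), F.sing_v hx,
    show (m : G) * x * (m : G)⁻¹ * ((m : G) * x * (m : G)⁻¹) = (m : G) * (x * x) * (m : G)⁻¹ by
      group, mul_inv_eq_one, mul_eq_left]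

theorem sing_mul_iff (u w : F.V) :
    F.IsSing (u * w) ↔ ((F.IsSing u ↔ F.IsSing w) ↔ F.Orth u w) := by
  obtain ⟨x, hx, rfl⟩ := F.exists_rep u
  obtain ⟨y, hy, rfl⟩ := F.exists_rep w
  rw [← F.v_mul hx hy, F.sing_v ((Q z).mul_mem hx hy), F.sing_v hx, F.sing_v hy, F.orth_v hx hy]
  have hzy := F.z_comm hy
  have hne := F.good.ne_one
  have hzz := F.good.sq_u
  by_cases h : x * y = y * x
  · have e : x * y * (x * y) = (x * x) * (y * y) := by
      rw [mul_assoc x y, ← mul_assoc y x, ← h, mul_assoc x y y, ← mul_assoc]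
    rw [e]
    rcases F.good.sq x hx with a | a <;> rcases F.good.sq y hy with b | b <;>
      simp [a, b, h, hne, hzz]
  · have f : y * x = z * (x * y) := by
      have := F.good.flip_of_not_comm hy hx (fun e => h e.symm)
      rw [mul_inv_eq_iff_eq_mul] at this
      rw [this, mul_assoc]
    have e : x * y * (x * y) = z * ((x * x) * (y * y)) := by
      rw [mul_assoc x y, ← mul_assoc y x, f, ← mul_assoc x (z * (x * y)) y, ← mul_assoc x z,
        ← F.z_comm hx]
      group
    rw [e]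
    rcases F.good.sq x hx with a | a <;> rcases F.good.sq y hy with b | b <;>
      simp [a, b, h, hne, hzz]

omit [Finite G] F in
theorem conjIso_mem (g x : G) :
    x ∈ Subgroup.centralizer ({z} : Set G) ↔
      g * x * g⁻¹ ∈ Subgroup.centralizer ({g * z * g⁻¹} : Set G) := by
  rw [Subgroup.mem_centralizer_singleton_iff, Subgroup.mem_centralizer_singleton_iff]
  constructor
  · intro e
    calc g * x * g⁻¹ * (g * z * g⁻¹) = g * (x * z) * g⁻¹ := by group
      _ = _ := by rw [e]; group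
  · intro e
    calc x * z = g⁻¹ * (g * x * g⁻¹ * (g * z * g⁻¹)) * g := by group
      _ = z * x := by rw [e]; group

/-- Transport to a conjugate. -/
noncomputable def conj (g : G) : Frame Q (g * z * g⁻¹) where
  core :=
    { def_Q := F.core.def_Q
      order := by
        rw [show g * z * g⁻¹ = (MulAut.conj g).toMonoidHom z from rfl,
          orderOf_injective (MulAut.conj g).toMonoidHom (MulAut.conj g).injective]
        exact F.core.order
      extra := by
        rw [F.core.eq_map g z]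
        exact CfsgLib.ClassK.isExtraspecial_congr
          ((Q z).equivMapOfInjective _ (MulAut.conj g).injective) F.core.extra
      cen := fun x hx => (F.core.good_of_conj ⟨g, rfl⟩).cen x fun q hq =>
        (Subgroup.mem_centralizer_iff.1 hx q hq).symm }
  card := by
    rw [F.core.eq_map g z, Subgroup.card_map_of_injective (MulAut.conj g).injective]
    exact F.card
  π :=
    { toFun := fun m => F.π ⟨g⁻¹ * (m : G) * g,
        (conjIso_mem g _).2 (by
          rw [show g * (g⁻¹ * (m : G) * g) * g⁻¹ = (m : G) by group]; exact m.2)⟩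
      map_one' := by
        rw [← map_one F.π]
        exact congrArg F.π (Subtype.ext (by simp))
      map_mul' := fun m n => by
        rw [← map_mul]
        exact congrArg F.π (Subtype.ext (by simp [mul_assoc])) }
  ker := fun m => by
    refine (F.ker _).trans ?_
    show g⁻¹ * (m : G) * g ∈ Q z ↔ _
    rw [F.core.eq_map g z]
    constructor
    · exact fun h => ⟨_, h, by simp [mul_assoc]⟩
    · rintro ⟨y, hy, e⟩
      rw [← e]
      simpa [mul_assoc] using hy
  lift := fun σ h hh => by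
    obtain ⟨m, hm⟩ := F.lift σ h hh
    refine ⟨⟨g * (m : G) * g⁻¹, (conjIso_mem g _).1 m.2⟩, ?_⟩
    show F.π _ = _
    rw [← hm]
    exact congrArg F.π (Subtype.ext (by simp [mul_assoc]))

end Frame

end CfsgLib.SThreeSSix.Direct
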