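import Cfsg.Agent.Lib.SThreeSSix.Direct.Frame

/-!
The action of `S₃ × A₆` on `V`, the fixed spaces `E τ` of the transpositions, and the package
`Free` of their properties in the case where the 3-cycle acts fixed-point-freely.
-/

set_option autoImplicit false
set_option linter.style.haveILetI false

namespace CfsgLib.SThreeSSix.Direct

variable {G : Type*} [Group G] {Q : G → Subgroup G} {z : G}

namespace Frame

variable [Finite G] (F : Frame Q z)
include F

/-- The action of `S₃ × A₆`. -/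
noncomputable def ψ : P3 × ↥A6 →* MulAut F.V where
  toFun p := F.ρ (Classical.choose (F.lift p.1 p.2 p.2.2))
  map_one' := by
    rw [← map_one F.ρ]
    refine F.ρ_congr ?_
    rw [Classical.choose_spec (F.lift (1 : P3 × ↥A6).1 (1 : P3 × ↥A6).2 (1 : P3 × ↥A6).2.2),
      map_one]
    rfl
  map_mul' p q := by
    rw [← map_mul]
    refine F.ρ_congr ?_
    rw [map_mul, Classical.choose_spec (F.lift (p * q).1 (p * q).2 (p * q).2.2),
      Classical.choose_spec (F.lift p.1 p.2 p.2.2), Classical.choose_spec (F.lift q.1 q.2 q.2.2)]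
    rfl

theorem ρ_eq_ψ {m : ↥(Subgroup.centralizer ({z} : Set G))} {σ : P3} {h : ↥A6}
    (hm : F.π m = (σ, (h : Equiv.Perm (Fin 6)))) : F.ρ m = F.ψ (σ, h) :=
  F.ρ_congr (hm.trans (Classical.choose_spec (F.lift (σ, h).1 (σ, h).2 (σ, h).2.2)).symm)

theorem exists_lift_ψ (σ : P3) (h : ↥A6) :
    ∃ m, F.π m = (σ, (h : Equiv.Perm (Fin 6))) ∧ F.ρ m = F.ψ (σ, h) := by
  obtain ⟨m, hm⟩ := F.lift σ h h.2
  exact ⟨m, hm, F.ρ_eq_ψ hm⟩

/-- The action of `σ ∈ S₃`. -/
noncomputable def act (σ : P3) : MulAut F.V := F.ψ (σ, 1)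

/-- The fixed space of `σ`. -/
noncomputable def E (σ : P3) : Subgroup F.V where
  carrier := {u | F.act σ u = u}
  one_mem' := map_one _
  mul_mem' := fun {a b} ha hb => by simp only [Set.mem_setOf_eq] at *; rw [map_mul, ha, hb]
  inv_mem' := fun {a} ha => by simp only [Set.mem_setOf_eq] at *; rw [map_inv, ha]

theorem mem_E {σ : P3} {u : F.V} : u ∈ F.E σ ↔ F.act σ u = u := Iff.rfl

/-- The inverse image of a subgroup of `V`. -/
noncomputable def pre (S : Subgroup F.V) : Subgroup G where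
  carrier := {x | x ∈ Q z ∧ F.v x ∈ S}
  one_mem' := ⟨(Q z).one_mem, by rw [F.v_one]; exact S.one_mem⟩
  mul_mem' := fun {a b} ha hb =>
    ⟨(Q z).mul_mem ha.1 hb.1, by rw [F.v_mul ha.1 hb.1]; exact S.mul_mem ha.2 hb.2⟩
  inv_mem' := fun {a} ha => ⟨(Q z).inv_mem ha.1, by rw [F.v_inv ha.1]; exact ha.2⟩

theorem mem_pre {S : Subgroup F.V} {x : G} : x ∈ F.pre S ↔ x ∈ Q z ∧ F.v x ∈ S := Iff.rfl

theorem card_pre (S : Subgroup F.V) : Nat.card (F.pre S) = 2 * Nat.card S := by
  classical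
  let f : Bool × S → F.pre S := fun p =>
    ⟨(if p.1 then z else 1) * Classical.choose (F.exists_rep p.2), by
      obtain ⟨h1, h2⟩ := Classical.choose_spec (F.exists_rep p.2)
      have hc : (if p.1 then z else 1) ∈ Q z := by
        split
        · exact F.good.mem
        · exact (Q z).one_mem
      refine ⟨(Q z).mul_mem hc h1, ?_⟩
      rw [F.v_mul hc h1, h2]
      have : F.v (if p.1 then z else 1) = 1 := by
        split
        · exact F.v_z
        · exact F.v_one
      rw [this, one_mul]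
      exact p.2.2⟩
  have hb : Function.Bijective f := by
    constructor
    · rintro ⟨b, s⟩ ⟨b', s'⟩ e
      have e' := congrArg (fun x : F.pre S => (x : G)) e
      simp only [f] at e'
      obtain ⟨h1, h2⟩ := Classical.choose_spec (F.exists_rep (s : F.V))
      obtain ⟨h1', h2'⟩ := Classical.choose_spec (F.exists_rep (s' : F.V))
      have hv := congrArg F.v e'
      have hs : s = s' := by
        apply Subtype.ext
        rw [← h2, ← h2']
        cases b <;> cases b' <;>
          simp [F.v_mul, F.good.mem, h1, h1', F.v_z] at hv <;> exact hv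
      subst hs
      cases b <;> cases b' <;> simp [F.good.ne_one] at e' ⊢
    · rintro ⟨x, hx, hS⟩
      obtain ⟨h1, h2⟩ := Classical.choose_spec (F.exists_rep (F.v x))
      rcases (F.v_eq hx h1).1 h2.symm with h | h
      · exact ⟨(false, ⟨F.v x, hS⟩), Subtype.ext (by simp [f]; exact h.symm)⟩
      · exact ⟨(true, ⟨F.v x, hS⟩), Subtype.ext (by simp [f]; exact h.symm)⟩
  rw [← Nat.card_eq_of_bijective f hb, Nat.card_prod, Nat.card_eq_fintype_card (α := Bool),
    Fintype.card_bool]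

/-- Properties of the fixed spaces when the 3-cycle fixes only `1`. -/
structure Free : Prop where
  cfree : ∀ u, F.act c3 u = u → u = 1
  card_E : ∀ τ, Equiv.Perm.sign τ = -1 → Nat.card (F.E τ) = 16
  moved : ∀ τ, Equiv.Perm.sign τ = -1 → ∀ u, F.act τ u * u ∈ F.E τ
  isotropic : ∀ τ, Equiv.Perm.sign τ = -1 → ∀ u ∈ F.E τ, ∀ w ∈ F.E τ, F.Orth u w
  disjoint : ∀ τ τ', Equiv.Perm.sign τ = -1 → Equiv.Perm.sign τ' = -1 → τ ≠ τ' →
    ∀ u ∈ F.E τ, u ∈ F.E τ' → u = 1
  split : ∀ τ τ', Equiv.Perm.sign τ = -1 → Equiv.Perm.sign τ' = -1 → τ ≠ τ' →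
    ∀ u, ∃ e ∈ F.E τ, ∃ e' ∈ F.E τ', u = e * e'
  five_free : ∀ u, F.ψ (1, fiveA) u = u → u = 1
  transitive : ∀ τ, Equiv.Perm.sign τ = -1 → ∀ u ∈ F.E τ, ∀ w ∈ F.E τ, u ≠ 1 → w ≠ 1 →
    ∃ h : ↥A6, F.ψ (1, h) u = w

end Frame

end CfsgLib.SThreeSSix.Direct
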