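import Cfsg.Agent.Lib.SThreeSSix.Direct.Cases

/-!
A conjugate `a` of `z` in `Q z`: the small case is impossible, `a` is fixed modulo `z` by a lift
of a transposition, and `Q z ⊓ Q a` meets that fixed space in exactly sixteen elements.
-/

set_option autoImplicit false
set_option linter.style.haveILetI false

namespace CfsgLib.SThreeSSix.Direct

open CfsgLib.ExtraspecialLarge

variable {G : Type*} [Group G] {Q : G → Subgroup G} {z : G}

theorem card_le_two_mul {G : Type*} [Group G] [Finite G] {J H : Subgroup G}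
    (h : ∀ x ∈ H, x ∉ J → ∀ y ∈ H, y ∉ J → x * y ∈ J) : Nat.card H ≤ 2 * Nat.card J := by
  classical
  by_cases hall : ∀ x ∈ H, x ∈ J
  · exact (Subgroup.card_le_of_le hall).trans (Nat.le_mul_of_pos_left _ (by norm_num))
  push Not at hall
  obtain ⟨y, hy, hyJ⟩ := hall
  let f : H → Bool × J := fun x =>
    if hx : (x : G) ∈ J then (false, ⟨x, hx⟩) else (true, ⟨(x : G) * y, h x x.2 hx y hy hyJ⟩)
  have hf : Function.Injective f := by
    intro a b e
    by_cases ha : (a : G) ∈ J <;> by_cases hb : (b : G) ∈ J <;>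
      simp only [f, dif_pos, dif_neg, ha, hb, not_false_iff, Prod.ext_iff] at e
    · exact Subtype.ext (congrArg (fun w : J => (w : G)) e.2 :)
    · exact absurd e.1 (by simp)
    · exact absurd e.1 (by simp)
    · exact Subtype.ext (mul_right_cancel (congrArg (fun w : J => (w : G)) e.2 :))
  have := Nat.card_le_card_of_injective f hf
  rwa [Nat.card_prod, Nat.card_eq_fintype_card (α := Bool), Fintype.card_bool] at this

theorem conj_c3_odd {τ : P3} (hτ : Equiv.Perm.sign τ = -1) :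
    Equiv.Perm.sign (c3 * τ * c3⁻¹) = -1 ∧ τ ≠ c3 * τ * c3⁻¹ := by
  refine ⟨by simp [hτ], ?_⟩
  revert hτ; revert τ; decide +kernel

namespace Frame

variable [Finite G] (F : Frame Q z)
include F

/-- A conjugate of `z` in `Q z` different from `z`. -/
structure Pair (F : Frame Q z) (a : G) : Prop where
  mem : a ∈ Q z
  ne : a ≠ z
  conj : ∃ g : G, g * z * g⁻¹ = a

variable {F} {a : G}

theorem Pair.line (P : F.Pair a) : Line Q z a := by
  obtain ⟨g, hg⟩ := P.conj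
  subst hg
  exact CfsgLib.SThreeSSix.line F.core F.card P.mem P.ne

theorem Pair.good (P : F.Pair a) : Good (Q a) a := F.core.good_of_conj P.conj

theorem Pair.card_Qa (P : F.Pair a) : Nat.card (Q a) = 2 ^ 9 := by
  obtain ⟨g, rfl⟩ := P.conj
  exact (F.conj g).card

theorem Pair.v_ne_one (P : F.Pair a) : F.v a ≠ 1 := fun e => by
  rcases (F.v_eq_one P.mem).1 e with h | h
  · obtain ⟨g, hg⟩ := P.conj
    rw [h, mul_inv_eq_one, mul_eq_left] at hg
    exact F.good.ne_one hg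
  · exact P.ne h

variable (F) (a)

/-- `C_{Q a}(z)`. -/
def RR (_F : Frame Q z) (a : G) : Subgroup G := Q a ⊓ Subgroup.centralizer ({z} : Set G)

theorem RR_le : F.RR a ≤ Subgroup.centralizer ({z} : Set G) := inf_le_right

/-- The map of `C_{Q a}(z)` to `S₃ × S₆`. -/
noncomputable def πR : ↥(F.RR a) →* L36 := F.π.comp (Subgroup.inclusion (F.RR_le a))

/-- The action of `C_{Q a}(z)` on `V`. -/
noncomputable def ρR : ↥(F.RR a) →* MulAut F.V := F.ρ.comp (Subgroup.inclusion (F.RR_le a))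

/-- The elements with trivial `S₃`-component. -/
noncomputable def NN : Subgroup ↥(F.RR a) := ((MonoidHom.fst _ _).comp (F.πR a)).ker

variable {F} {a}

theorem πR_eq_one (r : ↥(F.RR a)) : F.πR a r = 1 ↔ (r : G) ∈ Q z := F.ker _

theorem ρR_v (r : ↥(F.RR a)) {x : G} (hx : x ∈ Q z) :
    F.ρR a r (F.v x) = F.v ((r : G) * x * (r : G)⁻¹) := F.ρ_v _ hx

theorem rz (r : ↥(F.RR a)) : (r : G) * z = z * r := Subgroup.mem_centralizer_singleton_iff.1 r.2.2

theorem Pair.πR_comm (P : F.Pair a) (r s : ↥(F.RR a)) : F.πR a r * F.πR a s = F.πR a s * F.πR a r := by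
  have h := P.line.comm_R r r.2.1 (rz r) s s.2.1 (rz s)
  have := (πR_eq_one (r * s * r⁻¹ * s⁻¹)).2 h.1
  rwa [map_mul, map_mul, map_mul, map_inv, map_inv, mul_inv_eq_one, mul_inv_eq_iff_eq_mul] at this

theorem Pair.πR_sq (P : F.Pair a) (r : ↥(F.RR a)) : F.πR a r * F.πR a r = 1 := by
  rw [← map_mul]; exact (πR_eq_one _).2 (P.line.sq_R r r.2.1 (rz r)).1

theorem Pair.ρR_comm (P : F.Pair a) (r s : ↥(F.RR a)) (u : F.V) :
    F.ρR a r (F.ρR a s u) = F.ρR a s (F.ρR a r u) := by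
  rw [← MulAut.mul_apply, ← MulAut.mul_apply, ← map_mul, ← map_mul]
  exact DFunLike.congr_fun (F.ρ_congr (show F.πR a (r * s) = F.πR a (s * r) by
    rw [map_mul, map_mul, P.πR_comm])) u

theorem Pair.ρR_sq (P : F.Pair a) (r : ↥(F.RR a)) : F.ρR a r * F.ρR a r = 1 := by
  rw [← map_mul, ← map_one F.ρ]
  exact F.ρ_congr ((map_mul F.π _ _).trans ((P.πR_sq r).trans (map_one F.π).symm))

theorem NN_act {r : ↥(F.RR a)} (hr : r ∈ F.NN a) (σ : P3) (u : F.V) :
    F.ρR a r (F.act σ u) = F.act σ (F.ρR a r u) := by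
  obtain ⟨n, hn, e⟩ := F.exists_lift_ψ σ 1
  unfold Frame.act
  rw [← e, ← MulAut.mul_apply, ← MulAut.mul_apply]
  show (F.ρ (Subgroup.inclusion (F.RR_le a) r) * F.ρ n) u = _
  rw [← map_mul, F.ρ_congr (n := n * Subgroup.inclusion (F.RR_le a) r), map_mul]
  · rfl
  · rw [map_mul, map_mul, hn]
    have h1 : (F.π (Subgroup.inclusion (F.RR_le a) r)).1 = 1 := hr
    exact Prod.ext (by simp [h1]) (by simp)

theorem Pair.NN_fix_self (P : F.Pair a) (r : ↥(F.RR a)) : F.ρR a r (F.v a) = F.v a := by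
  rw [ρR_v r P.mem, P.good.comm _ r.2.1, mul_inv_cancel_right]

theorem Pair.card_RR (P : F.Pair a) : Nat.card (F.RR a) = 256 := P.line.card_R

theorem Pair.z_mem (P : F.Pair a) : z ∈ Q a := P.line.mem_right

/-- `Q z ⊓ Q a` as the kernel. -/
theorem Pair.card_ker (P : F.Pair a) :
    Nat.card (F.πR a).ker = Nat.card ↥(Q z ⊓ Q a) := by
  refine Nat.card_congr
    { toFun := fun r => ⟨((r : ↥(F.RR a)) : G), (πR_eq_one _).1 r.2, (r : ↥(F.RR a)).2.1⟩
      invFun := fun e => ⟨⟨(e : G), e.2.2, Subgroup.mem_centralizer_singleton_iff.2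
        (F.good.comm _ e.2.1)⟩, (πR_eq_one _).2 e.2.1⟩
      left_inv := fun r => rfl
      right_inv := fun e => rfl }

theorem Pair.card_NN (P : F.Pair a) : 128 ≤ Nat.card (F.NN a) := by
  classical
  let φ : ↥(F.RR a) →* P3 := (MonoidHom.fst _ _).comp (F.πR a)
  have hsq : ∀ x ∈ φ.range, x * x = 1 := by
    rintro _ ⟨r, rfl⟩; exact congrArg Prod.fst (P.πR_sq r)
  have hcm : ∀ x ∈ φ.range, ∀ y ∈ φ.range, x * y = y * x := by
    rintro _ ⟨r, rfl⟩ _ ⟨s, rfl⟩; exact congrArg Prod.fst (P.πR_comm r s)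
  have h2 : Nat.card φ.range ≤ 2 := by
    refine (card_le_two_mul (J := ⊥) fun x hx hx1 y hy hy1 => ?_).trans (by simp)
    rw [Subgroup.mem_bot] at hx1 hy1 ⊢
    rw [invol_comm_eq x y (hsq x hx) (hsq y hy) (hcm x hx y hy) hx1 hy1, hsq y hy]
  have h := Subgroup.card_mul_index φ.ker
  rw [Subgroup.index_ker, P.card_RR] at h
  have := Nat.mul_le_mul_left (Nat.card φ.ker) h2
  show 128 ≤ Nat.card φ.ker
  omega

theorem Pair.card_I (P : F.Pair a) :
    16 ≤ Nat.card ↥(Q z ⊓ Q a) ∧ ((∀ r, r ∈ F.NN a) → 32 ≤ Nat.card ↥(Q z ⊓ Q a)) := by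
  classical
  have h := Subgroup.card_mul_index (F.πR a).ker
  rw [Subgroup.index_ker, P.card_RR, P.card_ker] at h
  let S : Subgroup (Equiv.Perm (Fin 6)) := (F.πR a).range.map (MonoidHom.snd _ _)
  let S1 : Subgroup P3 := (F.πR a).range.map (MonoidHom.fst _ _)
  have hS : Nat.card S ≤ 8 := by
    refine card_elem_six S ?_ ?_
    · rintro _ ⟨_, ⟨r, rfl⟩, rfl⟩
      rw [← map_mul, P.πR_sq, map_one]
    · rintro _ ⟨_, ⟨r, rfl⟩, rfl⟩ _ ⟨_, ⟨s, rfl⟩, rfl⟩
      rw [← map_mul, P.πR_comm, map_mul]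
  have hsq1 : ∀ x ∈ S1, x * x = 1 := by
    rintro _ ⟨_, ⟨r, rfl⟩, rfl⟩; rw [← map_mul, P.πR_sq, map_one]
  have hS1 : Nat.card S1 ≤ 2 := by
    refine (card_le_two_mul (J := ⊥) fun x hx hx1 y hy hy1 => ?_).trans (by simp)
    rw [Subgroup.mem_bot] at hx1 hy1 ⊢
    have hc : x * y = y * x := by
      obtain ⟨_, ⟨r, rfl⟩, rfl⟩ := hx
      obtain ⟨_, ⟨s, rfl⟩, rfl⟩ := hy
      rw [← map_mul, P.πR_comm, map_mul]
    rw [invol_comm_eq x y (hsq1 x hx) (hsq1 y hy) hc hx1 hy1, hsq1 y hy]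
  have hle : Nat.card (F.πR a).range ≤ Nat.card S1 * Nat.card S := by
    rw [← Nat.card_prod]
    refine Nat.card_le_card_of_injective
      (fun x => ((⟨(x : L36).1, ⟨x, x.2, rfl⟩⟩ : S1), (⟨(x : L36).2, ⟨x, x.2, rfl⟩⟩ : S))) ?_
    intro x y e
    simp only [Prod.ext_iff, Subtype.ext_iff] at e
    exact Subtype.ext (Prod.ext e.1 e.2)
  constructor
  · nlinarith
  · intro hN
    have h1 : Nat.card S1 = 1 := by
      rw [Subgroup.card_eq_one, Subgroup.eq_bot_iff_forall]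
      rintro _ ⟨_, ⟨r, rfl⟩, rfl⟩
      exact hN r
    rw [h1, one_mul] at hle
    nlinarith

/-- No large subgroup of `Q z ⊓ Q a` is centralised by the kernel of the `S₃`-component. -/
theorem Pair.key (P : F.Pair a) (I' : Subgroup G) (hI' : I' ≤ Q z ⊓ Q a) (ha : a ∈ I')
    (h16 : 16 ≤ Nat.card I')
    (hfix : ∀ r ∈ F.NN a, ∀ e ∈ I', F.ρR a r (F.v e) = F.v e) : False := by
  have hI : I' ≤ Q a := hI'.trans inf_le_right
  have h := card_centralizer_mul_card_le P.good hI ha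
  rw [P.card_Qa] at h
  have hN := P.card_NN
  have hle : Nat.card (F.NN a) ≤ Nat.card ↥(Q a ⊓ Subgroup.centralizer (I' : Set G)) := by
    refine Nat.card_le_card_of_injective (fun r => ⟨((r : ↥(F.RR a)) : G), (r : ↥(F.RR a)).2.1, ?_⟩) ?_
    · refine Subgroup.mem_centralizer_iff.2 fun e he => ?_
      have he' := hI' he
      have hfx := hfix r r.2 e he
      rw [ρR_v _ he'.1, F.v_eq (F.norm_mem ⟨_, (r : ↥(F.RR a)).2.2⟩ he'.1) he'.1] at hfx
      rcases P.line.conj_E _ (r : ↥(F.RR a)).2.1 e he' with c | c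
      · exact (mul_inv_eq_iff_eq_mul.1 c).symm
      · exfalso
        rcases hfx with f | f <;> rw [c] at f
        · exact P.v_ne_one (by rw [mul_eq_right.1 f]; exact F.v_one)
        · exact P.ne (mul_right_cancel f)
    · intro x y e
      exact Subtype.ext (Subtype.ext (congrArg Subtype.val e :))
  nlinarith

/-- `[C_Q(a), C_{Q a}(z)] ≤ Q z ⊓ Q a`. -/
theorem Pair.comm_mem (P : F.Pair a) (r : ↥(F.RR a)) {q : G} (hq : q ∈ Q z) (hqa : q * a = a * q) :
    (r : G) * q * (r : G)⁻¹ * q⁻¹ ∈ Q z ⊓ Q a := by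
  refine ⟨(Q z).mul_mem (F.norm_mem ⟨_, r.2.2⟩ hq) ((Q z).inv_mem hq), ?_⟩
  rw [show (r : G) * q * (r : G)⁻¹ * q⁻¹ = (r : G) * (q * (r : G)⁻¹ * q⁻¹) by group]
  exact (Q a).mul_mem r.2.1 (P.good.norm q hqa _ ((Q a).inv_mem r.2.1))

theorem v_comm {g q : G} (hg : g * z = z * g) (hq : q ∈ Q z) :
    F.v (g * q * g⁻¹ * q⁻¹) = F.v (g * q * g⁻¹) * F.v q := by
  rw [F.v_mul (F.good.norm g hg q hq) ((Q z).inv_mem hq), F.v_inv hq]

theorem Pair.mover_dd (P : F.Pair a) {r : ↥(F.RR a)} {e : G} (he : e ∈ Q z ⊓ Q a)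
    (h : (r : G) * e * (r : G)⁻¹ = a * e) : F.dd (F.ρR a r) (F.v e) = F.v a := by
  rw [dd_apply, ρR_v r he.1, h, F.v_mul P.mem he.1, mul_assoc, F.mul_self, mul_one]

theorem Pair.prod_moves (P : F.Pair a) (s m : ↥(F.RR a)) {e : G}
    (hse : (s : G) * e * (s : G)⁻¹ = e) (hme : (m : G) * e * (m : G)⁻¹ = a * e) :
    ((s * m : ↥(F.RR a)) : G) * e * ((s * m : ↥(F.RR a)) : G)⁻¹ = a * e := by
  rw [Subgroup.coe_mul, mul_inv_rev,
    show (s : G) * m * e * ((m : G)⁻¹ * (s : G)⁻¹) = (s : G) * (m * e * (m : G)⁻¹) * (s : G)⁻¹ by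
      group, hme,
    show (s : G) * (a * e) * (s : G)⁻¹ = ((s : G) * a * (s : G)⁻¹) * (s * e * (s : G)⁻¹) by group,
    hse, P.good.comm _ s.2.1, mul_inv_cancel_right]

/-- Some element of the kernel moves `Q z ⊓ Q a`. -/
theorem Pair.exists_mover (P : F.Pair a) :
    ∃ r ∈ F.NN a, ∃ e ∈ Q z ⊓ Q a, (r : G) * e * (r : G)⁻¹ = a * e := by
  by_contra hno
  push Not at hno
  refine P.key (Q z ⊓ Q a) le_rfl ⟨P.mem, P.good.mem⟩ P.card_I.1 fun r hr e he => ?_
  rcases P.line.conj_E _ r.2.1 e he with c | c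
  · rw [ρR_v r he.1, c]
  · exact absurd c (hno r hr e he)

/-- The second module case is impossible. -/
theorem Pair.not_small (P : F.Pair a) (hS : F.Small) : False := by
  classical
  -- `a ∈ X`
  have haX : F.v a ∈ F.E c3 := by
    obtain ⟨r, hr, e, he, hre⟩ := P.exists_mover
    obtain ⟨w, hw⟩ : ∃ w, F.dd (F.ρR a r) w = F.v a := ⟨_, P.mover_dd he hre⟩
    obtain ⟨x, hx, u, hu, rfl⟩ := hS.split w
    have h1 : F.ρR a r u = u := hS.fix_U _ hr u hu
    rw [map_mul, dd_apply, dd_apply, h1, F.mul_self, mul_one] at hw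
    rw [← hw]
    refine (F.E c3).mul_mem ?_ hx
    rw [F.mem_E, ← NN_act hr, (hx : F.act c3 x = x)]
  obtain ⟨u, hu, hu1⟩ : ∃ u ∈ (F.dd (F.act c3)).range, u ≠ 1 := by
    by_contra h
    push Not at h
    have h4 := hS.card_U
    rw [(Subgroup.eq_bot_iff_forall _).2 h, Subgroup.card_bot] at h4
    norm_num at h4
  have hcu : F.act c3 u ≠ u := fun e => hu1 (hS.disj u hu e)
  have hcU : ∀ u ∈ (F.dd (F.act c3)).range, F.act c3 u ∈ (F.dd (F.act c3)).range := by
    rintro _ ⟨w, rfl⟩; exact ⟨F.act c3 w, by rw [dd_apply, dd_apply, map_mul]⟩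
  -- all of `C_{Q a}(z)` lies in the kernel
  have hall : ∀ r, r ∈ F.NN a := by
    intro r
    by_contra hr
    have hodd : Equiv.Perm.sign (F.πR a r).1 = -1 :=
      (invol_eq _ (congrArg Prod.fst (P.πR_sq r))).resolve_left hr
    have hinv : ∀ w, F.ρR a r (F.act c3 w) = F.act c3 (F.act c3 (F.ρR a r w)) := by
      intro w
      obtain ⟨n, hn, e⟩ := F.exists_lift_ψ c3 1
      unfold Frame.act
      rw [← e]
      have h := F.ρ_congr (m := Subgroup.inclusion (F.RR_le a) r * n)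
        (n := n * n * Subgroup.inclusion (F.RR_le a) r) ?_
      · rw [map_mul, map_mul, map_mul] at h
        exact DFunLike.congr_fun h w
      · rw [map_mul, map_mul, map_mul, hn]
        refine Prod.ext ?_ (by simp)
        exact mul_inv_eq_iff_eq_mul.1 (odd_inverts _ hodd)
    obtain ⟨u', hu', hmv⟩ : ∃ u' ∈ (F.dd (F.act c3)).range, F.ρR a r u' ≠ u' := by
      by_contra h
      push Not at h
      have e := hinv u
      rw [h u hu, h _ (hcU u hu)] at e
      exact hcu ((F.act c3).injective e).symm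
    obtain ⟨q, hq, rfl⟩ := F.exists_rep u'
    have hqa : q * a = a * q := (F.orth_v hq P.mem).1 (hS.orth _ hu' _ haX)
    have he := P.comm_mem r hq hqa
    have hve : F.v ((r : G) * q * (r : G)⁻¹ * q⁻¹) = F.ρR a r (F.v q) * F.v q := by
      rw [v_comm (rz r) hq, ρR_v r hq]
    refine hS.nonsing _ ?_ (fun e1 => hmv (F.mul_eq_one.1 e1)) (hve ▸ (F.sing_v he.1).2 (P.line.sq_E _ he))
    refine Subgroup.mul_mem _ ?_ hu'
    obtain ⟨w, hw⟩ := hu'
    refine ⟨F.act c3 (F.ρR a r w) * F.ρR a r w, ?_⟩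
    rw [← hw]
    simp only [dd_apply, map_mul, hinv]
    rw [mul_assoc, ← mul_assoc (F.act c3 (F.ρR a r w)), F.mul_self, one_mul]
  have h32 := P.card_I.2 hall
  -- some element of `I` has a component in `U`
  obtain ⟨e, he, heX⟩ : ∃ e ∈ Q z ⊓ Q a, F.v e ∉ F.E c3 := by
    by_contra h
    push Not at h
    obtain ⟨q, hq, rfl⟩ := F.exists_rep u
    have hmemC : q ∈ Q z ⊓ Subgroup.centralizer ((Q z ⊓ Q a : Subgroup G) : Set G) :=
      ⟨hq, Subgroup.mem_centralizer_iff.2 fun e he =>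
        ((F.orth_v hq he.1).1 (hS.orth _ hu _ (h e he))).symm⟩
    have hle : Q z ⊓ Q a ≤ Q z ⊓ Subgroup.centralizer ((Q z ⊓ Q a : Subgroup G) : Set G) :=
      fun e he => ⟨he.1, Subgroup.mem_centralizer_iff.2 fun f hf => P.line.comm_E f hf e he⟩
    have hb := card_centralizer_mul_card_le F.good (U := Q z ⊓ Q a) inf_le_left ⟨F.good.mem, P.z_mem⟩
    rw [F.card] at hb
    have heq := Subgroup.eq_of_le_of_card_ge hle (by nlinarith)
    have hqI : q ∈ Q z ⊓ Q a := by rw [heq]; exact hmemC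
    exact hS.nonsing _ hu hu1 ((F.sing_v hq).2 (P.line.sq_E q hqI))
  -- a lift of `c3` commuting with `a`
  obtain ⟨n, hn, hρn⟩ := F.exists_lift_ψ c3 1
  obtain ⟨n', hn', hna⟩ : ∃ n' : ↥(Subgroup.centralizer ({z} : Set G)),
      F.ρ n' = F.act c3 ∧ (n' : G) * a = a * n' := by
    have h1 : F.v ((n : G) * a * (n : G)⁻¹) = F.v a := by
      rw [← F.ρ_v n P.mem, hρn]; exact haX
    rcases (F.v_eq (F.norm_mem n P.mem) P.mem).1 h1 with h | h
    · exact ⟨n, hρn, mul_inv_eq_iff_eq_mul.1 h⟩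
    · obtain ⟨p, hp, hpa⟩ : ∃ p ∈ Q z, p * a * p⁻¹ = z * a := by
        by_contra hcon
        push Not at hcon
        rcases F.good.center a P.mem fun q hq => mul_inv_eq_iff_eq_mul.1
          ((F.good.cases_conj q hq a P.mem).resolve_right (hcon q hq)) with e | e
        · exact P.v_ne_one (by rw [e]; exact F.v_one)
        · exact P.ne e
      refine ⟨n * ⟨p, Subgroup.mem_centralizer_singleton_iff.2 (F.good.comm p hp)⟩, ?_, ?_⟩
      · rw [map_mul, F.ρ_of_mem (m := ⟨p, _⟩) hp, mul_one, hρn]; rfl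
      · rw [← mul_inv_eq_iff_eq_mul]
        show (n : G) * p * a * ((n : G) * p)⁻¹ = a
        rw [show (n : G) * p * a * ((n : G) * p)⁻¹ = (n : G) * (p * a * p⁻¹) * (n : G)⁻¹ by group, hpa,
          show (n : G) * (z * a) * (n : G)⁻¹ = ((n : G) * z * (n : G)⁻¹) * ((n : G) * a * (n : G)⁻¹) by
            group, h, Subgroup.mem_centralizer_singleton_iff.1 n.2, mul_inv_cancel_right,
          ← mul_assoc, F.good.sq_u, one_mul]
  set e' : G := (n' : G) * e * (n' : G)⁻¹ * e⁻¹ with he'def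
  have he' : e' ∈ Q z ⊓ Q a :=
    ⟨(Q z).mul_mem (F.norm_mem n' he.1) ((Q z).inv_mem he.1),
      (Q a).mul_mem (P.good.norm _ hna e he.2) ((Q a).inv_mem he.2)⟩
  have hve' : F.v e' = F.dd (F.act c3) (F.v e) := by
    rw [he'def, v_comm (Subgroup.mem_centralizer_singleton_iff.1 n'.2) he.1, dd_apply, ← hn',
      F.ρ_v n' he.1]
  have hU' : F.v e' ∈ (F.dd (F.act c3)).range := ⟨_, hve'.symm⟩
  have hne' : F.v e' ≠ 1 := fun h1 => heX (by rwa [hve', dd_apply, F.mul_eq_one] at h1)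
  obtain ⟨r, hr, hrU, hflip⟩ := P.good.exists_flip (U := F.pre (F.E c3) ⊓ Q a) inf_le_right
    ⟨⟨P.mem, haX⟩, P.good.mem⟩ he'.2 (fun hh => hne' (hS.disj _ hU' hh.1.2))
  have hrz : r * z = z * r := hrU z ⟨⟨F.good.mem, by rw [F.v_z]; exact one_mem _⟩, P.z_mem⟩
  have hrR : r ∈ F.RR a := ⟨hr, Subgroup.mem_centralizer_singleton_iff.2 hrz⟩
  have hfx : F.ρR a ⟨r, hrR⟩ (F.v e') = F.v e' := hS.fix_U _ (hall ⟨r, hrR⟩) _ hU'
  rw [ρR_v _ he'.1] at hfx
  simp only [hflip] at hfx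
  rw [F.v_mul P.mem he'.1] at hfx
  exact P.v_ne_one (mul_eq_right.1 hfx)

theorem Pair.free (P : F.Pair a) : F.Free := F.free_or_small.resolve_right P.not_small

/-- A subgroup of `range [V, r]` fixed by the kernel is impossible. -/
theorem Pair.key_range (P : F.Pair a) (r : ↥(F.RR a))
    (h16 : 16 ≤ Nat.card (F.dd (F.ρR a r)).range) (ha : F.v a ∈ (F.dd (F.ρR a r)).range)
    (hfix : ∀ s ∈ F.NN a, ∀ w, F.ρR a s (F.dd (F.ρR a r) w) = F.dd (F.ρR a r) w) : False := by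
  classical
  set H := F.pre (F.dd (F.ρR a r)).range with hH
  set J : Subgroup G := Q z ⊓ Q a ⊓ H
  have hmem : ∀ x ∈ H, ∀ q ∈ Q z, q * a = a * q → F.dd (F.ρR a r) (F.v q) = F.v x → x ∈ J := by
    intro x hx q hq hqa e
    refine ⟨?_, hx⟩
    have hcm := P.comm_mem r hq hqa
    rw [dd_apply, ρR_v r hq, ← v_comm (rz r) hq] at e
    rcases (F.v_eq hx.1 hcm.1).1 e.symm with h | h <;> rw [h]
    · exact hcm
    · exact Subgroup.mul_mem _ ⟨F.good.mem, P.z_mem⟩ hcm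
  have hidx : Nat.card H ≤ 2 * Nat.card J := by
    refine card_le_two_mul fun x hx hxJ y hy hyJ => ?_
    obtain ⟨wx, ex⟩ := hx.2
    obtain ⟨wy, ey⟩ := hy.2
    obtain ⟨qx, hqx, rfl⟩ := F.exists_rep wx
    obtain ⟨qy, hqy, rfl⟩ := F.exists_rep wy
    have hx' : qx * a ≠ a * qx := fun e => hxJ (hmem x hx qx hqx e ex)
    have hy' : qy * a ≠ a * qy := fun e => hyJ (hmem y hy qy hqy e ey)
    refine hmem _ (Subgroup.mul_mem _ hx hy) (qx * qy) ((Q z).mul_mem hqx hqy)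
      (F.good.flip_mul hqx hqy (F.good.flip_of_not_comm hqx P.mem hx')
        (F.good.flip_of_not_comm hqy P.mem hy')) ?_
    rw [F.v_mul hqx hqy, map_mul, ex, ey, F.v_mul hx.1 hy.1]
  rw [hH, F.card_pre] at hidx
  refine P.key J inf_le_left ⟨⟨P.mem, P.good.mem⟩, P.mem, ha⟩ (by omega) fun s hs e he => ?_
  obtain ⟨w, hw⟩ := he.2.2
  rw [← hw]
  exact hfix s hs w

section FreeCase

theorem E_conj (σ : P3) {τ : P3} {u : F.V} (h : u ∈ F.E τ) :
    F.act σ u ∈ F.E (σ * τ * σ⁻¹) := by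
  rw [F.mem_E, ← MulAut.mul_apply, ← act_mul, show σ * τ * σ⁻¹ * σ = σ * τ by group, act_mul,
    MulAut.mul_apply, (h : F.act τ u = u)]

theorem mem_E_of_NN {r : ↥(F.RR a)} (hr : r ∈ F.NN a) {τ : P3} {u : F.V} (h : u ∈ F.E τ) :
    F.dd (F.ρR a r) u ∈ F.E τ := by
  refine (F.E τ).mul_mem ?_ h
  rw [F.mem_E, ← NN_act hr, (h : F.act τ u = u)]

theorem Pair.dd_dd (P : F.Pair a) (r : ↥(F.RR a)) (u : F.V) :
    F.ρR a r (F.dd (F.ρR a r) u) = F.dd (F.ρR a r) u :=
  (F.mem_ker_dd _ _).1 (F.range_le_ker (P.ρR_sq r) ⟨u, rfl⟩)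

/-- The product of two moves. -/
theorem Pair.dd_mul (P : F.Pair a) (r m : ↥(F.RR a)) (u : F.V) :
    F.dd (F.ρR a (r * m)) u = F.ρR a r (F.dd (F.ρR a m) u) * F.dd (F.ρR a r) u := by
  rw [dd_apply, dd_apply, dd_apply, map_mul, MulAut.mul_apply, map_mul, mul_assoc,
    ← mul_assoc (F.ρR a r u), F.mul_self, one_mul]

/-- Lifting a decomposition to the range on `V`. -/
theorem Pair.range_decomp (P : F.Pair a) (hF : F.Free) {τ : P3} (hτ : Equiv.Perm.sign τ = -1)
    {r : ↥(F.RR a)} (hr : r ∈ F.NN a) (w : F.V) :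
    ∃ x ∈ F.E τ, ∃ y ∈ F.E τ,
      F.dd (F.ρR a r) w = F.dd (F.ρR a r) x * F.act c3 (F.dd (F.ρR a r) y) ∧ w = x * F.act c3 y := by
  obtain ⟨x, hx, y', hy', rfl⟩ := hF.split τ _ hτ (conj_c3_odd hτ).1 (conj_c3_odd hτ).2 w
  have hy : (F.act c3).symm y' ∈ F.E τ := by
    rw [F.mem_E]
    apply (F.act c3).injective
    rw [MulEquiv.apply_symm_apply, ← MulAut.mul_apply, ← act_mul]
    calc F.act (c3 * τ) ((F.act c3).symm y')
        = F.act (c3 * τ * c3⁻¹ * c3) ((F.act c3).symm y') := by rw [inv_mul_cancel_right]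
      _ = F.act (c3 * τ * c3⁻¹) y' := by
        rw [act_mul, MulAut.mul_apply, MulEquiv.apply_symm_apply]
      _ = y' := hy'
  refine ⟨x, hx, _, hy, ?_, by rw [MulEquiv.apply_symm_apply]⟩
  rw [map_mul]
  congr 1
  conv_lhs => rw [← (F.act c3).apply_symm_apply y', dd_apply, NN_act hr]
  rw [dd_apply, map_mul]

theorem Pair.sixteen_range (P : F.Pair a) (hF : F.Free) {τ : P3} (hτ : Equiv.Perm.sign τ = -1)
    {r : ↥(F.RR a)} (hr : r ∈ F.NN a)
    (h4 : 4 ≤ Nat.card ((F.E τ).map (F.dd (F.ρR a r)))) :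
    16 ≤ Nat.card (F.dd (F.ρR a r)).range := by
  set S := (F.E τ).map (F.dd (F.ρR a r)) with hS
  have hSE : ∀ s ∈ S, s ∈ F.E τ := by
    rintro _ ⟨x, hx, rfl⟩; exact mem_E_of_NN hr hx
  let f : S × S → (F.dd (F.ρR a r)).range := fun p =>
    ⟨(p.1 : F.V) * F.act c3 (p.2 : F.V), by
      obtain ⟨x, hx, ex⟩ := p.1.2
      obtain ⟨y, hy, ey⟩ := p.2.2
      exact ⟨x * F.act c3 y, by rw [map_mul, ex, ← ey, dd_apply, dd_apply, NN_act hr, map_mul]⟩⟩
  have hinj : Function.Injective f := by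
    rintro ⟨x, y⟩ ⟨x', y'⟩ e
    have e := congrArg Subtype.val e
    simp only [f] at e
    have h1 : (x : F.V) * x' = F.act c3 ((y : F.V) * y') := by
      rw [map_mul]
      calc (x : F.V) * x' = (x : F.V) * F.act c3 y * (F.act c3 (y : F.V) * x') := by
            rw [mul_assoc, ← mul_assoc (F.act c3 (y : F.V)), F.mul_self, one_mul]
        _ = (x' : F.V) * F.act c3 y' * (F.act c3 (y : F.V) * x') := by rw [e]
        _ = ((x' : F.V) * x') * (F.act c3 (y : F.V) * F.act c3 y') := by ac_rfl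
        _ = _ := by rw [F.mul_self, one_mul]
    have h2 := hF.disjoint τ _ hτ (conj_c3_odd hτ).1 (conj_c3_odd hτ).2 _
      ((F.E τ).mul_mem (hSE _ x.2) (hSE _ x'.2))
      (h1 ▸ E_conj c3 ((F.E τ).mul_mem (hSE _ y.2) (hSE _ y'.2)))
    rw [h2] at h1
    exact Prod.ext (Subtype.ext (F.mul_eq_one.1 h2))
      (Subtype.ext (F.mul_eq_one.1 ((F.act c3).injective (h1.symm.trans (map_one _).symm))))
  have := Nat.card_le_card_of_injective f hinj
  rw [Nat.card_prod] at this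
  nlinarith

theorem Pair.range_fixed (P : F.Pair a) (hF : F.Free) {τ : P3} (hτ : Equiv.Perm.sign τ = -1)
    {r : ↥(F.RR a)} (hr : r ∈ F.NN a) {s : ↥(F.RR a)} (hs : s ∈ F.NN a)
    (hfix : ∀ x ∈ F.E τ, F.ρR a s (F.dd (F.ρR a r) x) = F.dd (F.ρR a r) x) (w : F.V) :
    F.ρR a s (F.dd (F.ρR a r) w) = F.dd (F.ρR a r) w := by
  obtain ⟨x, hx, y, hy, e, -⟩ := P.range_decomp hF hτ hr w
  rw [e, map_mul, hfix x hx, NN_act hs, hfix y hy]

theorem Pair.card_map_le_four (P : F.Pair a) (hF : F.Free) {τ : P3} (hτ : Equiv.Perm.sign τ = -1)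
    {r : ↥(F.RR a)} (hr : r ∈ F.NN a) :
    Nat.card ((F.E τ).map (F.dd (F.ρR a r))) ≤ 4 := by
  let d : F.E τ →* F.V := (F.dd (F.ρR a r)).comp (F.E τ).subtype
  have hr' : d.range = (F.E τ).map (F.dd (F.ρR a r)) := by
    rw [MonoidHom.range_comp, Subgroup.range_subtype]
  have h := Subgroup.card_mul_index d.ker
  rw [Subgroup.index_ker, hF.card_E τ hτ, hr'] at h
  have hle : Nat.card ((F.E τ).map (F.dd (F.ρR a r))) ≤ Nat.card d.ker := by
    refine Nat.card_le_card_of_injective (fun u => ⟨⟨(u : F.V), ?_⟩, ?_⟩) ?_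
    · obtain ⟨x, hx, e⟩ := u.2
      rw [← e]; exact mem_E_of_NN hr hx
    · obtain ⟨x, hx, e⟩ := u.2
      show F.dd (F.ρR a r) (u : F.V) = 1
      rw [← MonoidHom.mem_ker, F.mem_ker_dd, ← e]
      exact P.dd_dd r x
    · intro x y e
      exact Subtype.ext (congrArg (fun t : d.ker => ((t : F.E τ) : F.V)) e :)
  nlinarith

/-- `a` is fixed modulo `z` by a transposition. -/
theorem Pair.pure (P : F.Pair a) : ∃ τ, Equiv.Perm.sign τ = -1 ∧ F.v a ∈ F.E τ := by
  classical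
  have hF := P.free
  by_contra hno
  push Not at hno
  let t1 : P3 := c3 * t0 * c3⁻¹
  obtain ⟨v0, hv0, y', hy', hay⟩ := hF.split t0 t1 t0_sign (conj_c3_odd t0_sign).1 (conj_c3_odd t0_sign).2 (F.v a)
  obtain ⟨y, hy, rfl⟩ : ∃ y ∈ F.E t0, F.act c3 y = y' := by
    refine ⟨(F.act c3).symm y', ?_, MulEquiv.apply_symm_apply _ _⟩
    rw [F.mem_E]
    apply (F.act c3).injective
    rw [MulEquiv.apply_symm_apply, ← MulAut.mul_apply, ← act_mul]
    calc F.act (c3 * t0) ((F.act c3).symm y')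
        = F.act (c3 * t0 * c3⁻¹ * c3) ((F.act c3).symm y') := by rw [inv_mul_cancel_right]
      _ = F.act (c3 * t0 * c3⁻¹) y' := by
        rw [act_mul, MulAut.mul_apply, MulEquiv.apply_symm_apply]
      _ = y' := hy'
  have hv01 : v0 ≠ 1 := by
    rintro rfl
    rw [one_mul] at hay
    exact hno _ (conj_c3_odd t0_sign).1 (hay ▸ E_conj c3 hy)
  have hy1 : y ≠ 1 := by
    rintro rfl
    rw [map_one, mul_one] at hay
    exact hno t0 t0_sign (hay ▸ hv0)
  have hne : v0 ≠ y := by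
    rintro rfl
    have h3 : v0 * F.act c3 v0 * F.act c3 (F.act c3 v0) = 1 := by
      refine hF.cfree _ ?_
      rw [map_mul, map_mul, F.act_c3_cube]
      ac_rfl
    rw [F.mul_eq_one.1 h3] at hay
    exact hno _ (conj_c3_odd (conj_c3_odd t0_sign).1).1 (hay ▸ E_conj c3 (E_conj c3 hy))
  -- the subgroup `{1, v0, y, v0 y}` for every mover
  have hmov : ∀ m ∈ F.NN a, ∀ w, F.dd (F.ρR a m) w = F.v a →
      v0 ∈ (F.E t0).map (F.dd (F.ρR a m)) ∧ y ∈ (F.E t0).map (F.dd (F.ρR a m)) := by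
    intro m hm w hw
    obtain ⟨x, hx, x', hx', e, -⟩ := P.range_decomp hF t0_sign hm w
    rw [hw, hay] at e
    have h1 : v0 * F.dd (F.ρR a m) x = F.act c3 y * F.act c3 (F.dd (F.ρR a m) x') := by
      calc v0 * F.dd (F.ρR a m) x = (v0 * F.act c3 y) * (F.act c3 y * F.dd (F.ρR a m) x) := by
            rw [mul_assoc, ← mul_assoc (F.act c3 y), F.mul_self, one_mul]
        _ = (F.dd (F.ρR a m) x * F.act c3 (F.dd (F.ρR a m) x')) *
            (F.act c3 y * F.dd (F.ρR a m) x) := by rw [e]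
        _ = (F.dd (F.ρR a m) x * F.dd (F.ρR a m) x) *
            (F.act c3 y * F.act c3 (F.dd (F.ρR a m) x')) := by ac_rfl
        _ = _ := by rw [F.mul_self, one_mul]
    have h2 := hF.disjoint t0 t1 t0_sign (conj_c3_odd t0_sign).1 (conj_c3_odd t0_sign).2 _
      ((F.E t0).mul_mem hv0 (mem_E_of_NN hm hx))
      (by rw [h1, ← map_mul]; exact E_conj c3 ((F.E t0).mul_mem hy (mem_E_of_NN hm hx')))
    refine ⟨⟨x, hx, (F.mul_eq_one.1 h2).symm⟩, ⟨x', hx', ?_⟩⟩
    rw [h2, ← map_mul] at h1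
    exact (F.mul_eq_one.1 ((F.act c3).injective (h1.symm.trans (map_one _).symm))).symm
  have hS4 : ∀ m ∈ F.NN a, (∃ w, F.dd (F.ρR a m) w = F.v a) → ∀ s : F.V,
      s ∈ (F.E t0).map (F.dd (F.ρR a m)) ↔ s = 1 ∨ s = v0 ∨ s = y ∨ s = v0 * y := by
    rintro m hm ⟨w, hw⟩ s
    obtain ⟨h0, hy'⟩ := hmov m hm w hw
    constructor
    · intro hs
      by_contra hne'
      push Not at hne'
      have hsub : (({1, v0, y, v0 * y, s} : Finset F.V) : Set F.V) ⊆
          ((F.E t0).map (F.dd (F.ρR a m)) : Set F.V) := by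
        intro t ht
        simp at ht
        rcases ht with rfl | rfl | rfl | rfl | rfl
        · exact one_mem _
        · exact h0
        · exact hy'
        · exact Subgroup.mul_mem _ h0 hy'
        · exact hs
      have hd : ({1, v0, y, v0 * y, s} : Finset F.V).card = 5 := by
        have a1 : v0 * y ≠ 1 := fun e => hne (F.mul_eq_one.1 e)
        have a2 : v0 * y ≠ v0 := fun e => hy1 (mul_eq_left.mp e)
        have a3 : v0 * y ≠ y := fun e => hv01 (mul_eq_right.mp e)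
        simp [hv01.symm, hy1.symm, hne, a1.symm, a2.symm, a3.symm, hne'.1.symm, hne'.2.1.symm,
          hne'.2.2.1.symm, hne'.2.2.2.symm]
      have := Set.ncard_le_ncard hsub (Set.toFinite _)
      rw [Set.ncard_coe_finset, hd, ← Nat.card_coe_set_eq] at this
      have h5 : 5 ≤ Nat.card ((F.E t0).map (F.dd (F.ρR a m))) := this
      have := P.card_map_le_four hF t0_sign hm
      omega
    · rintro (rfl | rfl | rfl | rfl)
      · exact one_mem _
      · exact h0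
      · exact hy'
      · exact Subgroup.mul_mem _ h0 hy'
  obtain ⟨m, hm, em, hem, hme⟩ := P.exists_mover
  obtain ⟨w, hw⟩ : ∃ w, F.dd (F.ρR a m) w = F.v a := ⟨_, P.mover_dd hem hme⟩
  -- every kernel element fixes `v0` and `y`
  have hfix : ∀ s ∈ F.NN a, F.ρR a s v0 = v0 ∧ F.ρR a s y = y := by
    have hmv : ∀ s ∈ F.NN a, ∀ e ∈ Q z ⊓ Q a, (s : G) * e * (s : G)⁻¹ = a * e →
        F.ρR a s v0 = v0 ∧ F.ρR a s y = y := by
      intro s hs e he hse
      obtain ⟨⟨x, -, ex⟩, ⟨x', -, ex'⟩⟩ := hmov s hs _ (P.mover_dd he hse)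
      constructor
      · rw [← ex]; exact P.dd_dd s x
      · rw [← ex']; exact P.dd_dd s x'
    intro s hs
    by_cases hsm : ∃ e ∈ Q z ⊓ Q a, (s : G) * e * (s : G)⁻¹ = a * e
    · obtain ⟨e, he, hse⟩ := hsm
      exact hmv s hs e he hse
    push Not at hsm
    have hse : (s : G) * em * (s : G)⁻¹ = em :=
      (P.line.conj_E _ s.2.1 em hem).resolve_right (hsm em hem)
    have hprod := P.prod_moves s m hse hme
    obtain ⟨f1, f2⟩ := hmv (s * m) (mul_mem hs hm) em hem hprod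
    obtain ⟨g1, g2⟩ := hmv m hm em hem hme
    rw [map_mul, MulAut.mul_apply, g1] at f1
    rw [map_mul, MulAut.mul_apply, g2] at f2
    exact ⟨f1, f2⟩
  have h4 : 4 ≤ Nat.card ((F.E t0).map (F.dd (F.ρR a m))) := by
    have a1 : v0 * y ≠ 1 := fun e => hne (F.mul_eq_one.1 e)
    have a2 : v0 * y ≠ v0 := fun e => hy1 (mul_eq_left.mp e)
    have a3 : v0 * y ≠ y := fun e => hv01 (mul_eq_right.mp e)
    have hsub : (({1, v0, y, v0 * y} : Finset F.V) : Set F.V) ⊆
        ((F.E t0).map (F.dd (F.ρR a m)) : Set F.V) := by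
      intro t ht
      simp at ht
      exact (hS4 m hm ⟨w, hw⟩ t).2 ht
    have hd : ({1, v0, y, v0 * y} : Finset F.V).card = 4 := by
      simp [hv01.symm, hy1.symm, hne, a1.symm, a2.symm, a3.symm]
    have := Set.ncard_le_ncard hsub (Set.toFinite _)
    rwa [Set.ncard_coe_finset, hd, ← Nat.card_coe_set_eq] at this
  refine P.key_range m (P.sixteen_range hF t0_sign hm h4) ⟨w, hw⟩ fun s hs u =>
    P.range_fixed hF t0_sign hm hs (fun x hx => ?_) u
  obtain ⟨f1, f2⟩ := hfix s hs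
  rcases (hS4 m hm ⟨w, hw⟩ _).1 ⟨x, hx, rfl⟩ with e | e | e | e <;> rw [e]
  · exact map_one _
  · exact f1
  · exact f2
  · rw [map_mul, f1, f2]

theorem Pair.orth_dd_symm (P : F.Pair a) (r : ↥(F.RR a)) (u w : F.V) :
    F.Orth (F.dd (F.ρR a r) u) w ↔ F.Orth u (F.dd (F.ρR a r) w) := by
  have h : F.Orth (F.ρR a r u) w ↔ F.Orth u (F.ρR a r w) := by
    conv_lhs => rw [show w = F.ρR a r (F.ρR a r w) by
      rw [← MulAut.mul_apply, P.ρR_sq, MulAut.one_apply]]
    exact F.orth_ρ _ u _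
  rw [F.orth_comm (u := u), dd_apply, dd_apply, F.orth_mul_iff, F.orth_mul_iff, h,
    F.orth_comm (u := F.ρR a r w), F.orth_comm (u := w)]

/-- Kernel elements agreeing on one fixed space agree on `V`. -/
theorem Pair.eq_of_eq_on_E (P : F.Pair a) (hF : F.Free) {τ : P3} (hτ : Equiv.Perm.sign τ = -1)
    {r s : ↥(F.RR a)} (hr : r ∈ F.NN a) (hs : s ∈ F.NN a)
    (h : ∀ x ∈ F.E τ, F.dd (F.ρR a r) x = F.dd (F.ρR a s) x) : F.ρR a r = F.ρR a s := by
  have h' : ∀ x ∈ F.E τ, F.ρR a r x = F.ρR a s x := fun x hx => by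
    have := h x hx
    rw [dd_apply, dd_apply] at this
    exact mul_right_cancel this
  ext u
  obtain ⟨x, hx, y, hy, -, rfl⟩ := P.range_decomp hF hτ hr u
  rw [map_mul, map_mul, NN_act hr, NN_act hs, h' x hx, h' y hy]

theorem Pair.card_I_le (P : F.Pair a) : Nat.card ↥(Q z ⊓ Q a) ≤ 32 := by
  have h := card_centralizer_mul_card_le F.good (U := Q z ⊓ Q a) inf_le_left ⟨F.good.mem, P.z_mem⟩
  have hle : Q z ⊓ Q a ≤ Q z ⊓ Subgroup.centralizer ((Q z ⊓ Q a : Subgroup G) : Set G) :=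
    fun e he => ⟨he.1, Subgroup.mem_centralizer_iff.2 fun f hf => P.line.comm_E f hf e he⟩
  have h2 := Subgroup.card_le_of_le hle
  rw [F.card] at h
  nlinarith

/-- The kernel moves some element of the fixed space of `a` out of `{1, a}`. -/
theorem Pair.no_line (P : F.Pair a) (hF : F.Free) {τ : P3} (hτ : Equiv.Perm.sign τ = -1)
    (ha : F.v a ∈ F.E τ)
    (hline : ∀ r ∈ F.NN a, ∀ x ∈ F.E τ, F.dd (F.ρR a r) x = 1 ∨ F.dd (F.ρR a r) x = F.v a) :
    False := by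
  classical
  have hc := (conj_c3_odd hτ).1
  have hker : ∀ r ∈ F.NN a, (∃ y ∈ F.E τ, F.dd (F.ρR a r) y ≠ 1) → ∀ x ∈ F.E τ,
      (F.dd (F.ρR a r) x = 1 ↔ F.Orth x (F.act c3 (F.v a))) := by
    rintro r hr ⟨y0, hy0, hy0'⟩ x hx
    constructor
    · intro e
      have := (P.orth_dd_symm r x (F.act c3 y0)).1 (e ▸ F.orth_one _)
      rw [dd_apply, NN_act hr, ← map_mul, ← dd_apply, (hline r hr y0 hy0).resolve_left hy0'] at this
      exact this
    · intro ho
      refine F.orth_nondeg fun w => ?_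
      rw [P.orth_dd_symm]
      obtain ⟨x1, hx1, y1, hy1, e, -⟩ := P.range_decomp hF hτ hr w
      rw [e, F.orth_comm, F.orth_mul_iff]
      refine iff_of_true ?_ ?_
      · exact F.orth_comm.1 (hF.isotropic τ hτ x hx _ (mem_E_of_NN hr hx1))
      · rcases hline r hr y1 hy1 with e1 | e1 <;> rw [e1]
        · rw [map_one]; exact F.orth_one _
        · exact F.orth_comm.1 ho
  have hnt : ∀ r ∈ F.NN a, r ∉ (F.πR a).ker → ∃ y ∈ F.E τ, F.dd (F.ρR a r) y ≠ 1 := by
    intro r hr hrk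
    by_contra h
    push Not at h
    apply hrk
    have he := P.eq_of_eq_on_E hF hτ hr (one_mem _) (fun x hx => by
      rw [h x hx, map_one, dd_apply, MulAut.one_apply, F.mul_self])
    rw [map_one] at he
    exact (πR_eq_one r).2 (F.mem_of_ρ_eq_one (m := Subgroup.inclusion (F.RR_le a) r) he)
  have h2 : Nat.card (F.NN a) ≤ 2 * Nat.card (F.πR a).ker := by
    refine card_le_two_mul fun r hr hrk s hs hsk => ?_
    have he : F.ρR a r = F.ρR a s := by
      refine P.eq_of_eq_on_E hF hτ hr hs fun x hx => ?_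
      have a1 := hker r hr (hnt r hr hrk) x hx
      have a2 := hker s hs (hnt s hs hsk) x hx
      by_cases ho : F.Orth x (F.act c3 (F.v a))
      · rw [a1.2 ho, a2.2 ho]
      · rw [(hline r hr x hx).resolve_left (mt a1.1 ho), (hline s hs x hx).resolve_left (mt a2.1 ho)]
    have h1 : F.ρR a (r * s) = 1 := by rw [map_mul, he, P.ρR_sq]
    exact (πR_eq_one (r * s)).2
      (F.mem_of_ρ_eq_one (m := Subgroup.inclusion (F.RR_le a) (r * s)) h1)
  rw [P.card_ker] at h2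
  have := P.card_NN
  have := P.card_I_le
  omega

theorem Pair.mover_map (P : F.Pair a) (hF : F.Free) {τ : P3} (hτ : Equiv.Perm.sign τ = -1)
    (ha : F.v a ∈ F.E τ) {r : ↥(F.RR a)} (hr : r ∈ F.NN a) {e : G} (he : e ∈ Q z ⊓ Q a)
    (h : (r : G) * e * (r : G)⁻¹ = a * e) : F.v a ∈ (F.E τ).map (F.dd (F.ρR a r)) := by
  obtain ⟨x, hx, y, hy, e', -⟩ := P.range_decomp hF hτ hr (F.v e)
  rw [P.mover_dd he h] at e'
  have h1 : F.v a * F.dd (F.ρR a r) x = F.act c3 (F.dd (F.ρR a r) y) := by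
    rw [e', mul_comm (F.dd (F.ρR a r) x), mul_assoc, F.mul_self, mul_one]
  have h2 := hF.disjoint τ _ hτ (conj_c3_odd hτ).1 (conj_c3_odd hτ).2 _
    ((F.E τ).mul_mem ha (mem_E_of_NN hr hx)) (h1 ▸ E_conj c3 (mem_E_of_NN hr hy))
  exact ⟨x, hx, (F.mul_eq_one.1 h2).symm⟩

/-- `Q z ⊓ Q a` meets the fixed space of `a` in exactly sixteen elements. -/
theorem Pair.card_J (P : F.Pair a) (hF : F.Free) {τ : P3} (hτ : Equiv.Perm.sign τ = -1)
    (ha : F.v a ∈ F.E τ) : Nat.card ↥(Q z ⊓ Q a ⊓ F.pre (F.E τ)) = 16 := by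
  classical
  set J := Q z ⊓ Q a ⊓ F.pre (F.E τ) with hJ
  have hpre : Nat.card (F.pre (F.E τ)) = 32 := by rw [F.card_pre, hF.card_E τ hτ]
  have hdvd : Nat.card J ∣ 2 ^ 5 := by
    have := Subgroup.card_dvd_of_le (inf_le_right : J ≤ F.pre (F.E τ))
    rw [hpre] at this
    exact this.trans (by norm_num)
  obtain ⟨k, hk5, hk⟩ := (Nat.dvd_prime_pow Nat.prime_two).1 hdvd
  have hne : k ≠ 5 := by
    rintro rfl
    have e := Subgroup.eq_of_le_of_card_ge (inf_le_right : J ≤ F.pre (F.E τ))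
      (by rw [hpre, hk]; norm_num)
    refine P.no_line hF hτ ha fun r hr x hx => ?_
    obtain ⟨q, hq, rfl⟩ := F.exists_rep x
    have hqJ : q ∈ J := SetLike.ext_iff.1 e q |>.2 ⟨hq, hx⟩
    rcases P.line.conj_E _ r.2.1 q hqJ.1 with c | c
    · left; rw [dd_apply, ρR_v r hq, c, F.mul_self]
    · exact Or.inr (P.mover_dd hqJ.1 c)
  suffices hk4 : ¬ k ≤ 3 by
    rw [hk, show k = 4 by omega]; norm_num
  intro hk3
  have hJ8 : Nat.card J ≤ 8 := by
    rw [hk]
    calc 2 ^ k ≤ 2 ^ 3 := Nat.pow_le_pow_right (by norm_num) hk3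
      _ = 8 := by norm_num
  have hsub : ∀ r ∈ F.NN a, F.pre ((F.E τ).map (F.dd (F.ρR a r))) ≤ J := by
    rintro r hr g ⟨hg, x, hx, e⟩
    refine ⟨?_, hg, e ▸ mem_E_of_NN hr hx⟩
    obtain ⟨q, hq, rfl⟩ := F.exists_rep x
    have hqa : q * a = a * q := (F.orth_v hq P.mem).1 (hF.isotropic τ hτ _ hx _ ha)
    have hcm := P.comm_mem r hq hqa
    rw [dd_apply, ρR_v r hq, ← v_comm (rz r) hq] at e
    rcases (F.v_eq hg hcm.1).1 e.symm with h | h <;> rw [h]
    · exact hcm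
    · exact Subgroup.mul_mem _ ⟨F.good.mem, P.z_mem⟩ hcm
  have haJ : a ∈ J := ⟨⟨P.mem, P.good.mem⟩, P.mem, ha⟩
  by_cases hbig : ∃ r ∈ F.NN a, 4 ≤ Nat.card ((F.E τ).map (F.dd (F.ρR a r)))
  · obtain ⟨r, hr, h4⟩ := hbig
    have heq : F.pre ((F.E τ).map (F.dd (F.ρR a r))) = J :=
      Subgroup.eq_of_le_of_card_ge (hsub r hr) (by rw [F.card_pre]; omega)
    have hvJ : ∀ g ∈ J, F.v g ∈ (F.E τ).map (F.dd (F.ρR a r)) := fun g hg => by
      rw [← heq] at hg; exact hg.2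
    obtain ⟨x, -, ex⟩ := hvJ a haJ
    refine P.key_range r (P.sixteen_range hF hτ hr h4) ⟨x, ex⟩ fun s hs w =>
      P.range_fixed hF hτ hr hs (fun x hx => ?_) w
    obtain ⟨g, hg, eg⟩ := F.exists_rep (F.dd (F.ρR a s) x)
    have hgJ : g ∈ J := hsub s hs ⟨hg, x, hx, eg.symm⟩
    obtain ⟨y, -, ey⟩ := hvJ g hgJ
    rw [← F.mul_eq_one]
    have hc : F.ρR a s (F.dd (F.ρR a r) x) * F.dd (F.ρR a r) x =
        F.ρR a r (F.dd (F.ρR a s) x) * F.dd (F.ρR a s) x := by
      simp only [dd_apply, map_mul, P.ρR_comm s r]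
      ac_rfl
    rw [hc, F.mul_eq_one, ← eg, ← ey]
    exact P.dd_dd r y
  · push Not at hbig
    have hmap : ∀ r ∈ F.NN a, ∀ e ∈ Q z ⊓ Q a, (r : G) * e * (r : G)⁻¹ = a * e →
        ∀ x ∈ F.E τ, F.dd (F.ρR a r) x = 1 ∨ F.dd (F.ρR a r) x = F.v a := by
      intro r hr e he h x hx
      set M := (F.E τ).map (F.dd (F.ρR a r))
      have h2 : Nat.card M ≤ 2 := by
        have hd := Subgroup.card_dvd_of_le (show M ≤ F.E τ by
          rintro _ ⟨y, hy, rfl⟩; exact mem_E_of_NN hr hy)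
        rw [hF.card_E τ hτ] at hd
        have : Nat.card M < 4 := hbig r hr
        have : Nat.card M ≠ 3 := fun e => by rw [e] at hd; norm_num at hd
        omega
      by_contra hcon
      push Not at hcon
      have hsub' : (({1, F.v a, F.dd (F.ρR a r) x} : Finset F.V) : Set F.V) ⊆ (M : Set F.V) := by
        intro t ht
        simp at ht
        rcases ht with rfl | rfl | rfl
        · exact M.one_mem
        · exact P.mover_map hF hτ ha hr he h
        · exact ⟨x, hx, rfl⟩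
      have hd : ({1, F.v a, F.dd (F.ρR a r) x} : Finset F.V).card = 3 := by
        simp [P.v_ne_one.symm, hcon.1.symm, hcon.2.symm]
      have := Set.ncard_le_ncard hsub' (Set.toFinite _)
      rw [Set.ncard_coe_finset, hd, ← Nat.card_coe_set_eq] at this
      have : 3 ≤ Nat.card M := this
      omega
    obtain ⟨m, hm, em, hem, hme⟩ := P.exists_mover
    refine P.no_line hF hτ ha fun s hs x hx => ?_
    by_cases hsm : ∃ e ∈ Q z ⊓ Q a, (s : G) * e * (s : G)⁻¹ = a * e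
    · obtain ⟨e, he, hse⟩ := hsm
      exact hmap s hs e he hse x hx
    push Not at hsm
    have hse : (s : G) * em * (s : G)⁻¹ = em :=
      (P.line.conj_E _ s.2.1 em hem).resolve_right (hsm em hem)
    have hprod := P.prod_moves s m hse hme
    have h1 := hmap (s * m) (mul_mem hs hm) em hem hprod x hx
    rw [P.dd_mul] at h1
    rcases hmap m hm em hem hme x hx with e | e <;> rw [e] at h1
    · rwa [map_one, one_mul] at h1
    · rw [P.NN_fix_self] at h1
      rcases h1 with e1 | e1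
      · exact Or.inr (F.mul_eq_one.1 e1).symm
      · exact Or.inl (mul_eq_left.1 e1)

end FreeCase

end Frame

end CfsgLib.SThreeSSix.Direct
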